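import Cfsg.Agent.Lib.Helper23.GalAvg

/-! Traces of `2`-power roots of unity and a parity statement. -/

set_option autoImplicit false
open Cfsg Cfsg.Agent.CharLib Cfsg.Agent.CharLib.L
open scoped ComplexConjugate

namespace Cfsg.Agent.Lib.Helper23.GalAvg

theorem odd_val_unit {r : ℕ} (hr : r ≠ 0) (v : (ZMod (2 ^ r))ˣ) : Odd (v : ZMod (2 ^ r)).val := by
  have h := ZMod.val_coe_unit_coprime v
  rw [Nat.coprime_pow_right_iff (Nat.pos_of_ne_zero hr)] at h
  exact Nat.coprime_two_right.1 h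

/-- the trace of a `2`-power root of unity -/
theorem sum_units_pow_two (r : ℕ) (ρ : ℂ) (hρ : ρ ^ (2 ^ r) = 1) :
    ∑ v : (ZMod (2 ^ r))ˣ, ρ ^ (v : ZMod (2 ^ r)).val =
      (Fintype.card (ZMod (2 ^ r))ˣ : ℂ) * (if ρ = 1 then 1 else if ρ = -1 then -1 else 0) := by
  classical
  by_cases h1 : ρ = 1
  · subst h1
    simp
  rw [if_neg h1]
  have hr : r ≠ 0 := by
    rintro rfl
    apply h1
    simpa using hρ
  by_cases h2 : ρ = -1
  · subst h2
    rw [if_pos rfl]
    have : ∀ v : (ZMod (2 ^ r))ˣ, (-1 : ℂ) ^ (v : ZMod (2 ^ r)).val = -1 := fun v =>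
      (odd_val_unit hr v).neg_one_pow
    simp only [this, Finset.sum_const, Finset.card_univ, nsmul_eq_mul]
  rw [if_neg h2, mul_zero]
  -- find `j` with `ρ ^ 2 ^ j = -1`
  have hex : ∃ j : ℕ, ρ ^ (2 ^ j) = 1 := ⟨r, hρ⟩
  set j := Nat.find hex with hj
  have hj1 : ρ ^ (2 ^ j) = 1 := Nat.find_spec hex
  have hj0 : j ≠ 0 := by
    intro h
    rw [h] at hj1
    apply h1
    simpa using hj1
  obtain ⟨i, hi⟩ : ∃ i, j = i + 1 := Nat.exists_eq_succ_of_ne_zero hj0
  have hi1 : ρ ^ (2 ^ i) ≠ 1 := Nat.find_min hex (by omega)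
  have hi2 : ρ ^ (2 ^ i) = -1 := by
    have : (ρ ^ (2 ^ i)) ^ 2 = 1 := by rw [← pow_mul, ← pow_succ, ← hi]; exact hj1
    rw [pow_two] at this
    rcases mul_self_eq_one_iff.1 this with h | h
    · exact absurd h hi1
    · exact h
  have hi0 : i ≠ 0 := by
    rintro rfl
    apply h2
    simpa using hi2
  have hcop : Nat.Coprime (1 + 2 ^ i) (2 ^ r) := by
    apply Nat.Coprime.pow_right
    rw [Nat.coprime_two_right]
    exact Even.one_add ((Nat.even_pow).2 ⟨even_two, hi0⟩)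
  let w : (ZMod (2 ^ r))ˣ := ZMod.unitOfCoprime (1 + 2 ^ i) hcop
  have hterm : ∀ v : (ZMod (2 ^ r))ˣ, ρ ^ ((v * w : (ZMod (2 ^ r))ˣ) : ZMod (2 ^ r)).val =
      - ρ ^ (v : ZMod (2 ^ r)).val := by
    intro v
    rw [Units.val_mul, ZMod.val_mul, ZMod.coe_unitOfCoprime, ZMod.val_natCast,
      pow_eq_pow_mod' hρ, ← pow_eq_pow_mod' hρ (_ * ((1 + 2 ^ i) % 2 ^ r)), Nat.mul_mod, Nat.mod_mod,
      ← Nat.mul_mod, pow_eq_pow_mod' hρ, mul_add, mul_one, pow_add, mul_comm _ (2 ^ i), pow_mul, hi2,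
      (odd_val_unit hr v).neg_one_pow]
    ring
  have hS : ∑ v : (ZMod (2 ^ r))ˣ, ρ ^ (v : ZMod (2 ^ r)).val =
      - ∑ v : (ZMod (2 ^ r))ˣ, ρ ^ (v : ZMod (2 ^ r)).val := by
    conv_lhs => rw [← Equiv.sum_comp (Equiv.mulRight w)]
    rw [← Finset.sum_neg_distrib]
    apply Finset.sum_congr rfl
    intro v _
    exact hterm v
  have : (2 : ℂ) * ∑ v : (ZMod (2 ^ r))ˣ, ρ ^ (v : ZMod (2 ^ r)).val = 0 := by
    linear_combination hS
  rcases mul_eq_zero.1 this with h | h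
  · norm_num at h
  · exact h

theorem eq_one_or_neg_one_of_conj_eq {ρ : ℂ} {n : ℕ} (hn : n ≠ 0) (hρ : ρ ^ n = 1)
    (hc : conj ρ = ρ) : ρ = 1 ∨ ρ = -1 := by
  have h1 : ‖ρ‖ = 1 := Complex.norm_eq_one_of_pow_eq_one hρ hn
  have h2 : ρ * conj ρ = 1 := by
    rw [Complex.mul_conj, Complex.normSq_eq_norm_sq, h1]; norm_num
  rw [hc] at h2
  exact mul_self_eq_one_iff.1 h2

/-- the Galois average of a real cyclotomic integer (for a `2`-power) that is a unit at `2` is an
odd integer -/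
theorem avg_odd {ι : Type*} [Fintype ι] (r : ℕ) (N : ι → ℤ) (ρ : ι → ℂ)
    (hρ : ∀ i, ρ i ^ (2 ^ r) = 1) (sw : ι → ι) (hsw : ∀ i, sw (sw i) = i)
    (hN : ∀ i, N (sw i) = N i) (hρsw : ∀ i, ρ (sw i) = conj (ρ i)) (hodd : Odd (∑ i, N i)) :
    ∃ a : ℤ, Odd a ∧ ∑ v : (ZMod (2 ^ r))ˣ, ∑ i, (N i : ℂ) * ρ i ^ (v : ZMod (2 ^ r)).val =
      (Fintype.card (ZMod (2 ^ r))ˣ : ℂ) * a := by
  classical
  let e : ι → ℤ := fun i => if ρ i = 1 then 1 else if ρ i = -1 then -1 else 0
  refine ⟨∑ i, N i * e i, ?_, ?_⟩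
  · -- parity
    have hn : (2 : ℕ) ^ r ≠ 0 := pow_ne_zero _ (by norm_num)
    have h0 : ∑ i ∈ Finset.univ.filter (fun i => ρ i ≠ 1 ∧ ρ i ≠ -1), ((N i : ℤ) : ZMod 2) = 0 := by
      apply Finset.sum_involution (fun i _ => sw i)
      · intro i _
        rw [hN i, ← two_mul]
        have : (2 : ZMod 2) = 0 := by decide
        rw [this, zero_mul]
      · intro i hi _ hfix
        have h1 := hρsw i
        rw [hfix] at h1
        have h2 := (Finset.mem_filter.1 hi).2
        rcases eq_one_or_neg_one_of_conj_eq hn (hρ i) h1.symm with h | h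
        · exact h2.1 h
        · exact h2.2 h
      · intro i hi
        have h2 := (Finset.mem_filter.1 hi).2
        rw [Finset.mem_filter]
        refine ⟨Finset.mem_univ _, ?_, ?_⟩
        · rw [hρsw i]
          intro h
          apply h2.1
          have := congrArg conj h
          rwa [Complex.conj_conj, map_one] at this
        · rw [hρsw i]
          intro h
          apply h2.2
          have := congrArg conj h
          rwa [Complex.conj_conj, map_neg, map_one] at this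
      · intro i _
        exact hsw i
    have h1 : ((∑ i, N i * e i : ℤ) : ZMod 2) = ((∑ i, N i : ℤ) : ZMod 2) := by
      have hsplit : ((∑ i, N i : ℤ) : ZMod 2) = ((∑ i, N i * e i : ℤ) : ZMod 2) +
          ∑ i ∈ Finset.univ.filter (fun i => ρ i ≠ 1 ∧ ρ i ≠ -1), ((N i : ℤ) : ZMod 2) := by
        push_cast
        rw [Finset.sum_filter, ← Finset.sum_add_distrib]
        apply Finset.sum_congr rfl
        intro i _
        simp only [e]
        by_cases c1 : ρ i = 1
        · simp [c1]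
        · by_cases c2 : ρ i = -1
          · have h21 : (-1 : ZMod 2) = 1 := by decide
            simp [c2, h21]
          · simp [c1, c2]
      rw [hsplit, h0, add_zero]
    rw [← Int.not_even_iff_odd, even_iff_two_dvd] at hodd ⊢
    intro hd
    apply hodd
    have e1 := (ZMod.intCast_zmod_eq_zero_iff_dvd (∑ i, N i * e i) 2).2 (by exact_mod_cast hd)
    rw [h1] at e1
    exact_mod_cast (ZMod.intCast_zmod_eq_zero_iff_dvd (∑ i, N i) 2).1 e1
  · rw [Finset.sum_comm]
    push_cast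
    rw [Finset.mul_sum]
    apply Finset.sum_congr rfl
    intro i _
    rw [← Finset.mul_sum, sum_units_pow_two r (ρ i) (hρ i)]
    simp only [e]
    split_ifs <;> push_cast <;> ring

end Cfsg.Agent.Lib.Helper23.GalAvg
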