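import Mathlib
import Cfsg.Agent.Lib.Helper23.DegLib
import Cfsg.Agent.Lib.Helper10.GaloisIrr
import Cfsg.Agent.CharLib.Eigen
import Cfsg.Agent.H25.Codeg

/-!
Character-theoretic input for the abelian Hall subgroup theorem for linear groups of degree `n`
(primes greater than `n + 1`).
-/

set_option autoImplicit false

namespace Cfsg.Agent.Lib.Helper23.Blich

open Cfsg Cfsg.Agent.CharLib Cfsg.Agent.CharLib.H2 Cfsg.Agent.CharLib.L Cfsg.Agent.Lib.Helper23
open scoped ComplexConjugate

/-- a subgroup all of whose prime divisors exceed the degree of a faithful character is abelian -/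
theorem comm_of_primes_gt {G : Type*} [Group G] [Finite G] {χ : G → ℂ} (hχ : IsCharacter G χ)
    (hfaith : ∀ g : G, χ g = χ 1 → g = 1) (H : Subgroup G)
    (hH : ∀ r : ℕ, r.Prime → r ∣ Nat.card H → charDegree χ < r) :
    ∀ a ∈ H, ∀ b ∈ H, a * b = b * a := by
  classical
  cases nonempty_fintype G
  have hψ : IsCharacter H (fun h : H => χ h) := isCharacter_restrict hχ H
  obtain ⟨m, hm, hm2⟩ := exists_mult hψ
  have hlin : ∀ θ : IrrCharacter H, m θ ≠ 0 → (θ : H → ℂ) 1 = 1 := by
    intro θ hθ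
    have h1 : charDegree (θ : H → ℂ) ≤ charDegree χ := by
      have := charDegree_le_of_constituent hψ θ.2 (by rw [hm2]; exact_mod_cast hθ)
      rwa [charDegree_restrict] at this
    have h2 := charDegree_dvd_card θ
    have h3 : charDegree (θ : H → ℂ) = 1 := by
      by_contra hne
      obtain ⟨r, hr, hr2⟩ := Nat.exists_prime_and_dvd hne
      have h4 := hH r hr (hr2.trans h2)
      have h5 : 0 < charDegree (θ : H → ℂ) := Nat.pos_of_dvd_of_pos h2 Nat.card_pos
      have := Nat.le_of_dvd h5 hr2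
      omega
    rw [← charDegree_cast_irr, h3]; simp
  intro a ha b hb
  have hc : χ (a * b * a⁻¹ * b⁻¹) = χ 1 := by
    have e1 : (fun h : H => χ h) (⟨a, ha⟩ * ⟨b, hb⟩ * ⟨a, ha⟩⁻¹ * ⟨b, hb⟩⁻¹) = (fun h : H => χ h) 1 := by
      rw [hm]
      simp only [Finset.sum_apply, Pi.smul_apply, smul_eq_mul]
      apply Finset.sum_congr rfl
      intro θ _
      by_cases h0 : m θ = 0
      · simp [h0]
      · rw [irr_commutator_of_apply_one_eq_one θ (hlin θ h0), hlin θ h0]
    simpa using e1
  have h1 := hfaith _ hc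
  calc a * b = (a * b * a⁻¹ * b⁻¹) * (b * a) := by group
    _ = b * a := by rw [h1, one_mul]

/-- a character of degree `< p - 1` takes an "irrational" value at an element of order `p`
outside its kernel -/
theorem exists_pow_ne {G : Type*} [Group G] [Finite G] {ψ : G → ℂ} (hψ : IsCharacter G ψ)
    {p : ℕ} (hp : p.Prime) (hd : charDegree ψ + 1 < p) {x : G} (hx : orderOf x = p)
    (hne : ψ x ≠ ψ 1) : ∃ j : ℕ, 0 < j ∧ j < p ∧ ψ (x ^ j) ≠ ψ x := by
  classical
  obtain ⟨d, ρ, rfl⟩ := hψ
  have h1 : ρ.character 1 = ((d : ℕ) : ℂ) := by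
    rw [Representation.char_one, Module.finrank_fin_fun]
  have hdd : charDegree ρ.character = d := Cfsg.Agent.H25.charDegree_of_apply_one h1
  rw [hdd] at hd
  by_contra hcon
  push Not at hcon
  obtain ⟨b, μ, hμ, hb, hc⟩ := character_eq_sum_eigen ρ x
  rw [hx] at hμ
  have hpow : ∀ j : ℕ, ρ.character (x ^ j) = ∑ i, μ i ^ j := by
    intro j
    exact trace_eq_sum_of_eigenbasis (ρ (x ^ j)) b (fun i => μ i ^ j) (rep_pow_eigen ρ x b μ hb j)
  set f : ℕ := (Finset.univ.filter (fun i => μ i = 1)).card with hf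
  have hcard : Fintype.card (Fin (Module.finrank ℂ (Fin d → ℂ))) = d := by
    rw [Fintype.card_fin, Module.finrank_fin_fun]
  have hfd : f ≤ d := by
    rw [← hcard, hf]
    exact Finset.card_le_univ _
  have hfne : f ≠ d := by
    intro h
    apply hne
    have hall : ∀ i, μ i = 1 := by
      have h2 : Finset.univ.filter (fun i => μ i = 1) = Finset.univ := by
        apply Finset.eq_univ_of_card
        rw [← hf, h, hcard]
      intro i
      have : i ∈ Finset.univ.filter (fun i => μ i = 1) := by rw [h2]; exact Finset.mem_univ i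
      exact (Finset.mem_filter.1 this).2
    rw [hc, h1]
    simp only [hall, Finset.sum_const, Finset.card_univ, hcard]
    simp
  have hsum1 : ∑ j ∈ Finset.range p, ρ.character (x ^ j) = (p : ℂ) * f := by
    simp only [hpow]
    rw [Finset.sum_comm]
    have : ∀ i, ∑ j ∈ Finset.range p, μ i ^ j = if μ i = 1 then (p : ℂ) else 0 := by
      intro i
      split_ifs with h
      · simp [h]
      · rw [geom_sum_eq h, hμ i]; simp
    simp only [this]
    rw [← Finset.sum_filter, Finset.sum_const, ← hf]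
    simp [mul_comm]
  have hsum2 : ∑ j ∈ Finset.range p, ρ.character (x ^ j) = (d : ℂ) + ((p : ℂ) - 1) * ρ.character x := by
    obtain ⟨p', rfl⟩ : ∃ p', p = p' + 1 := ⟨p - 1, by have := hp.pos; omega⟩
    rw [Finset.sum_range_succ', pow_zero, h1]
    have : ∑ k ∈ Finset.range p', ρ.character (x ^ (k + 1)) = ∑ k ∈ Finset.range p', ρ.character x := by
      apply Finset.sum_congr rfl
      intro k hk
      exact hcon (k + 1) (by omega) (by have := Finset.mem_range.1 hk; omega)
    rw [this, Finset.sum_const, Finset.card_range]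
    push_cast
    simp only [nsmul_eq_mul]
    ring
  have hp1 : ((p : ℂ) - 1) ≠ 0 := by
    have : (1 : ℂ) ≠ (p : ℂ) := by
      have := hp.one_lt.ne
      exact_mod_cast this
    exact sub_ne_zero.2 this.symm
  have hq : ρ.character x = (((p * f - d : ℚ) / (p - 1) : ℚ) : ℂ) := by
    push_cast
    rw [eq_div_iff hp1]
    have := hsum1.symm.trans hsum2
    linear_combination -this
  obtain ⟨t, ht⟩ := exists_int_of_isIntegral_of_rat (isIntegral_character ρ x) hq
  have hZ : ((p : ℤ) - 1) * (t - f) = (f : ℤ) - d := by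
    have h3 := hsum1.symm.trans hsum2
    rw [ht] at h3
    have h4 : ((p : ℤ) : ℂ) * ((f : ℤ) : ℂ) = ((d : ℤ) : ℂ) + (((p : ℤ) : ℂ) - 1) * (t : ℂ) := by
      push_cast
      exact h3
    have h5 : (p : ℤ) * (f : ℤ) = (d : ℤ) + ((p : ℤ) - 1) * t := by exact_mod_cast h4
    linarith
  have hdvd : ((p : ℤ) - 1) ∣ ((d : ℤ) - f) := ⟨-(t - f), by linarith⟩
  have hpos : (0 : ℤ) < (d : ℤ) - f := by
    have : f < d := lt_of_le_of_ne hfd hfne
    omega
  have := Int.le_of_dvd hpos hdvd
  omega

/-- Chinese remainder choice of the exponent -/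
theorem exists_exponent {N p j : ℕ} (hN : N ≠ 0) (hp : p.Prime) (hj : 0 < j) (hjp : j < p) :
    ∃ k : ℕ, k.Coprime N ∧ k ≡ j [MOD p] ∧ k ≡ 1 [MOD (ordCompl[p] N)] := by
  have hco : p.Coprime (ordCompl[p] N) := Nat.coprime_ordCompl hp hN
  obtain ⟨k, hk1, hk2⟩ := Nat.chineseRemainder hco j 1
  refine ⟨k, ?_, hk1, hk2⟩
  rw [← Nat.ordProj_mul_ordCompl_eq_self N p]
  apply Nat.Coprime.mul_right
  · apply Nat.Coprime.pow_right
    have h1 : Nat.gcd k p = Nat.gcd j p := hk1.gcd_eq
    have h2 : Nat.gcd j p = 1 := by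
      rw [Nat.gcd_comm]
      exact (Nat.Prime.coprime_iff_not_dvd hp).2 (fun h => by have := Nat.le_of_dvd hj h; omega)
    rw [Nat.Coprime, h1, h2]
  · have h1 : Nat.gcd k (ordCompl[p] N) = Nat.gcd 1 (ordCompl[p] N) := hk2.gcd_eq
    rw [Nat.Coprime, h1]; simp

theorem pow_eq_self_of_not_dvd {G : Type*} [Group G] [Finite G] {p k : ℕ} (hp : p.Prime)
    (hk : k ≡ 1 [MOD (ordCompl[p] (Nat.card G))]) {g : G} (hg : ¬ p ∣ orderOf g) : g ^ k = g := by
  have h1 : orderOf g ∣ Nat.card G := orderOf_dvd_natCard g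
  rw [← Nat.ordProj_mul_ordCompl_eq_self (Nat.card G) p] at h1
  have h2 : (orderOf g).Coprime (p ^ (Nat.card G).factorization p) :=
    Nat.Coprime.pow_right _ ((Nat.Prime.coprime_iff_not_dvd hp).2 hg).symm
  have h3 : orderOf g ∣ ordCompl[p] (Nat.card G) := h2.dvd_of_dvd_mul_left h1
  have h4 : k ≡ 1 [MOD orderOf g] := hk.of_dvd h3
  have := pow_eq_pow_iff_modEq.2 h4
  rwa [pow_one] at this

/-- the key existence statement: an irreducible character of small degree, nontrivial on elements of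
order `p` and `q`, forces an element of order divisible by `p * q` -/
theorem exists_singular {G : Type*} [Group G] [Finite G] {ψ : G → ℂ} (hψ : IsIrrCharacter G ψ)
    {p q : ℕ} (hp : p.Prime) (hq : q.Prime) (hdp : charDegree ψ + 1 < p) (hdq : charDegree ψ + 1 < q)
    {x y : G} (hx : orderOf x = p) (hy : orderOf y = q) (hxne : ψ x ≠ ψ 1) (hyne : ψ y ≠ ψ 1) :
    ∃ g : G, p ∣ orderOf g ∧ q ∣ orderOf g := by
  classical
  cases nonempty_fintype G
  obtain ⟨j, hj0, hjp, hj⟩ := exists_pow_ne (isCharacter_of_irr hψ) hp hdp hx hxne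
  obtain ⟨i, hi0, hiq, hi⟩ := exists_pow_ne (isCharacter_of_irr hψ) hq hdq hy hyne
  obtain ⟨k, hk1, hk2, hk3⟩ := exists_exponent (N := Nat.card G) Nat.card_pos.ne' hp hj0 hjp
  obtain ⟨l, hl1, hl2, hl3⟩ := exists_exponent (N := Nat.card G) Nat.card_pos.ne' hq hi0 hiq
  have hψk := Cfsg.Agent.Lib.Helper10.isIrrCharacter_pow hψ k hk1
  have hψl := Cfsg.Agent.Lib.Helper10.isIrrCharacter_pow hψ l hl1
  have hnek : (fun g => ψ (g ^ k)) ≠ ψ := by
    intro h
    apply hj
    have h1 : x ^ k = x ^ j := pow_eq_pow_iff_modEq.2 (by rw [hx]; exact hk2)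
    rw [← h1]
    exact congrFun h x
  have hnel : (fun g => ψ (g ^ l)) ≠ ψ := by
    intro h
    apply hi
    have h1 : y ^ l = y ^ i := pow_eq_pow_iff_modEq.2 (by rw [hy]; exact hl2)
    rw [← h1]
    exact congrFun h y
  by_contra hcon
  push Not at hcon
  have hzero : classInner (ψ - fun g => ψ (g ^ k)) (ψ - fun g => ψ (g ^ l)) = 0 := by
    rw [classInner]
    rw [Finset.sum_eq_zero, mul_zero]
    intro g _
    by_cases hg : p ∣ orderOf g
    · have h2 := hcon g hg
      have : g ^ l = g := pow_eq_self_of_not_dvd hq hl3 h2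
      simp [this]
    · have : g ^ k = g := pow_eq_self_of_not_dvd hp hk3 hg
      simp [this]
  rw [classInner_sub_left, classInner_sub_right, classInner_sub_right, classInner_irr_self hψ,
    classInner_irr_ne hψ hψl hnel.symm, classInner_irr_ne hψk hψ hnek, classInner_irr hψk hψl] at hzero
  split_ifs at hzero <;> norm_num at hzero

end Cfsg.Agent.Lib.Helper23.Blich
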