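import Mathlib

/-!
Group-theoretic induction for commuting Sylow subgroups.
-/

set_option autoImplicit false

universe u

namespace Cfsg.Agent.Lib.Helper23.Blich

/-- there are elementwise commuting Sylow `p`- and `q`-subgroups -/
def Good (p q : ℕ) (G : Type*) [Group G] : Prop :=
  ∃ A B : Subgroup G, Nat.card A = p ^ (Nat.card G).factorization p ∧
    Nat.card B = q ^ (Nat.card G).factorization q ∧ ∀ a ∈ A, ∀ b ∈ B, a * b = b * a

theorem Good.symm {p q : ℕ} {G : Type*} [Group G] (h : Good p q G) : Good q p G := by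
  obtain ⟨A, B, hA, hB, hAB⟩ := h
  exact ⟨B, A, hB, hA, fun b hb a ha => (hAB a ha b hb).symm⟩

theorem factorization_card_eq {G : Type*} [Group G] [Finite G] (L : Subgroup G) {p : ℕ}
    (hp : ¬ p ∣ L.index) : (Nat.card L).factorization p = (Nat.card G).factorization p := by
  rw [← L.card_mul_index, Nat.factorization_mul Nat.card_pos.ne' Subgroup.index_ne_zero_of_finite]
  simp [Nat.factorization_eq_zero_of_not_dvd hp]

theorem card_map_subtype {G : Type*} [Group G] (L : Subgroup G) (A : Subgroup L) :
    Nat.card (A.map L.subtype) = Nat.card A :=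
  (Nat.card_congr (A.equivMapOfInjective L.subtype L.subtype_injective).toEquiv).symm

theorem Good.of_subgroup {p q : ℕ} {G : Type*} [Group G] [Finite G] (L : Subgroup G)
    (h : Good p q L) (hp : ¬ p ∣ L.index) (hq : ¬ q ∣ L.index) : Good p q G := by
  obtain ⟨A, B, hA, hB, hAB⟩ := h
  refine ⟨A.map L.subtype, B.map L.subtype, ?_, ?_, ?_⟩
  · rw [card_map_subtype, hA, factorization_card_eq L hp]
  · rw [card_map_subtype, hB, factorization_card_eq L hq]
  · rintro _ ⟨a, ha, rfl⟩ _ ⟨b, hb, rfl⟩
    exact congrArg Subtype.val (hAB a ha b hb)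

theorem not_dvd_index_of_card {G : Type*} [Group G] [Finite G] {p : ℕ} (hp : p.Prime)
    (A : Subgroup G) (hA : Nat.card A = p ^ (Nat.card G).factorization p) : ¬ p ∣ A.index := by
  have := Fact.mk hp
  exact (Sylow.ofCard A hA).not_dvd_index

theorem good_of_not_dvd {p q : ℕ} {G : Type*} [Group G] [Finite G] (hq : q.Prime)
    (h : ¬ p ∣ Nat.card G) : Good p q G := by
  have := Fact.mk hq
  obtain ⟨Q⟩ : Nonempty (Sylow q G) := inferInstance
  refine ⟨⊥, Q, ?_, Q.card_eq_multiplicity, ?_⟩
  · rw [Nat.factorization_eq_zero_of_not_dvd h]; simp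
  · intro a ha b _
    rw [Subgroup.mem_bot] at ha
    subst ha
    simp

/-- the inductive context -/
structure Ctx (p q : ℕ) (G : Type u) [Group G] : Prop where
  hp : p.Prime
  hq : q.Prime
  hab : ∀ H : Subgroup G, (∀ r : ℕ, r.Prime → r ∣ Nat.card H → r = p ∨ r = q) →
    ∀ a ∈ H, ∀ b ∈ H, a * b = b * a
  ih : ∀ L : Subgroup G, L ≠ ⊤ → Good p q L

namespace Ctx

variable {p q : ℕ} {G : Type u} [Group G]

theorem symm (c : Ctx p q G) : Ctx q p G where
  hp := c.hq
  hq := c.hp
  hab := fun H hH => c.hab H (fun r hr hr2 => (hH r hr hr2).symm)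
  ih := fun L hL => (c.ih L hL).symm

variable [Finite G]

theorem good_of_full (c : Ctx p q G) (L : Subgroup G) (hL : L ≠ ⊤) (hp : ¬ p ∣ L.index)
    (hq : ¬ q ∣ L.index) : Good p q G := (c.ih L hL).of_subgroup L hp hq

theorem comm_of_pgroup (c : Ctx p q G) (H : Subgroup G) (hH : IsPGroup p H) :
    ∀ a ∈ H, ∀ b ∈ H, a * b = b * a := by
  have := Fact.mk c.hp
  apply c.hab
  intro r hr hr2
  obtain ⟨k, hk⟩ := IsPGroup.exists_card_eq hH
  rw [hk] at hr2
  left
  exact (Nat.prime_dvd_prime_iff_eq hr c.hp).1 (hr.dvd_of_dvd_pow hr2)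

/-- a centralizer of a `p`-element contains a Sylow `p`-subgroup -/
theorem not_dvd_index_centralizer (c : Ctx p q G) (D : Subgroup G) (hD : IsPGroup p D) :
    ¬ p ∣ (Subgroup.centralizer (D : Set G)).index := by
  have := Fact.mk c.hp
  obtain ⟨P, hP⟩ := hD.exists_le_sylow
  have h1 : (P : Subgroup G) ≤ Subgroup.centralizer (D : Set G) := by
    intro x hx
    rw [Subgroup.mem_centralizer_iff]
    intro d hd
    exact c.comm_of_pgroup P P.2 d (hP hd) x hx
  intro h
  exact P.not_dvd_index (h.trans (Subgroup.index_dvd_of_le h1))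

theorem card_sup_normal (D Q : Subgroup G) [D.Normal] :
    Nat.card (D ⊔ Q : Subgroup G) = Nat.card D * D.relIndex Q := by
  rw [← Subgroup.relIndex_sup_left Q D]
  have h1 := (D.subgroupOf (D ⊔ Q)).card_mul_index
  rw [← h1]
  congr 1
  exact (Nat.card_congr (Subgroup.subgroupOfEquivOfLe (le_sup_left : D ≤ D ⊔ Q)).toEquiv)

theorem good_or_central (c : Ctx p q G) (D : Subgroup G) (hD : IsPGroup p D)
    (h1 : ¬ p ∣ (Subgroup.normalizer (D : Set G)).index)
    (h2 : ¬ q ∣ (Subgroup.normalizer (D : Set G)).index) :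
    Good p q G ∨ D ≤ Subgroup.center G := by
  by_cases hN : Subgroup.normalizer (D : Set G) = ⊤
  · have hDn : D.Normal := Subgroup.normalizer_eq_top_iff.1 hN
    by_cases hC : Subgroup.centralizer (D : Set G) = ⊤
    · right
      exact Subgroup.centralizer_eq_top_iff_subset.1 hC
    · left
      refine c.good_of_full _ hC (c.not_dvd_index_centralizer D hD) ?_
      have := Fact.mk c.hq
      obtain ⟨Q⟩ : Nonempty (Sylow q G) := inferInstance
      have h3 : ∀ a ∈ (D ⊔ Q : Subgroup G), ∀ b ∈ (D ⊔ Q : Subgroup G), a * b = b * a := by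
        apply c.hab
        intro r hr hr2
        rw [card_sup_normal] at hr2
        rcases (Nat.Prime.dvd_mul hr).1 hr2 with h | h
        · have := Fact.mk c.hp
          obtain ⟨k, hk⟩ := IsPGroup.exists_card_eq hD
          rw [hk] at h
          left
          exact (Nat.prime_dvd_prime_iff_eq hr c.hp).1 (hr.dvd_of_dvd_pow h)
        · have h4 := h.trans (Subgroup.relIndex_dvd_card D (Q : Subgroup G))
          rw [Q.card_eq_multiplicity] at h4
          right
          exact (Nat.prime_dvd_prime_iff_eq hr c.hq).1 (hr.dvd_of_dvd_pow h4)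
      have h4 : (Q : Subgroup G) ≤ Subgroup.centralizer (D : Set G) := by
        intro x hx
        rw [Subgroup.mem_centralizer_iff]
        intro d hd
        exact h3 d (Subgroup.mem_sup_left hd) x (Subgroup.mem_sup_right hx)
      intro h
      exact Q.not_dvd_index (h.trans (Subgroup.index_dvd_of_le h4))
  · left
    exact c.good_of_full _ hN h1 h2

end Ctx

/-- index computation in the Frattini argument -/
theorem index_mul_card_inf {G : Type*} [Group G] [Finite G] (L M : Subgroup G) [M.Normal]
    (h : L ⊔ M = ⊤) : L.index * Nat.card (M ⊓ L : Subgroup G) = Nat.card M := by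
  have h1 : M.relIndex L = M.index := by
    rw [← Subgroup.relIndex_sup_right L M, h, Subgroup.relIndex_top_right]
  have h2 : Nat.card (M ⊓ L : Subgroup G) * M.relIndex L = Nat.card L := by
    rw [← (M.subgroupOf L).card_mul_index]
    congr 1
    rw [← Subgroup.inf_subgroupOf_right]
    exact (Nat.card_congr (Subgroup.subgroupOfEquivOfLe (inf_le_right : M ⊓ L ≤ L)).toEquiv).symm
  have h3 := L.card_mul_index
  have h4 := M.card_mul_index
  rw [h1] at h2
  have h5 : 0 < M.index := Nat.pos_of_ne_zero Subgroup.index_ne_zero_of_finite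
  have h6 : (L.index * Nat.card (M ⊓ L : Subgroup G)) * M.index = Nat.card M * M.index := by
    rw [h4, ← h3, ← h2]; ring
  exact Nat.eq_of_mul_eq_mul_right h5 h6

theorem frattini_full {p q : ℕ} (hp : p.Prime) (hq : q.Prime) {G : Type*} [Group G] [Finite G]
    (M : Subgroup G) [M.Normal]
    (A B : Subgroup M) (hA : Nat.card A = p ^ (Nat.card M).factorization p)
    (hB : Nat.card B = q ^ (Nat.card M).factorization q) (hAB : ∀ a ∈ A, ∀ b ∈ B, a * b = b * a) :
    ¬ p ∣ (Subgroup.normalizer ((A.map M.subtype : Subgroup G) : Set G)).index ∧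
    ¬ q ∣ (Subgroup.normalizer ((A.map M.subtype : Subgroup G) : Set G)).index := by
  have := Fact.mk hp
  set L := Subgroup.normalizer ((A.map M.subtype : Subgroup G) : Set G) with hL
  have h1 : L ⊔ M = ⊤ := Sylow.normalizer_sup_eq_top (Sylow.ofCard A hA)
  have h2 := index_mul_card_inf L M h1
  have hAle : A.map M.subtype ≤ M ⊓ L := by
    apply le_inf
    · rintro _ ⟨a, _, rfl⟩
      exact a.2
    · exact Subgroup.le_normalizer
  have hBle : B.map M.subtype ≤ M ⊓ L := by
    apply le_inf
    · rintro _ ⟨a, _, rfl⟩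
      exact a.2
    · rintro _ ⟨b, hb, rfl⟩
      rw [hL, Subgroup.mem_normalizer_iff]
      intro x
      constructor
      · rintro ⟨a, ha, rfl⟩
        refine ⟨a, ha, ?_⟩
        have := congrArg Subtype.val (hAB a ha b hb)
        simp only [Subgroup.coe_mul] at this
        simp only [Subgroup.coe_subtype]
        rw [← this, mul_inv_cancel_right]
      · rintro ⟨a, ha, ha2⟩
        refine ⟨a, ha, ?_⟩
        have := congrArg Subtype.val (hAB a ha b hb)
        simp only [Subgroup.coe_mul] at this
        simp only [Subgroup.coe_subtype] at ha2 ⊢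
        have h3 : (b : G) * x * (b : G)⁻¹ = (b : G) * (a : G) * (b : G)⁻¹ := by
          rw [← ha2, ← this, mul_inv_cancel_right]
        exact (mul_left_cancel (mul_right_cancel h3)).symm
  constructor
  · intro h
    have h3 : p ^ (Nat.card M).factorization p ∣ Nat.card (M ⊓ L : Subgroup G) := by
      rw [← hA, ← card_map_subtype]
      exact Subgroup.card_dvd_of_le hAle
    have h4 : p ^ ((Nat.card M).factorization p + 1) ∣ Nat.card M := by
      rw [pow_succ, mul_comm]
      exact (mul_dvd_mul h h3).trans (dvd_of_eq h2)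
    exact Nat.pow_succ_factorization_not_dvd Nat.card_pos.ne' hp h4
  · intro h
    have h3 : q ^ (Nat.card M).factorization q ∣ Nat.card (M ⊓ L : Subgroup G) := by
      rw [← hB, ← card_map_subtype]
      exact Subgroup.card_dvd_of_le hBle
    have h4 : q ^ ((Nat.card M).factorization q + 1) ∣ Nat.card M := by
      rw [pow_succ, mul_comm]
      exact (mul_dvd_mul h h3).trans (dvd_of_eq h2)
    exact Nat.pow_succ_factorization_not_dvd Nat.card_pos.ne' hq h4

end Cfsg.Agent.Lib.Helper23.Blich
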