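import Mathlib
import Cfsg.Agent.Lib.Helper23.Blich2

/-!
Group-theoretic induction for commuting Sylow subgroups, part 2.
-/

set_option autoImplicit false

universe u

namespace Cfsg.Agent.Lib.Helper23.Blich

namespace Ctx

variable {p q : ℕ} {G : Type u} [Group G] [Finite G]

theorem good_of_central (c : Ctx p q G) (hpq : p ≠ q) {x : G} (hx : x ∈ Subgroup.center G)
    (hxo : orderOf x = p) : Good p q G := by
  have hfp := Fact.mk c.hp
  have hfq := Fact.mk c.hq
  by_cases hqG : q ∣ Nat.card G
  swap
  · exact (good_of_not_dvd c.hp hqG).symm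
  have hz : IsPGroup p (Subgroup.zpowers x) :=
    IsPGroup.of_card (n := 1) (by rw [Nat.card_zpowers, hxo, pow_one])
  obtain ⟨P, hP⟩ := hz.exists_le_sylow
  have hPab := c.comm_of_pgroup P P.2
  let _ : CommGroup (P : Subgroup G) :=
    { (inferInstance : Group (P : Subgroup G)) with
      mul_comm := fun a b => Subtype.ext (hPab a a.2 b b.2) }
  let V : G →* (P : Subgroup G) := MonoidHom.transfer (MonoidHom.id (P : Subgroup G))
  have key : ∀ (k : ℕ) (g₀ : G), g₀⁻¹ * x ^ k * g₀ ∈ (P : Subgroup G) → g₀⁻¹ * x ^ k * g₀ = x ^ k := by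
    intro k g₀ _
    have h1 := Subgroup.mem_center_iff.1 ((Subgroup.center G).pow_mem hx k) g₀
    rw [mul_assoc, ← h1, inv_mul_cancel_left]
  have hV : V x = ⟨x ^ (P : Subgroup G).index, MonoidHom.transfer_eq_pow_aux x key⟩ :=
    MonoidHom.transfer_eq_pow (MonoidHom.id (P : Subgroup G)) x key
  have hVne : V x ≠ 1 := by
    rw [hV]
    intro h
    have h1 : x ^ (P : Subgroup G).index = 1 := congrArg Subtype.val h
    have h2 := orderOf_dvd_of_pow_eq_one h1
    rw [hxo] at h2
    exact P.not_dvd_index h2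
  have hM : V.ker ≠ ⊤ := by
    intro h
    apply hVne
    have : x ∈ V.ker := by rw [h]; trivial
    exact this
  have hqM : ¬ q ∣ V.ker.index := by
    rw [Subgroup.index_ker]
    intro h
    have h1 := h.trans (Subgroup.card_subgroup_dvd_card V.range)
    rw [P.card_eq_multiplicity] at h1
    exact hpq ((Nat.prime_dvd_prime_iff_eq c.hq c.hp).1 (c.hq.dvd_of_dvd_pow h1)).symm
  obtain ⟨A, B, hA, hB, hAB⟩ := c.ih V.ker hM
  obtain ⟨h1, h2⟩ := frattini_full c.hq c.hp V.ker B A hB hA (fun b hb a ha => (hAB a ha b hb).symm)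
  have hD : IsPGroup q (B.map V.ker.subtype) := IsPGroup.of_card (by rw [card_map_subtype, hB])
  rcases c.symm.good_or_central _ hD h1 h2 with h | h
  · exact h.symm
  · refine ⟨P, B.map V.ker.subtype, P.card_eq_multiplicity, ?_, ?_⟩
    · rw [card_map_subtype, hB, factorization_card_eq _ hqM]
    · intro a _ b hb
      exact Subgroup.mem_center_iff.1 (h hb) a

theorem good_of_normal (c : Ctx p q G) (hpq : p ≠ q) (M : Subgroup G) [M.Normal] (hM : M ≠ ⊤)
    (hpM : p ∣ Nat.card M) : Good p q G := by
  have hfp := Fact.mk c.hp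
  obtain ⟨A, B, hA, hB, hAB⟩ := c.ih M hM
  obtain ⟨h1, h2⟩ := frattini_full c.hp c.hq M A B hA hB hAB
  have hD : IsPGroup p (A.map M.subtype) := IsPGroup.of_card (by rw [card_map_subtype, hA])
  rcases c.good_or_central _ hD h1 h2 with h | h
  · exact h
  · have h3 : p ∣ Nat.card (A.map M.subtype) := by
      rw [card_map_subtype, hA]
      apply dvd_pow_self
      have := (c.hp.factorization_pos_of_dvd Nat.card_pos.ne' hpM)
      omega
    obtain ⟨x, hx⟩ := exists_prime_orderOf_dvd_card' (G := (A.map M.subtype : Subgroup G)) p h3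
    exact c.good_of_central hpq (h x.2) (by rw [Subgroup.orderOf_coe, hx])

theorem mem_center_of_centralizer_zpowers {x : G}
    (h : Subgroup.centralizer (Subgroup.zpowers x : Set G) = ⊤) : x ∈ Subgroup.center G :=
  Subgroup.centralizer_eq_top_iff_subset.1 h (Subgroup.mem_zpowers x)

theorem good_of_commute (c : Ctx p q G) (hpq : p ≠ q) {x y : G} (hx : orderOf x = p)
    (hy : orderOf y = q) (hxy : x * y = y * x) : Good p q G := by
  have hfp := Fact.mk c.hp
  have hfq := Fact.mk c.hq
  by_cases hC : Subgroup.centralizer (Subgroup.zpowers x : Set G) = ⊤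
  · exact c.good_of_central hpq (mem_center_of_centralizer_zpowers hC) hx
  have hz : IsPGroup p (Subgroup.zpowers x) :=
    IsPGroup.of_card (n := 1) (by rw [Nat.card_zpowers, hx, pow_one])
  have hpC := c.not_dvd_index_centralizer _ hz
  set C := Subgroup.centralizer (Subgroup.zpowers x : Set G) with hCdef
  obtain ⟨A, B, hA, hB, hAB⟩ := c.ih C hC
  have hyC : y ∈ C := by
    have h1 : Subgroup.zpowers x ≤ Subgroup.centralizer ({y} : Set G) := by
      rw [Subgroup.zpowers_le, Subgroup.mem_centralizer_iff]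
      intro h hh
      rw [Set.mem_singleton_iff] at hh
      subst hh
      exact hxy.symm
    rw [hCdef, Subgroup.mem_centralizer_iff]
    intro h hh
    have := Subgroup.mem_centralizer_iff.1 (h1 hh) y (Set.mem_singleton y)
    exact this.symm
  have hqC : q ∣ Nat.card C := by
    have h1 : orderOf (⟨y, hyC⟩ : C) = q := by rw [← Subgroup.orderOf_coe]; exact hy
    rw [← h1]
    exact orderOf_dvd_natCard _
  have hqB : q ∣ Nat.card B := by
    rw [hB]
    apply dvd_pow_self
    have := (c.hq.factorization_pos_of_dvd Nat.card_pos.ne' hqC)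
    omega
  obtain ⟨y2, hy2⟩ := exists_prime_orderOf_dvd_card' (G := B) q hqB
  have hy2' : orderOf (((y2 : C) : G)) = q := by rw [Subgroup.orderOf_coe, Subgroup.orderOf_coe, hy2]
  by_cases hC2 : Subgroup.centralizer (Subgroup.zpowers ((y2 : C) : G) : Set G) = ⊤
  · exact (c.symm.good_of_central hpq.symm (mem_center_of_centralizer_zpowers hC2) hy2').symm
  have hz2 : IsPGroup q (Subgroup.zpowers ((y2 : C) : G)) :=
    IsPGroup.of_card (n := 1) (by rw [Nat.card_zpowers, hy2', pow_one])
  refine c.good_of_full _ hC2 ?_ (c.symm.not_dvd_index_centralizer _ hz2)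
  have hA' : Nat.card (A.map C.subtype) = p ^ (Nat.card G).factorization p := by
    rw [card_map_subtype, hA, factorization_card_eq _ hpC]
  have hle : A.map C.subtype ≤ Subgroup.centralizer (Subgroup.zpowers ((y2 : C) : G) : Set G) := by
    rw [Subgroup.le_centralizer_iff, Subgroup.zpowers_le, Subgroup.mem_centralizer_iff]
    rintro _ ⟨a, ha, rfl⟩
    exact congrArg Subtype.val (hAB a ha y2 y2.2)
  intro h
  exact not_dvd_index_of_card c.hp _ hA' (h.trans (Subgroup.index_dvd_of_le hle))

end Ctx

end Cfsg.Agent.Lib.Helper23.Blich
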