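import Mathlib
import Cfsg.Agent.Lib.Helper23.Blich1
import Cfsg.Agent.Lib.Helper23.Blich3

/-!
Commuting Sylow subgroups and abelian Hall subgroups in linear groups of degree `n`
(primes greater than `n + 1`).
-/

set_option autoImplicit false

universe u

namespace Cfsg.Agent.Lib.Helper23.Blich

open Cfsg Cfsg.Agent.CharLib Cfsg.Agent.CharLib.H2 Cfsg.Agent.CharLib.L Cfsg.Agent.Lib.Helper23
open Cfsg.Agent.H25

theorem good_of_faithful (n p q : ℕ) (hp : p.Prime) (hq : q.Prime) (hpq : p ≠ q) (hnp : n + 1 < p)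
    (hnq : n + 1 < q) :
    ∀ (N : ℕ) (G : Type u) [Group G] [Finite G], Nat.card G = N → ∀ χ : G → ℂ, IsCharacter G χ →
      (∀ g : G, χ g = χ 1 → g = 1) → charDegree χ = n → Good p q G := by
  intro N
  induction N using Nat.strong_induction_on with
  | _ N IH =>
  intro G _ _ hN χ hχ hfaith hn
  classical
  cases nonempty_fintype G
  have c : Ctx p q G :=
    { hp := hp
      hq := hq
      hab := fun H hH => comm_of_primes_gt hχ hfaith H (fun r hr hr2 => by
        rcases hH r hr hr2 with rfl | rfl <;> omega)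
      ih := fun L hL => IH (Nat.card L) (by
          rw [← hN]
          exact lt_of_not_ge (fun h => hL (Subgroup.eq_top_of_le_card L h))) L rfl (fun h : L => χ h)
        (isCharacter_restrict hχ L) (fun g hg => Subtype.ext (hfaith g hg)) hn }
  by_cases hpG : p ∣ Nat.card G
  swap
  · exact good_of_not_dvd hq hpG
  by_cases hqG : q ∣ Nat.card G
  swap
  · exact (good_of_not_dvd hp hqG).symm
  have := Fact.mk hp
  have := Fact.mk hq
  obtain ⟨x, hx⟩ := exists_prime_orderOf_dvd_card' (G := G) p hpG
  obtain ⟨y, hy⟩ := exists_prime_orderOf_dvd_card' (G := G) q hqG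
  obtain ⟨m, hm, hm2⟩ := exists_mult hχ
  have hex : ∃ ψ : IrrCharacter G, m ψ ≠ 0 ∧ kerSub ψ ≠ ⊤ := by
    by_contra hcon
    push Not at hcon
    have h1 : ∀ g, χ g = χ 1 := by
      intro g
      rw [hm]
      simp only [Finset.sum_apply, Pi.smul_apply, smul_eq_mul]
      apply Finset.sum_congr rfl
      intro ψ _
      by_cases h0 : m ψ = 0
      · simp [h0]
      · have : g ∈ kerSub ψ := by rw [hcon ψ h0]; trivial
        rw [(mem_kerSub ψ g).1 this]
    have h2 := hfaith x (h1 x)
    rw [h2, orderOf_one] at hx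
    exact hp.one_lt.ne hx
  obtain ⟨ψ, hψ0, hψK⟩ := hex
  by_cases h1 : p ∣ Nat.card (kerSub ψ)
  · exact c.good_of_normal hpq _ hψK h1
  by_cases h2 : q ∣ Nat.card (kerSub ψ)
  · exact (c.symm.good_of_normal hpq.symm _ hψK h2).symm
  have hxne : (ψ : G → ℂ) x ≠ (ψ : G → ℂ) 1 := by
    intro h
    apply h1
    have h3 : orderOf (⟨x, h⟩ : kerSub ψ) = p := by rw [← Subgroup.orderOf_coe]; exact hx
    rw [← h3]
    exact orderOf_dvd_natCard _
  have hyne : (ψ : G → ℂ) y ≠ (ψ : G → ℂ) 1 := by
    intro h
    apply h2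
    have h3 : orderOf (⟨y, h⟩ : kerSub ψ) = q := by rw [← Subgroup.orderOf_coe]; exact hy
    rw [← h3]
    exact orderOf_dvd_natCard _
  have hdeg : charDegree (ψ : G → ℂ) ≤ n := by
    rw [← hn]
    exact charDegree_le_of_constituent hχ ψ.2 (by rw [hm2]; exact_mod_cast hψ0)
  obtain ⟨g, hg1, hg2⟩ := exists_singular ψ.2 hp hq (by omega) (by omega) hx hy hxne hyne
  have ho : orderOf g ≠ 0 := (orderOf_pos g).ne'
  exact c.good_of_commute hpq (orderOf_pow_orderOf_div ho hg1) (orderOf_pow_orderOf_div ho hg2)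
    (by rw [← pow_add, ← pow_add, add_comm])

/-- the centralizer of any Sylow `p`-subgroup contains a Sylow `q`-subgroup -/
theorem Good.not_dvd_index_centralizer {p q : ℕ} {G : Type*} [Group G] [Finite G] [Fact p.Prime]
    (hq : q.Prime) (h : Good p q G) (P : Sylow p G) :
    ¬ q ∣ (Subgroup.centralizer ((P : Subgroup G) : Set G)).index := by
  obtain ⟨A, B, hA, hB, hAB⟩ := h
  obtain ⟨g, hg⟩ := MulAction.exists_smul_eq G P (Sylow.ofCard A hA)
  have hgA : ∀ x ∈ (P : Subgroup G), g * x * g⁻¹ ∈ A := by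
    intro x hx
    have h1 : g * x * g⁻¹ ∈ ((g • P : Sylow p G) : Subgroup G) := by
      rw [Sylow.coe_subgroup_smul]
      have := Subgroup.smul_mem_pointwise_smul x (MulAut.conj g) (P : Subgroup G) hx
      simpa [MulAut.smul_def] using this
    rw [hg] at h1
    exact h1
  set B' : Subgroup G := B.map (MulAut.conj g⁻¹).toMonoidHom with hB'
  have hcard : Nat.card B' = q ^ (Nat.card G).factorization q := by
    rw [← hB]
    exact (Nat.card_congr (B.equivMapOfInjective _ (MulAut.conj g⁻¹).injective).toEquiv).symm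
  have hle : B' ≤ Subgroup.centralizer ((P : Subgroup G) : Set G) := by
    rintro _ ⟨b, hb, rfl⟩
    rw [Subgroup.mem_centralizer_iff]
    intro x hx
    have h1 := hAB _ (hgA x hx) b hb
    simp only [MulEquiv.coe_toMonoidHom, MulAut.conj_apply, inv_inv]
    calc x * (g⁻¹ * b * g) = g⁻¹ * ((g * x * g⁻¹) * b) * g := by group
      _ = g⁻¹ * (b * (g * x * g⁻¹)) * g := by rw [h1]
      _ = g⁻¹ * b * g * x := by group
  intro hdvd
  exact not_dvd_index_of_card hq _ hcard (hdvd.trans (Subgroup.index_dvd_of_le hle))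

theorem exists_hall (n : ℕ) :
    ∀ (N : ℕ) (G : Type u) [Group G] [Finite G], Nat.card G = N → ∀ χ : G → ℂ, IsCharacter G χ →
      (∀ g : G, χ g = χ 1 → g = 1) → charDegree χ = n →
      ∃ A : Subgroup G, (∀ x ∈ A, ∀ y ∈ A, x * y = y * x) ∧
        (∀ q : ℕ, q.Prime → q ∣ Nat.card A → n + 1 < q) ∧
        ∀ q : ℕ, q.Prime → q ∣ A.index → q ≤ n + 1 := by
  intro N
  induction N using Nat.strong_induction_on with
  | _ N IH =>
  intro G _ _ hN χ hχ hfaith hn
  classical
  by_cases hex : ∃ p : ℕ, p.Prime ∧ n + 1 < p ∧ p ∣ Nat.card G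
  swap
  · push Not at hex
    refine ⟨⊥, ?_, ?_, ?_⟩
    · intro x hx y hy
      rw [Subgroup.mem_bot] at hx hy
      rw [hx, hy]
    · intro q hq hq2
      rw [Subgroup.card_bot] at hq2
      exact absurd (Nat.dvd_one.1 hq2) hq.one_lt.ne'
    · intro q hq hq2
      rw [Subgroup.index_bot] at hq2
      by_contra hlt
      exact hex q hq (by omega) hq2
  obtain ⟨p, hp, hnp, hpG⟩ := hex
  have hfp := Fact.mk hp
  obtain ⟨P⟩ : Nonempty (Sylow p G) := inferInstance
  have hPab : ∀ a ∈ (P : Subgroup G), ∀ b ∈ (P : Subgroup G), a * b = b * a := by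
    apply comm_of_primes_gt hχ hfaith
    intro r hr hr2
    rw [P.card_eq_multiplicity] at hr2
    have := (Nat.prime_dvd_prime_iff_eq hr hp).1 (hr.dvd_of_dvd_pow hr2)
    omega
  set C := Subgroup.centralizer ((P : Subgroup G) : Set G) with hC
  have hPC : (P : Subgroup G) ≤ C := by
    intro x hx
    rw [hC, Subgroup.mem_centralizer_iff]
    intro d hd
    exact hPab d hd x hx
  have hCidx : ∀ q : ℕ, q.Prime → q ∣ C.index → q ≤ n + 1 := by
    intro q hq hq2
    by_contra hlt
    by_cases hqp : q = p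
    · subst hqp
      exact P.not_dvd_index (hq2.trans (Subgroup.index_dvd_of_le hPC))
    · have hgood := good_of_faithful n p q hp hq (Ne.symm hqp) hnp (by omega) _ G rfl χ hχ hfaith hn
      exact hgood.not_dvd_index_centralizer hq P hq2
  by_cases hCtop : C = ⊤
  · -- `P` is central
    have hPcen : (P : Subgroup G) ≤ Subgroup.center G := Subgroup.centralizer_eq_top_iff_subset.1 hCtop
    have hPn : (P : Subgroup G).Normal := by
      refine ⟨fun x hx g => ?_⟩
      have := Subgroup.mem_center_iff.1 (hPcen hx) g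
      rw [this, mul_inv_cancel_right]
      exact hx
    have hcop : Nat.Coprime (Nat.card (P : Subgroup G)) (P : Subgroup G).index := by
      rw [P.card_eq_multiplicity]
      exact Nat.Coprime.pow_left _ ((Nat.Prime.coprime_iff_not_dvd hp).2 P.not_dvd_index)
    obtain ⟨K, hK⟩ := Subgroup.exists_right_complement'_of_coprime hcop
    have hcard := hK.card_mul_card
    have hP1 : 1 < Nat.card (P : Subgroup G) := by
      rw [P.card_eq_multiplicity]
      apply Nat.one_lt_pow _ hp.one_lt
      have := hp.factorization_pos_of_dvd Nat.card_pos.ne' hpG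
      omega
    have hKlt : Nat.card K < N := by
      rw [← hN, ← hcard]
      have : 0 < Nat.card K := Nat.card_pos
      nlinarith
    obtain ⟨A, hA1, hA2, hA3⟩ := IH _ hKlt K rfl (fun h : K => χ h) (isCharacter_restrict hχ K)
      (fun g hg => Subtype.ext (hfaith g hg)) hn
    set A' : Subgroup G := A.map K.subtype with hA'
    have hA'card : Nat.card A' = Nat.card A := card_map_subtype K A
    refine ⟨(P : Subgroup G) ⊔ A', ?_, ?_, ?_⟩
    · have hmem : ∀ x ∈ (P : Subgroup G) ⊔ A', ∃ u ∈ (P : Subgroup G), ∃ a ∈ A', x = u * a := by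
        intro x hx
        have h1 : x ∈ (((P : Subgroup G) ⊔ A' : Subgroup G) : Set G) := hx
        rw [Subgroup.normal_mul] at h1
        obtain ⟨u, hu, a, ha, rfl⟩ := Set.mem_mul.1 h1
        exact ⟨u, hu, a, ha, rfl⟩
      have hA'ab : ∀ a ∈ A', ∀ b ∈ A', a * b = b * a := by
        rintro _ ⟨a, ha, rfl⟩ _ ⟨b, hb, rfl⟩
        exact congrArg Subtype.val (hA1 a ha b hb)
      intro x hx y hy
      obtain ⟨u, hu, a, ha, rfl⟩ := hmem x hx
      obtain ⟨v, hv, b, hb, rfl⟩ := hmem y hy
      have cu := Subgroup.mem_center_iff.1 (hPcen hu)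
      have cv := Subgroup.mem_center_iff.1 (hPcen hv)
      calc u * a * (v * b) = u * (a * v) * b := by group
        _ = u * (v * a) * b := by rw [cv a]
        _ = (u * v) * (a * b) := by group
        _ = (v * u) * (b * a) := by rw [hA'ab a ha b hb, cu v]
        _ = v * (u * b) * a := by group
        _ = v * (b * u) * a := by rw [cu b]
        _ = v * b * (u * a) := by group
    · intro r hr hr2
      rw [Ctx.card_sup_normal] at hr2
      rcases (Nat.Prime.dvd_mul hr).1 hr2 with h | h
      · rw [P.card_eq_multiplicity] at h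
        have := (Nat.prime_dvd_prime_iff_eq hr hp).1 (hr.dvd_of_dvd_pow h)
        omega
      · have h4 := h.trans (Subgroup.relIndex_dvd_card (P : Subgroup G) A')
        rw [hA'card] at h4
        exact hA2 r hr h4
    · intro r hr hr2
      by_contra hlt
      by_cases hrp : r = p
      · subst hrp
        exact P.not_dvd_index (hr2.trans (Subgroup.index_dvd_of_le le_sup_left))
      · have h1 : ¬ r ∣ A.index := fun h => hlt (hA3 r hr h)
        have h2 : ¬ r ∣ Nat.card (P : Subgroup G) := by
          rw [P.card_eq_multiplicity]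
          intro h
          exact hrp ((Nat.prime_dvd_prime_iff_eq hr hp).1 (hr.dvd_of_dvd_pow h))
        have h3 : Nat.card G = Nat.card (P : Subgroup G) * A.index * Nat.card A' := by
          rw [← hcard, ← A.card_mul_index, hA'card]; ring
        have h4 : Nat.card A' ∣ Nat.card ((P : Subgroup G) ⊔ A' : Subgroup G) :=
          Subgroup.card_dvd_of_le le_sup_right
        obtain ⟨t, ht⟩ := h4
        have h5 := ((P : Subgroup G) ⊔ A').card_mul_index
        rw [ht, h3] at h5
        have h6 : t * ((P : Subgroup G) ⊔ A').index = Nat.card (P : Subgroup G) * A.index := by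
          have hpos : 0 < Nat.card A' := Nat.card_pos
          apply Nat.eq_of_mul_eq_mul_left hpos
          rw [← mul_assoc, h5]; ring
        have h7 : r ∣ Nat.card (P : Subgroup G) * A.index := by
          rw [← h6]
          exact Dvd.dvd.mul_left hr2 t
        rcases (Nat.Prime.dvd_mul hr).1 h7 with h | h
        · exact h2 h
        · exact h1 h
  · have hClt : Nat.card C < N := by
      rw [← hN]
      exact lt_of_not_ge (fun h => hCtop (Subgroup.eq_top_of_le_card C h))
    obtain ⟨A, hA1, hA2, hA3⟩ := IH _ hClt C rfl (fun h : C => χ h) (isCharacter_restrict hχ C)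
      (fun g hg => Subtype.ext (hfaith g hg)) hn
    refine ⟨A.map C.subtype, ?_, ?_, ?_⟩
    · rintro _ ⟨a, ha, rfl⟩ _ ⟨b, hb, rfl⟩
      exact congrArg Subtype.val (hA1 a ha b hb)
    · intro r hr hr2
      rw [card_map_subtype] at hr2
      exact hA2 r hr hr2
    · intro r hr hr2
      rw [Subgroup.index_map_subtype] at hr2
      rcases (Nat.Prime.dvd_mul hr).1 hr2 with h | h
      · exact hA3 r hr h
      · exact hCidx r hr h

end Cfsg.Agent.Lib.Helper23.Blich
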