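import Cfsg.Agent.Lib.Helper23.Subsect2

/-! The contribution matrix of a subsection: `∑ |m_{χψ}|² = l(b)`. -/

set_option autoImplicit false
open Cfsg Cfsg.Agent.CharLib Cfsg.Agent.BlockLib Cfsg.Agent.Lib.Helper23 Cfsg.Agent.Lib.Helper23.MinMax
  Cfsg.Agent.Lib.Helper23.Trunc Cfsg.Agent.H6.BlockSection Cfsg.Agent.Lib.Helper23.Sect
open scoped ComplexConjugate

namespace Cfsg.Agent.Lib.Helper23.Contrib

section abstract

theorem bilin_expand {γ α : Type*} [Fintype γ] [Fintype α] (w w' : α → ℂ) (η : γ → α → ℂ) :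
    ∑ i, (∑ c, w c * η i c) * conj (∑ c, w' c * η i c) =
    ∑ c, ∑ c', w c * conj (w' c') * ∑ i, η i c * conj (η i c') := by
  have h1 : ∀ i, (∑ c, w c * η i c) * conj (∑ c, w' c * η i c) =
      ∑ c, ∑ c', w c * conj (w' c') * (η i c * conj (η i c')) := by
    intro i
    rw [map_sum, Finset.sum_mul_sum]
    apply Finset.sum_congr rfl
    intro c _
    apply Finset.sum_congr rfl
    intro c' _
    rw [map_mul]; ring
  simp only [h1]
  rw [Finset.sum_comm]
  apply Finset.sum_congr rfl
  intro c _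
  rw [Finset.sum_comm]
  apply Finset.sum_congr rfl
  intro c' _
  rw [Finset.mul_sum]

theorem bilin_identity {ι κ α : Type*} [Fintype ι] [Fintype κ] [Fintype α] (S : α → Prop)
    (w w' : α → ℂ) (hw : ∀ c, ¬ S c → w c = 0) (hw' : ∀ c, ¬ S c → w' c = 0)
    (θ : ι → α → ℂ) (ζ : κ → α → ℂ)
    (h : ∀ c c', S c → S c' → ∑ i, θ i c * conj (θ i c') = ∑ j, ζ j c * conj (ζ j c')) :
    ∑ i, (∑ c, w c * θ i c) * conj (∑ c, w' c * θ i c) =
    ∑ j, (∑ c, w c * ζ j c) * conj (∑ c, w' c * ζ j c) := by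
  rw [bilin_expand w w' θ, bilin_expand w w' ζ]
  apply Finset.sum_congr rfl
  intro c _
  apply Finset.sum_congr rfl
  intro c' _
  by_cases hc : S c
  · by_cases hc' : S c'
    · rw [h c c' hc hc']
    · rw [hw' c' hc']; simp
  · rw [hw c hc]; simp

theorem gram_expand {α I : Type*} [Fintype α] [Fintype I] (v : I → α → ℂ) :
    ∑ i, ∑ i', (∑ c, v i c * conj (v i' c)) * conj (∑ c, v i c * conj (v i' c)) =
    ∑ c, ∑ c', (∑ i, v i c * conj (v i c')) * (∑ i', v i' c' * conj (v i' c)) := by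
  have h1 : ∀ i i', (∑ c, v i c * conj (v i' c)) * conj (∑ c, v i c * conj (v i' c)) =
      ∑ c, ∑ c', (v i c * conj (v i c')) * (v i' c' * conj (v i' c)) := by
    intro i i'
    rw [map_sum, Finset.sum_mul_sum]
    apply Finset.sum_congr rfl
    intro c _
    apply Finset.sum_congr rfl
    intro c' _
    rw [map_mul, Complex.conj_conj]; ring
  simp only [h1, Finset.sum_mul_sum]
  calc ∑ i, ∑ i', ∑ c, ∑ c', (v i c * conj (v i c')) * (v i' c' * conj (v i' c))
      = ∑ i, ∑ c, ∑ i', ∑ c', (v i c * conj (v i c')) * (v i' c' * conj (v i' c)) :=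
        Finset.sum_congr rfl fun i _ => Finset.sum_comm
    _ = ∑ c, ∑ i, ∑ i', ∑ c', (v i c * conj (v i c')) * (v i' c' * conj (v i' c)) :=
        Finset.sum_comm
    _ = ∑ c, ∑ i, ∑ c', ∑ i', (v i c * conj (v i c')) * (v i' c' * conj (v i' c)) :=
        Finset.sum_congr rfl fun c _ => Finset.sum_congr rfl fun i _ => Finset.sum_comm
    _ = ∑ c, ∑ c', ∑ i, ∑ i', (v i c * conj (v i c')) * (v i' c' * conj (v i' c)) :=
        Finset.sum_congr rfl fun c _ => Finset.sum_comm

theorem gram_sq_eq {α I J : Type*} [Fintype α] [Fintype I] [Fintype J] (v : I → α → ℂ)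
    (w : J → α → ℂ)
    (h : ∀ c c', ∑ i, v i c * conj (v i c') = ∑ j, w j c * conj (w j c')) :
    ∑ i, ∑ i', (∑ c, v i c * conj (v i' c)) * conj (∑ c, v i c * conj (v i' c)) =
    ∑ j, ∑ j', (∑ c, w j c * conj (w j' c)) * conj (∑ c, w j c * conj (w j' c)) := by
  rw [gram_expand v, gram_expand w]
  apply Finset.sum_congr rfl
  intro c _
  apply Finset.sum_congr rfl
  intro c' _
  rw [h c c', h c' c]

end abstract

universe u
variable {G : Type u} [Group G] [Fintype G]

/-- the contribution number `m_{χψ}^{(x,b)}` -/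
noncomputable def contrib (p : ℕ) {H : Subgroup G} [Fintype H] (b : Set (IrrCharacter H)) (x : G)
    (χ ψ : G → ℂ) : ℂ :=
  classInner (trunc p 1 (blockPart b (fun c : H => χ (x * c)))) (blockPart b (fun c : H => ψ (x * c)))

theorem sum_blockPart_mul {p : ℕ} {M : Ideal AlgInt} (hM : IsPModular p M) {x : G} {k : ℕ}
    (hx : orderOf x = p ^ k) [Fintype (Subgroup.centralizer ({x} : Set G))]
    (b : Set (IrrCharacter (Subgroup.centralizer ({x} : Set G))))
    (hb : IsPBlock M b) (y y' : Subgroup.centralizer ({x} : Set G)) (hy : ¬ p ∣ orderOf y)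
    (hy' : ¬ p ∣ orderOf y') :
    ∑ χ : IrrCharacter G,
      blockPart b (fun c : Subgroup.centralizer ({x} : Set G) => (χ : G → ℂ) (x * c)) y *
      conj (blockPart b (fun c : Subgroup.centralizer ({x} : Set G) => (χ : G → ℂ) (x * c)) y') =
    ∑ ζ : IrrCharacter (Subgroup.centralizer ({x} : Set G)),
      blockPart b (ζ : Subgroup.centralizer ({x} : Set G) → ℂ) y *
      conj (blockPart b (ζ : Subgroup.centralizer ({x} : Set G) → ℂ) y') := by
  classical
  simp only [blockPart_eq_wt]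
  rw [bilin_identity (fun c : Subgroup.centralizer ({x} : Set G) => ¬ p ∣ orderOf c) (wt b y)
    (wt b y')
    (fun c hc => wt_singular hM hb hy (not_not.1 hc))
    (fun c hc => wt_singular hM hb hy' (not_not.1 hc))
    (fun (χ : IrrCharacter G) (c : Subgroup.centralizer ({x} : Set G)) => (χ : G → ℂ) (x * c))
    (fun (ζ : IrrCharacter (Subgroup.centralizer ({x} : Set G))) c => (ζ : _ → ℂ) c)
    (fun c c' hc hc' => sum_irr_section hM.1 hx c c' hc hc')]

theorem trunc_mul_conj_trunc {K : Type*} [Group K] (p : ℕ) (f g : K → ℂ) (c : K) :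
    trunc p 1 f c * conj (trunc p 1 g c) = trunc p 1 f c * conj (g c) := by
  rw [trunc_apply, trunc_apply]
  split_ifs <;> simp

/-- Parseval for the truncated members of a block -/
theorem sum_classInner_trunc_sq {K : Type*} [Group K] [Fintype K] {p : ℕ} {M : Ideal AlgInt}
    (hM : IsPModular p M) {b : Set (IrrCharacter K)} [DecidablePred (· ∈ b)] (hb : IsPBlock M b)
    {ζ : IrrCharacter K} (hζ : ζ ∈ b) :
    ∑ ζ' ∈ Finset.univ.filter (· ∈ b), classInner (trunc p 1 (ζ : K → ℂ)) (ζ' : K → ℂ) *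
      conj (classInner (trunc p 1 (ζ : K → ℂ)) (ζ' : K → ℂ)) =
    classInner (trunc p 1 (ζ : K → ℂ)) (ζ : K → ℂ) := by
  have h1 : classInner (trunc p 1 (ζ : K → ℂ)) (ζ : K → ℂ) =
      classInner (trunc p 1 (ζ : K → ℂ)) (trunc p 1 (ζ : K → ℂ)) := by
    rw [classInner, classInner]
    congr 1
    apply Finset.sum_congr rfl
    intro c _
    rw [trunc_mul_conj_trunc]
  rw [h1]
  conv_rhs => rhs; rw [trunc_eq_sum_block hM hb 1 hζ]
  rw [classInner_sum_right]
  apply Finset.sum_congr rfl
  intro ζ' _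
  rw [classInner_smul_right, mul_comm]

/-- `∑_{χ,ψ ∈ B} |m_{χψ}|² = l(b)` -/
theorem sum_contrib_sq {p : ℕ} [Fact p.Prime] {M : Ideal AlgInt} (hM : IsPModular p M) {x : G}
    {k : ℕ} (hx : orderOf x = p ^ k) {H : Subgroup G} [Fintype H]
    (hH : H = Subgroup.centralizer ({x} : Set G)) {b : Set (IrrCharacter H)}
    {B : Set (IrrCharacter G)} [DecidablePred (· ∈ B)] (hind : IsInducedBlock M H b B) :
    ∑ χ ∈ Finset.univ.filter (· ∈ B), ∑ ψ ∈ Finset.univ.filter (· ∈ B),
      contrib p b x (χ : G → ℂ) (ψ : G → ℂ) * conj (contrib p b x (χ : G → ℂ) (ψ : G → ℂ)) =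
    (blockRank p b : ℂ) := by
  classical
  subst hH
  have hMp := isPrime_of_isPModular hM
  have htop := ne_top_of_isPModular hM
  have hb := hind.1
  have h0 : (Nat.card (Subgroup.centralizer ({x} : Set G)) : ℂ) ≠ 0 := card_ne_zero_complex
  set v : IrrCharacter G → Subgroup.centralizer ({x} : Set G) → ℂ := fun χ =>
    trunc p 1 (blockPart b (fun c : Subgroup.centralizer ({x} : Set G) => (χ : G → ℂ) (x * c)))
    with hv
  set w : IrrCharacter (Subgroup.centralizer ({x} : Set G)) →
      Subgroup.centralizer ({x} : Set G) → ℂ := fun ζ =>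
    trunc p 1 (blockPart b (ζ : Subgroup.centralizer ({x} : Set G) → ℂ)) with hw
  have hgram := gram_sq_eq v w (by
    intro c c'
    simp only [hv, hw, trunc_apply]
    by_cases hc : p ∣ orderOf c
    · simp [hc]
    · by_cases hc' : p ∣ orderOf c'
      · simp [hc']
      · simp only [if_neg hc, if_neg hc', one_mul]
        exact sum_blockPart_mul hM hx b hb c c' hc hc')
  -- the left side
  have hvz : ∀ χ : IrrCharacter G, χ ∉ B → v χ = 0 := by
    intro χ hχ
    funext y
    simp only [hv, trunc_apply, Pi.zero_apply]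
    split_ifs with hy
    · rfl
    · rw [Cfsg.Agent.S0923.result p M hM x ⟨k, hx⟩ (blockOf M (χ : G → ℂ)) ⟨χ, rfl⟩ χ
          (SameBlock.refl' htop _) b hb (fun h => hχ (by
            rw [isInducedBlock_unique hind h]; exact SameBlock.refl' htop _)) y hy, mul_zero]
  have hvc : ∀ χ ψ : IrrCharacter G, ∑ c, v χ c * conj (v ψ c) =
      (Nat.card (Subgroup.centralizer ({x} : Set G)) : ℂ) *
        contrib p b x (χ : G → ℂ) (ψ : G → ℂ) := by
    intro χ ψ
    rw [contrib, classInner, mul_inv_cancel_left₀ h0]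
    apply Finset.sum_congr rfl
    intro c _
    simp only [hv]
    rw [trunc_mul_conj_trunc]
  have hL : ∑ χ : IrrCharacter G, ∑ ψ : IrrCharacter G,
      (∑ c, v χ c * conj (v ψ c)) * conj (∑ c, v χ c * conj (v ψ c)) =
      (Nat.card (Subgroup.centralizer ({x} : Set G)) : ℂ) ^ 2 *
      ∑ χ ∈ Finset.univ.filter (· ∈ B), ∑ ψ ∈ Finset.univ.filter (· ∈ B),
      contrib p b x (χ : G → ℂ) (ψ : G → ℂ) * conj (contrib p b x (χ : G → ℂ) (ψ : G → ℂ)) := by
    rw [Finset.sum_filter, Finset.mul_sum]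
    apply Finset.sum_congr rfl
    intro χ _
    split_ifs with hχ
    · rw [Finset.sum_filter, Finset.mul_sum]
      apply Finset.sum_congr rfl
      intro ψ _
      split_ifs with hψ
      · rw [hvc, map_mul, Complex.conj_natCast]; ring
      · rw [hvz ψ hψ]; simp
    · rw [hvz χ hχ]; simp
  -- the right side
  have hwz : ∀ ζ : IrrCharacter (Subgroup.centralizer ({x} : Set G)), w ζ =
      if ζ ∈ b then trunc p 1 (ζ : Subgroup.centralizer ({x} : Set G) → ℂ) else 0 := by
    intro ζ
    funext y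
    simp only [hw, trunc_apply, blockPart_irr]
    split_ifs <;> simp_all [trunc_apply]
  have hR : ∑ ζ : IrrCharacter (Subgroup.centralizer ({x} : Set G)),
      ∑ ζ' : IrrCharacter (Subgroup.centralizer ({x} : Set G)),
      (∑ c, w ζ c * conj (w ζ' c)) * conj (∑ c, w ζ c * conj (w ζ' c)) =
      (Nat.card (Subgroup.centralizer ({x} : Set G)) : ℂ) ^ 2 * (blockRank p b : ℂ) := by
    have hR1 : ∀ ζ ∈ b, ∑ ζ' : IrrCharacter (Subgroup.centralizer ({x} : Set G)),
        (∑ c, w ζ c * conj (w ζ' c)) * conj (∑ c, w ζ c * conj (w ζ' c)) =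
        (Nat.card (Subgroup.centralizer ({x} : Set G)) : ℂ) ^ 2 *
        classInner (trunc p 1 (ζ : Subgroup.centralizer ({x} : Set G) → ℂ))
          (ζ : Subgroup.centralizer ({x} : Set G) → ℂ) := by
      intro ζ hζ
      rw [← sum_classInner_trunc_sq hM hb hζ, Finset.sum_filter, Finset.mul_sum]
      apply Finset.sum_congr rfl
      intro ζ' _
      rw [hwz ζ, hwz ζ', if_pos hζ]
      split_ifs with hζ'
      · have e : ∑ c, trunc p 1 (ζ : Subgroup.centralizer ({x} : Set G) → ℂ) c *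
            conj (trunc p 1 (ζ' : Subgroup.centralizer ({x} : Set G) → ℂ) c) =
            (Nat.card (Subgroup.centralizer ({x} : Set G)) : ℂ) *
            classInner (trunc p 1 (ζ : Subgroup.centralizer ({x} : Set G) → ℂ))
              (ζ' : Subgroup.centralizer ({x} : Set G) → ℂ) := by
          rw [classInner, mul_inv_cancel_left₀ h0]
          apply Finset.sum_congr rfl
          intro c _
          rw [trunc_mul_conj_trunc]
        rw [e, map_mul, Complex.conj_natCast]; ring
      · simp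
    have hR2 : ∀ ζ : IrrCharacter (Subgroup.centralizer ({x} : Set G)), ζ ∉ b →
        ∑ ζ' : IrrCharacter (Subgroup.centralizer ({x} : Set G)),
        (∑ c, w ζ c * conj (w ζ' c)) * conj (∑ c, w ζ c * conj (w ζ' c)) = 0 := by
      intro ζ hζ
      apply Finset.sum_eq_zero
      intro ζ' _
      rw [hwz ζ, if_neg hζ]; simp
    have hrank := card_mul_blockRank hM hb
    rw [Finset.sum_comm] at hrank
    have hR3 : (blockRank p b : ℂ) = ∑ ζ ∈ Finset.univ.filter (· ∈ b),
        classInner (trunc p 1 (ζ : Subgroup.centralizer ({x} : Set G) → ℂ))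
          (ζ : Subgroup.centralizer ({x} : Set G) → ℂ) := by
      simp only [classInner]
      rw [← Finset.mul_sum, ← hrank, inv_mul_cancel_left₀ h0]
    rw [hR3, Finset.sum_filter, Finset.mul_sum]
    apply Finset.sum_congr rfl
    intro ζ _
    split_ifs with hζ
    · exact hR1 ζ hζ
    · rw [hR2 ζ hζ, mul_zero]
  rw [hL, hR] at hgram
  exact mul_left_cancel₀ (pow_ne_zero 2 h0) hgram

end Cfsg.Agent.Lib.Helper23.Contrib
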