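import Cfsg.Agent.Lib.Helper23.Contrib

/-! Contribution numbers of characters of height zero are units (Brauer, Broué). -/

set_option autoImplicit false
open Cfsg Cfsg.Agent.CharLib Cfsg.Agent.BlockLib Cfsg.Agent.Lib.Helper23 Cfsg.Agent.Lib.Helper23.MinMax
  Cfsg.Agent.Lib.Helper23.Trunc Cfsg.Agent.H6.BlockSection Cfsg.Agent.Lib.Helper23.Sect
  Cfsg.Agent.Lib.Helper23.Subsect
open scoped ComplexConjugate

namespace Cfsg.Agent.Lib.Helper23.Contrib

section central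

variable {K : Type*} [Group K] [Fintype K]

/-- the linear character of the centre attached to `ξ` -/
noncomputable def lam (ξ : K → ℂ) (z : K) : ℂ := ξ z / ξ 1

theorem irr_central_mul' (ξ : IrrCharacter K) {z : K} (hz : z ∈ Subgroup.center K) (c : K) :
    (ξ : K → ℂ) (z * c) = lam (ξ : K → ℂ) z * (ξ : K → ℂ) c := by
  have h1 := irr_central_mul ξ.2 hz 1
  rw [mul_one] at h1
  rw [irr_central_mul ξ.2 hz c, lam, h1, mul_div_cancel_right₀ _ (irr_apply_one_ne_zero ξ)]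

theorem lam_one (ξ : IrrCharacter K) : lam (ξ : K → ℂ) 1 = 1 := by
  rw [lam, div_self (irr_apply_one_ne_zero ξ)]

theorem lam_mul (ξ : IrrCharacter K) {z : K} (hz : z ∈ Subgroup.center K) (z' : K) :
    lam (ξ : K → ℂ) (z * z') = lam (ξ : K → ℂ) z * lam (ξ : K → ℂ) z' := by
  rw [lam, irr_central_mul' ξ hz, mul_div_assoc]
  rfl

theorem lam_pow (ξ : IrrCharacter K) {z : K} (hz : z ∈ Subgroup.center K) (n : ℕ) :
    lam (ξ : K → ℂ) (z ^ n) = lam (ξ : K → ℂ) z ^ n := by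
  induction n with
  | zero => rw [pow_zero, pow_zero, lam_one]
  | succ n ih => rw [pow_succ', pow_succ', lam_mul ξ hz, ih]

theorem conj_lam (ξ : IrrCharacter K) (z : K) :
    conj (lam (ξ : K → ℂ) z) = lam (ξ : K → ℂ) z⁻¹ := by
  rw [lam, lam, map_div₀, ← isCharacter_inv (isCharacter_of_irr ξ.2),
    ← isCharacter_inv (isCharacter_of_irr ξ.2), inv_one]

/-- coefficients of a central shift of a class function -/
theorem classInner_shift {Θ : K → ℂ} (hΘ : IsClassFunction K Θ) {z : K}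
    (hz : z ∈ Subgroup.center K) (ξ : IrrCharacter K) :
    classInner (fun c => Θ (z * c)) (ξ : K → ℂ) = lam (ξ : K → ℂ) z * classInner Θ (ξ : K → ℂ) := by
  have h1 : (fun c => Θ (z * c)) = ∑ ξ' : IrrCharacter K,
      (lam (ξ' : K → ℂ) z * classInner Θ (ξ' : K → ℂ)) • (ξ' : K → ℂ) := by
    funext c
    conv_lhs => rw [classFunction_eq_sum hΘ]
    rw [Finset.sum_apply, Finset.sum_apply]
    apply Finset.sum_congr rfl
    intro ξ' _
    rw [Pi.smul_apply, Pi.smul_apply, smul_eq_mul, smul_eq_mul, irr_central_mul' ξ' hz]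
    ring
  rw [h1]
  exact classInner_sum_smul_irr _ ξ

theorem blockPart_eq_sum_smul (b : Set (IrrCharacter K)) [DecidablePred (· ∈ b)] (f : K → ℂ) :
    blockPart b f = ∑ ξ ∈ Finset.univ.filter (· ∈ b), classInner f (ξ : K → ℂ) • (ξ : K → ℂ) := by
  funext y
  rw [blockPart_eq_filter, Finset.sum_apply]
  rfl

theorem conj_classInner_trunc {p : ℕ} (hp : p.Prime) (χ ξ : IrrCharacter K) :
    conj (classInner (trunc p 1 (χ : K → ℂ)) (ξ : K → ℂ)) =
      classInner (trunc p 1 (χ : K → ℂ)) (ξ : K → ℂ) := by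
  obtain ⟨z, hz⟩ := exists_int_classInner_trunc hp χ ξ ((Nat.card K).factorization p)
    (Nat.le_add_right _ _)
  rw [classInner_trunc] at hz
  have hp0 : ((p : ℂ) ^ (Nat.card K).factorization p) ≠ 0 :=
    pow_ne_zero _ (by exact_mod_cast hp.ne_zero)
  have h : classInner (trunc p 1 (χ : K → ℂ)) (ξ : K → ℂ) =
      (z : ℂ) / (p : ℂ) ^ (Nat.card K).factorization p := by
    rw [eq_div_iff hp0, mul_comm]; exact hz
  rw [h, map_div₀, map_pow, Complex.conj_natCast, map_intCast]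

/-- `|K| [χ~, ξ] = ξ(1) ω_ξ(cf χ)` -/
theorem card_mul_classInner_trunc {p : ℕ} (hp : p.Prime) (χ ξ : IrrCharacter K) :
    (Nat.card K : ℂ) * classInner (trunc p 1 (χ : K → ℂ)) (ξ : K → ℂ) =
      (ξ : K → ℂ) 1 * omega (ξ : K → ℂ) (cf p (χ : K → ℂ)) := by
  have h := classInner_trunc_eq_omega p 1 (χ : K → ℂ) ξ
  rw [conj_classInner_trunc hp, map_one, one_mul] at h
  exact h

/-- the scaled degree `p^q ξ(1) / |K|` -/
noncomputable def sdeg (p : ℕ) (b : Set (IrrCharacter K)) (ξ : K → ℂ) : ℂ :=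
  (p : ℂ) ^ blockDefect p b * ξ 1 / (Nat.card K : ℂ)

theorem sdeg_eq {p : ℕ} (hp : p.Prime) {b : Set (IrrCharacter K)} {ξ : IrrCharacter K}
    (hξ : ξ ∈ b) : sdeg p b (ξ : K → ℂ) =
      ((charDegree (ξ : K → ℂ) / p ^ minExp p b : ℕ) : ℂ) *
        ((Nat.card K / p ^ (Nat.card K).factorization p : ℕ) : ℂ)⁻¹ := by
  have hp0 : (p : ℂ) ≠ 0 := by exact_mod_cast hp.ne_zero
  have h1 : charDegree (ξ : K → ℂ) = p ^ minExp p b * (charDegree (ξ : K → ℂ) / p ^ minExp p b) :=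
    (Nat.mul_div_cancel' (pow_minExp_dvd hp hξ)).symm
  have h2 : Nat.card K = p ^ (Nat.card K).factorization p *
      (Nat.card K / p ^ (Nat.card K).factorization p) :=
    (Nat.ordProj_mul_ordCompl_eq_self (Nat.card K) p).symm
  have h3 : minExp p b ≤ (Nat.card K).factorization p := minExp_le_card ⟨ξ, hξ⟩
  have h4 : ((Nat.card K / p ^ (Nat.card K).factorization p : ℕ) : ℂ) ≠ 0 := by
    have : Nat.card K / p ^ (Nat.card K).factorization p ≠ 0 :=
      (Nat.ordCompl_pos p Nat.card_pos.ne').ne'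
    exact_mod_cast this
  have hc1 : ((charDegree (ξ : K → ℂ) : ℕ) : ℂ) = (p : ℂ) ^ minExp p b *
      ((charDegree (ξ : K → ℂ) / p ^ minExp p b : ℕ) : ℂ) := by
    conv_lhs => rw [h1]
    push_cast; rfl
  have hc2 : (Nat.card K : ℂ) = (p : ℂ) ^ (Nat.card K).factorization p *
      ((Nat.card K / p ^ (Nat.card K).factorization p : ℕ) : ℂ) := by
    conv_lhs => rw [h2]
    push_cast; rfl
  have h5 : (p : ℂ) ^ (Nat.card K).factorization p =
      (p : ℂ) ^ ((Nat.card K).factorization p - minExp p b) * (p : ℂ) ^ minExp p b := by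
    rw [← pow_add, Nat.sub_add_cancel h3]
  have h6 : (p : ℂ) ^ ((Nat.card K).factorization p - minExp p b) ≠ 0 := pow_ne_zero _ hp0
  have h7 : (p : ℂ) ^ minExp p b ≠ 0 := pow_ne_zero _ hp0
  rw [sdeg, ← charDegree_cast_irr, blockDefect_eq, hc1]
  generalize ((charDegree (ξ : K → ℂ) / p ^ minExp p b : ℕ) : ℂ) = t
  rw [div_eq_iff (by exact_mod_cast Nat.card_pos.ne')]
  conv_rhs => rw [hc2, h5]
  field_simp

theorem memLocalRing_sdeg {p : ℕ} {M : Ideal AlgInt} (hM : IsPModular p M)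
    {b : Set (IrrCharacter K)} {ξ : IrrCharacter K} (hξ : ξ ∈ b) :
    MemLocalRing M (sdeg p b (ξ : K → ℂ)) := by
  have hMp := isPrime_of_isPModular hM
  rw [sdeg_eq hM.1 hξ]
  exact memLocalRing_mul (memLocalRing_natCast (ne_top_of_isPModular hM) _)
    (memLocalRing_natCast_inv hM (Nat.not_dvd_ordCompl hM.1 Nat.card_pos.ne'))

theorem not_memLocalIdeal_sdeg {p : ℕ} {M : Ideal AlgInt} (hM : IsPModular p M)
    {b : Set (IrrCharacter K)} {ξ : IrrCharacter K} (hξ : ξ ∈ b)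
    (hh : (charDegree (ξ : K → ℂ)).factorization p = minExp p b) :
    ¬ MemLocalIdeal M (sdeg p b (ξ : K → ℂ)) := by
  have hMp := isPrime_of_isPModular hM
  have htop := ne_top_of_isPModular hM
  intro hcon
  rw [sdeg_eq hM.1 hξ] at hcon
  have h4 : ((Nat.card K / p ^ (Nat.card K).factorization p : ℕ) : ℂ) ≠ 0 := by
    have : Nat.card K / p ^ (Nat.card K).factorization p ≠ 0 :=
      (Nat.ordCompl_pos p Nat.card_pos.ne').ne'
    exact_mod_cast this
  have h1 := memLocalIdeal_mul_right hcon (memLocalRing_natCast htop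
    (Nat.card K / p ^ (Nat.card K).factorization p))
  rw [mul_assoc, inv_mul_cancel₀ h4, mul_one, memLocalIdeal_natCast_iff hM, ← hh] at h1
  exact Nat.not_dvd_ordCompl hM.1 (charDegree_pos_irr ξ).ne' h1

end central

universe u
variable {G : Type u} [Group G] [Fintype G] {H : Subgroup G} [Fintype H]

theorem mem_center_mk {z : G} (hzH : z ∈ H) (hz : ∀ h ∈ H, z * h = h * z) :
    (⟨z, hzH⟩ : H) ∈ Subgroup.center H := by
  rw [Subgroup.mem_center_iff]
  intro g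
  exact Subtype.ext (hz g g.2).symm

theorem coef_eq (χ : IrrCharacter G) {z : G} (hzH : z ∈ H) (hz : ∀ h ∈ H, z * h = h * z)
    (ξ : IrrCharacter H) :
    classInner (fun c : H => (χ : G → ℂ) (z * c)) (ξ : H → ℂ) =
      lam (ξ : H → ℂ) ⟨z, hzH⟩ * classInner (fun c : H => (χ : G → ℂ) c) (ξ : H → ℂ) :=
  classInner_shift (Θ := fun c : H => (χ : G → ℂ) c)
    (isClassFunction_of_char (isCharacter_restrict (isCharacter_of_irr χ.2) H))
    (mem_center_mk hzH hz) ξ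

theorem lam_pow_eq_one {z : G} (hzH : z ∈ H) (hz : ∀ h ∈ H, z * h = h * z) {n : ℕ}
    (hzn : z ^ n = 1) (ξ : IrrCharacter H) : lam (ξ : H → ℂ) ⟨z, hzH⟩ ^ n = 1 := by
  rw [← lam_pow ξ (mem_center_mk hzH hz)]
  have : (⟨z, hzH⟩ : H) ^ n = 1 := Subtype.ext (by simpa using hzn)
  rw [this, lam_one]

theorem memLocalRing_coef {M : Ideal AlgInt} [M.IsPrime] (χ : IrrCharacter G) {z : G}
    (hzH : z ∈ H) (hz : ∀ h ∈ H, z * h = h * z) {n : ℕ} (hn : 0 < n) (hzn : z ^ n = 1)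
    (ξ : IrrCharacter H) :
    MemLocalRing M (classInner (fun c : H => (χ : G → ℂ) (z * c)) (ξ : H → ℂ)) := by
  have htop : M ≠ ⊤ := Ideal.IsPrime.ne_top ‹_›
  rw [coef_eq χ hzH hz]
  obtain ⟨m, hm⟩ := classInner_char_nat (isCharacter_restrict (isCharacter_of_irr χ.2) H)
    (isCharacter_of_irr ξ.2)
  rw [hm]
  exact memLocalRing_mul (memLocalRing_of_isIntegral htop
    (isIntegral_of_pow_eq_one hn (lam_pow_eq_one hzH hz hzn ξ))) (memLocalRing_natCast htop m)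

theorem conj_coef (χ : IrrCharacter G) {z : G} (hzH : z ∈ H) (hz : ∀ h ∈ H, z * h = h * z)
    (ξ : IrrCharacter H) :
    conj (classInner (fun c : H => (χ : G → ℂ) (z * c)) (ξ : H → ℂ)) =
      classInner (fun c : H => (χ : G → ℂ) (z⁻¹ * c)) (ξ : H → ℂ) := by
  have hz' : ∀ h ∈ H, z⁻¹ * h = h * z⁻¹ := fun h hh =>
    ((show Commute z h from hz h hh).inv_left).eq
  rw [coef_eq χ hzH hz, coef_eq χ (H.inv_mem hzH) hz', map_mul, conj_lam]
  obtain ⟨m, hm⟩ := classInner_char_nat (isCharacter_restrict (isCharacter_of_irr χ.2) H)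
    (isCharacter_of_irr ξ.2)
  rw [hm, Complex.conj_natCast]
  rfl

/-- `(p^q / |H|) χ^{(z,b)}(1)` -/
noncomputable def gam (p : ℕ) (b : Set (IrrCharacter H)) [DecidablePred (· ∈ b)] (z : G)
    (χ : G → ℂ) : ℂ :=
  ∑ ξ ∈ Finset.univ.filter (· ∈ b),
    classInner (fun c : H => χ (z * c)) (ξ : H → ℂ) * sdeg p b (ξ : H → ℂ)

theorem memLocalRing_Tnum {p : ℕ} {M : Ideal AlgInt} (hM : IsPModular p M)
    {b : Set (IrrCharacter H)} {B : Set (IrrCharacter G)}
    (hind : IsInducedBlock M H b B) {ξ : IrrCharacter H} (hξ : ξ ∈ b) {χ : IrrCharacter G}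
    (hχ : χ ∈ B) {z : G} (hz : ∀ h ∈ H, z * h = h * z) {k : ℕ} (hzk : z ^ (p ^ k) = 1) :
    MemLocalRing M (Tnum p H z (χ : G → ℂ) (ξ : H → ℂ)) := by
  have hMp := isPrime_of_isPModular hM
  have := memLocalRing_add (memLocalRing_of_memLocalIdeal (Tnum_congr hM hind hξ hχ hz hzk))
    (memLocalRing_omega_cf hM χ χ)
  rwa [sub_add_cancel] at this

theorem gam_unit {p : ℕ} {M : Ideal AlgInt} (hM : IsPModular p M)
    {b : Set (IrrCharacter H)} [DecidablePred (· ∈ b)] {B : Set (IrrCharacter G)}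
    (hind : IsInducedBlock M H b B) {χ : IrrCharacter G}
    (hχ : χ ∈ B) (hh : (charDegree (χ : G → ℂ)).factorization p = minExp p B)
    {z : G} (hzH : z ∈ H) (hz : ∀ h ∈ H, z * h = h * z) {k : ℕ} (hzk : z ^ (p ^ k) = 1) :
    MemLocalRing M (gam p b z (χ : G → ℂ)) ∧ ¬ MemLocalIdeal M (gam p b z (χ : G → ℂ)) := by
  have hp := hM.1
  have hMp := isPrime_of_isPModular hM
  have htop := ne_top_of_isPModular hM
  have hb := hind.1
  have hpk : 0 < p ^ k := pow_pos hp.pos k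
  have hring : MemLocalRing M (gam p b z (χ : G → ℂ)) := by
    apply memLocalRing_sum
    intro ξ hξ
    exact memLocalRing_mul (memLocalRing_coef χ hzH hz hpk hzk ξ)
      (memLocalRing_sdeg hM (Finset.mem_filter.1 hξ).2)
  refine ⟨hring, ?_⟩
  obtain ⟨ξ₀, hξ₀, hmin⟩ := exists_minExp (p := p) (nonempty_of_isPBlock htop hb)
  have hz' : ∀ h ∈ H, z⁻¹ * h = h * z⁻¹ := fun h hh =>
    ((show Commute z h from hz h hh).inv_left).eq
  have hzk' : z⁻¹ ^ (p ^ k) = 1 := by rw [inv_pow, hzk, inv_one]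
  have hT := Tnum_unit hM hind hξ₀ hχ hh hz' hzk'
  have hTR := memLocalRing_Tnum hM hind hξ₀ hχ hz' hzk'
  have hmul := Tnum_mul hM hb hξ₀ χ hz'
  have h0 : (Nat.card H : ℂ) ≠ 0 := card_ne_zero_complex
  -- expansion
  have hexp : Tnum p H z⁻¹ (χ : G → ℂ) (ξ₀ : H → ℂ) * sdeg p b (ξ₀ : H → ℂ) =
      ∑ ξ ∈ Finset.univ.filter (· ∈ b),
        classInner (fun c : H => (χ : G → ℂ) (z * c)) (ξ : H → ℂ) * sdeg p b (ξ : H → ℂ) *
          omega (ξ : H → ℂ) (cf p (ξ₀ : H → ℂ)) := by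
    have e1 : Tnum p H z⁻¹ (χ : G → ℂ) (ξ₀ : H → ℂ) * sdeg p b (ξ₀ : H → ℂ) =
        (p : ℂ) ^ blockDefect p b / (Nat.card H : ℂ) *
          (Tnum p H z⁻¹ (χ : G → ℂ) (ξ₀ : H → ℂ) * (ξ₀ : H → ℂ) 1) := by
      rw [sdeg]; ring
    rw [e1, hmul, blockPart_eq_sum_smul, classInner_sum_right, Finset.mul_sum, Finset.mul_sum]
    apply Finset.sum_congr rfl
    intro ξ _
    rw [classInner_smul_right, conj_coef χ (H.inv_mem hzH) hz', inv_inv]
    have e2 := card_mul_classInner_trunc hp ξ₀ ξ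
    rw [sdeg]
    calc (p : ℂ) ^ blockDefect p b / (Nat.card H : ℂ) * ((Nat.card H : ℂ) *
          (classInner (fun c : H => (χ : G → ℂ) (z * c)) (ξ : H → ℂ) *
            classInner (trunc p 1 (ξ₀ : H → ℂ)) (ξ : H → ℂ)))
        = (p : ℂ) ^ blockDefect p b / (Nat.card H : ℂ) *
          classInner (fun c : H => (χ : G → ℂ) (z * c)) (ξ : H → ℂ) * ((Nat.card H : ℂ) *
            classInner (trunc p 1 (ξ₀ : H → ℂ)) (ξ : H → ℂ)) := by ring
      _ = _ := by rw [e2]; ring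
  have hdiff : MemLocalIdeal M (Tnum p H z⁻¹ (χ : G → ℂ) (ξ₀ : H → ℂ) * sdeg p b (ξ₀ : H → ℂ) -
      gam p b z (χ : G → ℂ) * omega (ξ₀ : H → ℂ) (cf p (ξ₀ : H → ℂ))) := by
    rw [hexp, gam, Finset.sum_mul, ← Finset.sum_sub_distrib]
    apply memLocalIdeal_sum
    intro ξ hξ
    rw [← mul_sub]
    exact memLocalIdeal_mul_left (memLocalRing_mul (memLocalRing_coef χ hzH hz hpk hzk ξ)
      (memLocalRing_sdeg hM (Finset.mem_filter.1 hξ).2))
      (omega_cf_congr hM hb (Finset.mem_filter.1 hξ).2 hξ₀ ξ₀)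
  intro hcon
  have h1 : MemLocalIdeal M (Tnum p H z⁻¹ (χ : G → ℂ) (ξ₀ : H → ℂ) * sdeg p b (ξ₀ : H → ℂ)) := by
    have := memLocalIdeal_add hdiff (memLocalIdeal_mul_right hcon (memLocalRing_omega_cf hM ξ₀ ξ₀))
    rwa [sub_add_cancel] at this
  rcases memLocalIdeal_or_of_mul hTR (memLocalRing_sdeg hM hξ₀) h1 with h | h
  · exact hT h
  · exact not_memLocalIdeal_sdeg hM hξ₀ hmin h

/-- `p^q m_{χψ}` is a unit for `χ, ψ` of height zero -/
theorem contrib_unit {p : ℕ} {M : Ideal AlgInt} (hM : IsPModular p M)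
    {b : Set (IrrCharacter H)} {B : Set (IrrCharacter G)}
    (hind : IsInducedBlock M H b B) {χ ψ : IrrCharacter G}
    (hχ : χ ∈ B) (hh : (charDegree (χ : G → ℂ)).factorization p = minExp p B)
    (hψ : ψ ∈ B) (hh' : (charDegree (ψ : G → ℂ)).factorization p = minExp p B)
    {z : G} (hzH : z ∈ H) (hz : ∀ h ∈ H, z * h = h * z) {k : ℕ} (hzk : z ^ (p ^ k) = 1) :
    ¬ MemLocalIdeal M ((p : ℂ) ^ blockDefect p b * contrib p b z (χ : G → ℂ) (ψ : G → ℂ)) := by
  classical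
  have hp := hM.1
  have hMp := isPrime_of_isPModular hM
  have htop := ne_top_of_isPModular hM
  have hb := hind.1
  have hpk : 0 < p ^ k := pow_pos hp.pos k
  have h0 : (Nat.card H : ℂ) ≠ 0 := card_ne_zero_complex
  obtain ⟨hgR, hgU⟩ := gam_unit hM hind hχ hh hzH hz hzk
  have hexp : (p : ℂ) ^ blockDefect p b * contrib p b z (χ : G → ℂ) (ψ : G → ℂ) =
      ∑ ξ ∈ Finset.univ.filter (· ∈ b),
        classInner (fun c : H => (χ : G → ℂ) (z * c)) (ξ : H → ℂ) * sdeg p b (ξ : H → ℂ) *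
          Tnum p H z (ψ : G → ℂ) (ξ : H → ℂ) := by
    rw [contrib]
    conv_lhs => rw [blockPart_eq_sum_smul b (fun c : H => (χ : G → ℂ) (z * c)), trunc_sum,
      classInner_sum_left, Finset.mul_sum]
    apply Finset.sum_congr rfl
    intro ξ hξ
    rw [classInner_smul_left]
    have e := Tnum_mul hM hb (Finset.mem_filter.1 hξ).2 ψ hz
    have e' : classInner (trunc p 1 (ξ : H → ℂ)) (blockPart b (fun c : H => (ψ : G → ℂ) (z * c))) =
        Tnum p H z (ψ : G → ℂ) (ξ : H → ℂ) * (ξ : H → ℂ) 1 / (Nat.card H : ℂ) := by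
      rw [e, mul_div_cancel_left₀ _ h0]
    rw [e', sdeg]
    ring
  have hdiff : MemLocalIdeal M ((p : ℂ) ^ blockDefect p b * contrib p b z (χ : G → ℂ) (ψ : G → ℂ) -
      gam p b z (χ : G → ℂ) * omega (ψ : G → ℂ) (cf p (ψ : G → ℂ))) := by
    rw [hexp, gam, Finset.sum_mul, ← Finset.sum_sub_distrib]
    apply memLocalIdeal_sum
    intro ξ hξ
    rw [← mul_sub]
    exact memLocalIdeal_mul_left (memLocalRing_mul (memLocalRing_coef χ hzH hz hpk hzk ξ)
      (memLocalRing_sdeg hM (Finset.mem_filter.1 hξ).2))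
      (Tnum_congr hM hind (Finset.mem_filter.1 hξ).2 hψ hz hzk)
  intro hcon
  have h1 : MemLocalIdeal M (gam p b z (χ : G → ℂ) * omega (ψ : G → ℂ) (cf p (ψ : G → ℂ))) := by
    have := memLocalIdeal_sub hcon hdiff
    rwa [sub_sub_cancel] at this
  rcases memLocalIdeal_or_of_mul hgR (memLocalRing_omega_cf hM ψ ψ) h1 with h | h
  · exact hgU h
  · exact not_memLocalIdeal_omega_cf hM hind.2.1 hψ hh' hψ h

end Cfsg.Agent.Lib.Helper23.Contrib
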