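import Cfsg.Agent.CharLib.L.BurnsideZero

/-! Averaging the square norm of a cyclotomic integer over its Galois conjugates. -/

set_option autoImplicit false
open Cfsg Cfsg.Agent.CharLib Cfsg.Agent.CharLib.L

namespace Cfsg.Agent.Lib.Helper23.GalAvg

theorem pow_eq_pow_mod' {z : ℂ} {n : ℕ} (hz : z ^ n = 1) (k : ℕ) : z ^ (k % n) = z ^ k := by
  conv_rhs => rw [← Nat.div_add_mod k n, pow_add, pow_mul, hz, one_pow, one_mul]

/-- if all Galois conjugates `∑ N_i ρ_i^u` of a cyclotomic integer are nonzero then the average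
of their square norms is at least one -/
theorem card_units_le_sum_normSq {ι : Type*} [Fintype ι] (n : ℕ) [NeZero n] (N : ι → ℤ)
    (ρ : ι → ℂ) (hρ : ∀ i, ρ i ^ n = 1)
    (hne : ∀ u : ℕ, u.Coprime n → ∑ i, (N i : ℂ) * ρ i ^ u ≠ 0) :
    (Fintype.card (ZMod n)ˣ : ℝ) ≤
      ∑ u : (ZMod n)ˣ, Complex.normSq (∑ i, (N i : ℂ) * ρ i ^ (u : ZMod n).val) := by
  classical
  have hn0 : 0 < n := Nat.pos_of_ne_zero (NeZero.ne n)
  have hcop : ∀ u : (ZMod n)ˣ, ((u : ZMod n).val).Coprime n := fun u => ZMod.val_coe_unit_coprime u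
  refine card_le_sum_of_one_le_prod _ (fun u => Complex.normSq_pos.mpr (hne _ (hcop u))) ?_
  let r : ι → QBar := fun i => ⟨ρ i, mem_QBar_of_pow_eq_one hn0 (hρ i)⟩
  have hr : ∀ i, r i ^ n = 1 := fun i => Subtype.ext (by simpa [r] using hρ i)
  let y : (ZMod n)ˣ → QBar := fun u => ∑ i, (N i : QBar) * r i ^ (u : ZMod n).val
  have hy : ∀ u, (y u : ℂ) = ∑ i, (N i : ℂ) * ρ i ^ (u : ZMod n).val := by
    intro u
    simp [y, r]
  let P : QBar := ∏ u, y u
  have hPc : (P : ℂ) = ∏ u : (ZMod n)ˣ, ∑ i, (N i : ℂ) * ρ i ^ (u : ZMod n).val := by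
    simp only [P]
    rw [← Finset.prod_congr rfl (fun u _ => hy u)]
    simp
  have hfix : ∀ φ : QBar →ₐ[ℚ] ℂ, φ P = (P : ℂ) := by
    intro φ
    obtain ⟨m, hm, hφ⟩ := exists_pow_of_algHom n hn0 φ
    let um : (ZMod n)ˣ := ZMod.unitOfCoprime m hm
    have h1 : ∀ u : (ZMod n)ˣ, φ (y u) =
        ∑ i, (N i : ℂ) * ρ i ^ ((u * um : (ZMod n)ˣ) : ZMod n).val := by
      intro u
      simp only [y, map_sum, map_mul, map_pow, map_intCast]
      apply Finset.sum_congr rfl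
      intro i _
      rw [hφ (r i) (hr i)]
      congr 1
      show (ρ i ^ m) ^ (u : ZMod n).val = _
      rw [← pow_mul, Units.val_mul, ZMod.val_mul, ZMod.coe_unitOfCoprime, ZMod.val_natCast,
        pow_eq_pow_mod' (hρ i), ← pow_eq_pow_mod' (hρ i) (m * _),
        ← pow_eq_pow_mod' (hρ i) (_ * (m % n)), Nat.mul_mod, Nat.mul_mod _ (m % n), Nat.mod_mod,
        mul_comm]
    rw [hPc]
    simp only [P, map_prod, h1]
    exact Fintype.prod_equiv (Equiv.mulRight um) _ _ (fun u => rfl)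
  obtain ⟨q, hq⟩ := exists_rat_of_fixed P hfix
  have hint : IsIntegral ℤ (P : ℂ) := by
    rw [hPc]
    refine IsIntegral.prod _ fun u _ => IsIntegral.sum _ fun i _ => IsIntegral.mul ?_ ?_
    · exact isIntegral_algebraMap (R := ℤ) (A := ℂ) (x := N i) |> fun h => by simpa using h
    · exact IsIntegral.pow (IsIntegral.of_pow hn0 (by rw [hρ i]; exact isIntegral_one)) _
  obtain ⟨k, hk⟩ := exists_int_of_isIntegral_of_rat hint hq
  have hPne : (P : ℂ) ≠ 0 := by
    rw [hPc]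
    exact Finset.prod_ne_zero_iff.mpr fun u _ => hne _ (hcop u)
  have hk0 : k ≠ 0 := by
    rintro rfl
    apply hPne; rw [hk]; simp
  have hns : Complex.normSq (P : ℂ) =
      ∏ u : (ZMod n)ˣ, Complex.normSq (∑ i, (N i : ℂ) * ρ i ^ (u : ZMod n).val) := by
    rw [hPc, map_prod]
  rw [← hns, hk, Complex.normSq_intCast]
  have : (1 : ℤ) ≤ k * k := by
    have := Int.one_le_abs hk0
    have h2 : k * k = |k| * |k| := (abs_mul_abs_self k).symm
    rw [h2]; nlinarith
  exact_mod_cast this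

end Cfsg.Agent.Lib.Helper23.GalAvg
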