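import Cfsg.Agent.Lib.Helper23.Contrib2
import Cfsg.Agent.Lib.Helper23.GalAvg

/-! Contribution numbers as cyclotomic integers; the bound `k₀(B)² ≤ p^{2q} l(b)`. -/

set_option autoImplicit false
open Cfsg Cfsg.Agent.CharLib Cfsg.Agent.BlockLib Cfsg.Agent.Lib.Helper23 Cfsg.Agent.Lib.Helper23.MinMax
  Cfsg.Agent.Lib.Helper23.Trunc Cfsg.Agent.H6.BlockSection Cfsg.Agent.Lib.Helper23.Sect
  Cfsg.Agent.Lib.Helper23.Subsect
open scoped ComplexConjugate

namespace Cfsg.Agent.Lib.Helper23.Contrib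

universe u
variable {G : Type u} [Group G] [Fintype G] {H : Subgroup G} [Fintype H]

theorem centralizer_pow_of_coprime {G : Type*} [Group G] (g : G) {k : ℕ}
    (hk : Nat.Coprime k (orderOf g)) :
    Subgroup.centralizer ({g ^ k} : Set G) = Subgroup.centralizer ({g} : Set G) := by
  obtain ⟨j, hj⟩ := exists_pow_eq_self_of_coprime hk
  ext c
  rw [Subgroup.mem_centralizer_singleton_iff, Subgroup.mem_centralizer_singleton_iff]
  constructor
  · intro h
    have : Commute c (g ^ k) := h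
    have h2 := this.pow_right j
    rw [hj] at h2
    exact h2
  · intro h
    exact (show Commute c g from h).pow_right k

/-- the scaled contribution numbers of the subsections `(y^u, b)` are the Galois conjugates of a
cyclotomic integer -/
theorem exists_galois_form {p : ℕ} (hp : p.Prime) (b : Set (IrrCharacter H))
    (χ ψ : IrrCharacter G) {y : G} (hyH : y ∈ H) (hy : ∀ h ∈ H, y * h = h * y) :
    ∃ N : IrrCharacter H × IrrCharacter H → ℤ, ∀ u : ℕ,
      (p : ℂ) ^ blockDefect p b * contrib p b (y ^ u) (χ : G → ℂ) (ψ : G → ℂ) =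
        ∑ i : IrrCharacter H × IrrCharacter H, (N i : ℂ) *
          (lam (i.1 : H → ℂ) ⟨y, hyH⟩ * conj (lam (i.2 : H → ℂ) ⟨y, hyH⟩)) ^ u := by
  classical
  have hm : ∀ (φ : IrrCharacter G) (ξ : IrrCharacter H), ∃ m : ℕ,
      classInner (fun c : H => (φ : G → ℂ) c) (ξ : H → ℂ) = m := fun φ ξ =>
    classInner_char_nat (isCharacter_restrict (isCharacter_of_irr φ.2) H) (isCharacter_of_irr ξ.2)
  choose m hm using hm
  have hz : ∀ ξ ξ' : IrrCharacter H, ξ ∈ b → ∃ z : ℤ,
      (p : ℂ) ^ blockDefect p b * classInner (trunc p 1 (ξ : H → ℂ)) (ξ' : H → ℂ) = z := by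
    intro ξ ξ' hξ
    obtain ⟨z, hz⟩ := exists_int_classInner_trunc hp ξ ξ' (blockDefect p b) (by
      have := minExp_le (p := p) hξ
      rw [blockDefect_eq]
      omega)
    rw [classInner_trunc] at hz
    exact ⟨z, hz⟩
  let zz : IrrCharacter H → IrrCharacter H → ℤ := fun ξ ξ' =>
    if h : ξ ∈ b then (hz ξ ξ' h).choose else 0
  have hzz : ∀ ξ ξ' : IrrCharacter H, ξ ∈ b →
      (p : ℂ) ^ blockDefect p b * classInner (trunc p 1 (ξ : H → ℂ)) (ξ' : H → ℂ) = zz ξ ξ' := by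
    intro ξ ξ' hξ
    simp only [zz, dif_pos hξ]
    exact (hz ξ ξ' hξ).choose_spec
  refine ⟨fun i => if i.1 ∈ b ∧ i.2 ∈ b then (m χ i.1 : ℤ) * (m ψ i.2 : ℤ) * zz i.1 i.2 else 0, ?_⟩
  intro u
  have hyuH : y ^ u ∈ H := H.pow_mem hyH u
  have hyu : ∀ h ∈ H, y ^ u * h = h * y ^ u := fun h hh =>
    ((show Commute y h from hy h hh).pow_left u).eq
  have hlam : ∀ ξ : IrrCharacter H, lam (ξ : H → ℂ) ⟨y ^ u, hyuH⟩ = lam (ξ : H → ℂ) ⟨y, hyH⟩ ^ u := by
    intro ξ
    rw [← lam_pow ξ (mem_center_mk hyH hy)]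
    rfl
  rw [contrib, blockPart_eq_sum_smul b (fun c : H => (χ : G → ℂ) (y ^ u * c)),
    blockPart_eq_sum_smul b (fun c : H => (ψ : G → ℂ) (y ^ u * c)), trunc_sum,
    classInner_sum_left, Finset.mul_sum, Fintype.sum_prod_type, Finset.sum_filter]
  apply Finset.sum_congr rfl
  intro ξ _
  split_ifs with hξ
  · rw [classInner_smul_left, classInner_sum_right, Finset.mul_sum, Finset.mul_sum,
      Finset.sum_filter]
    apply Finset.sum_congr rfl
    intro ξ' _
    split_ifs with hξ'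
    · dsimp only
      rw [if_pos ⟨hξ, hξ'⟩, classInner_smul_right, coef_eq χ hyuH hyu, coef_eq ψ hyuH hyu, hlam, hlam,
        hm, hm, map_mul, map_pow, Complex.conj_natCast, mul_pow]
      push_cast
      rw [← hzz ξ ξ' hξ]
      ring
    · dsimp only
      rw [if_neg (fun h => hξ' h.2)]; simp
  · symm
    apply Finset.sum_eq_zero
    intro ξ' _
    dsimp only
    rw [if_neg (fun h => hξ h.1)]; simp

theorem sum_normSq_contrib {p : ℕ} [Fact p.Prime] {M : Ideal AlgInt} (hM : IsPModular p M) {x : G}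
    {k : ℕ} (hx : orderOf x = p ^ k)
    (hH : H = Subgroup.centralizer ({x} : Set G)) {b : Set (IrrCharacter H)}
    {B : Set (IrrCharacter G)} [DecidablePred (· ∈ B)] (hind : IsInducedBlock M H b B) :
    ∑ χ ∈ Finset.univ.filter (· ∈ B), ∑ ψ ∈ Finset.univ.filter (· ∈ B),
      Complex.normSq (contrib p b x (χ : G → ℂ) (ψ : G → ℂ)) = (blockRank p b : ℝ) := by
  have h := sum_contrib_sq hM hx hH hind
  simp only [Complex.mul_conj] at h
  exact_mod_cast h

open Classical in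
/-- `k₀(B)² ≤ p^{2q} l(b)` for every subsection `(y, b)` of `B`, `q` the defect of `b` -/
theorem card_height_zero_sq_le {p : ℕ} [Fact p.Prime] {M : Ideal AlgInt} (hM : IsPModular p M)
    {y : G} {s : ℕ} (hy : orderOf y = p ^ s) [Fintype (Subgroup.centralizer ({y} : Set G))]
    {b : Set (IrrCharacter (Subgroup.centralizer ({y} : Set G)))}
    {B : Set (IrrCharacter G)}
    (hind : IsInducedBlock M (Subgroup.centralizer ({y} : Set G)) b B) :
    (Finset.univ.filter (fun χ : IrrCharacter G => χ ∈ B ∧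
      (charDegree (χ : G → ℂ)).factorization p = minExp p B)).card ^ 2 ≤
      p ^ (2 * blockDefect p b) * blockRank p b := by
  have hp : p.Prime := hM.1
  have htop := ne_top_of_isPModular hM
  set F := Finset.univ.filter (fun χ : IrrCharacter G => χ ∈ B ∧
      (charDegree (χ : G → ℂ)).factorization p = minExp p B) with hF
  have hn0 : p ^ s ≠ 0 := pow_ne_zero _ hp.ne_zero
  have : NeZero (p ^ s) := ⟨hn0⟩
  have hyH : y ∈ Subgroup.centralizer ({y} : Set G) := Subgroup.mem_centralizer_singleton_iff.2 rfl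
  have hyc : ∀ h ∈ Subgroup.centralizer ({y} : Set G), y * h = h * y := fun h hh =>
    (Subgroup.mem_centralizer_singleton_iff.1 hh).symm
  have hys : y ^ (p ^ s) = 1 := by rw [← hy, pow_orderOf_eq_one]
  -- lower bound for each pair
  have hlow : ∀ χ ∈ F, ∀ ψ ∈ F, (Fintype.card (ZMod (p ^ s))ˣ : ℝ) ≤
      ∑ u : (ZMod (p ^ s))ˣ, Complex.normSq ((p : ℂ) ^ blockDefect p b *
        contrib p b (y ^ (u : ZMod (p ^ s)).val) (χ : G → ℂ) (ψ : G → ℂ)) := by
    intro χ hχ ψ hψ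
    obtain ⟨-, hχB, hχ0⟩ := Finset.mem_filter.1 hχ
    obtain ⟨-, hψB, hψ0⟩ := Finset.mem_filter.1 hψ
    obtain ⟨N, hN⟩ := exists_galois_form hp b χ ψ hyH hyc
    simp only [hN]
    apply GalAvg.card_units_le_sum_normSq (p ^ s) N
    · intro i
      rw [mul_pow, ← map_pow, lam_pow_eq_one hyH hyc hys, lam_pow_eq_one hyH hyc hys, map_one,
        one_mul]
    · intro u _
      rw [← hN u]
      apply ne_zero_of_not_memLocalIdeal htop
      exact contrib_unit hM hind hχB hχ0 hψB hψ0 (Subgroup.pow_mem _ hyH u)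
        (fun h hh => ((show Commute y h from hyc h hh).pow_left u).eq) (k := s)
        (by rw [← pow_mul, mul_comm, pow_mul, hys, one_pow])
  -- upper bound
  have hup : ∀ u : (ZMod (p ^ s))ˣ, ∑ χ ∈ F, ∑ ψ ∈ F, Complex.normSq ((p : ℂ) ^ blockDefect p b *
        contrib p b (y ^ (u : ZMod (p ^ s)).val) (χ : G → ℂ) (ψ : G → ℂ)) ≤
      (p : ℝ) ^ (2 * blockDefect p b) * (blockRank p b : ℝ) := by
    intro u
    have hcop : ((u : ZMod (p ^ s)).val).Coprime (orderOf y) := by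
      rw [hy]; exact ZMod.val_coe_unit_coprime u
    have hsum := sum_normSq_contrib hM (x := y ^ (u : ZMod (p ^ s)).val) (k := s)
      (by rw [Nat.Coprime.orderOf_pow hcop.symm, hy])
      (centralizer_pow_of_coprime y hcop).symm hind
    rw [← hsum, Finset.mul_sum]
    have hsub : F ⊆ Finset.univ.filter (· ∈ B) := by
      intro χ hχ
      exact Finset.mem_filter.2 ⟨Finset.mem_univ _, (Finset.mem_filter.1 hχ).2.1⟩
    refine le_trans (Finset.sum_le_sum_of_subset_of_nonneg hsub (fun χ _ _ =>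
      Finset.sum_nonneg (fun ψ _ => Complex.normSq_nonneg _))) ?_
    apply Finset.sum_le_sum
    intro χ _
    rw [Finset.mul_sum]
    refine le_trans (Finset.sum_le_sum_of_subset_of_nonneg hsub (fun ψ _ _ =>
      Complex.normSq_nonneg _)) ?_
    apply Finset.sum_le_sum
    intro ψ _
    rw [map_mul, map_pow, Complex.normSq_natCast, ← pow_two, ← pow_mul]
  have hφ : (0 : ℝ) < (Fintype.card (ZMod (p ^ s))ˣ : ℝ) := by
    exact_mod_cast Fintype.card_pos
  have h1 : (F.card : ℝ) ^ 2 * (Fintype.card (ZMod (p ^ s))ˣ : ℝ) ≤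
      (Fintype.card (ZMod (p ^ s))ˣ : ℝ) * ((p : ℝ) ^ (2 * blockDefect p b) * (blockRank p b : ℝ)) := by
    calc (F.card : ℝ) ^ 2 * (Fintype.card (ZMod (p ^ s))ˣ : ℝ)
        = ∑ χ ∈ F, ∑ ψ ∈ F, (Fintype.card (ZMod (p ^ s))ˣ : ℝ) := by
          simp only [Finset.sum_const, nsmul_eq_mul]; ring
      _ ≤ ∑ χ ∈ F, ∑ ψ ∈ F, ∑ u : (ZMod (p ^ s))ˣ, Complex.normSq ((p : ℂ) ^ blockDefect p b *
            contrib p b (y ^ (u : ZMod (p ^ s)).val) (χ : G → ℂ) (ψ : G → ℂ)) :=
          Finset.sum_le_sum fun χ hχ => Finset.sum_le_sum fun ψ hψ => hlow χ hχ ψ hψ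
      _ = ∑ u : (ZMod (p ^ s))ˣ, ∑ χ ∈ F, ∑ ψ ∈ F, Complex.normSq ((p : ℂ) ^ blockDefect p b *
            contrib p b (y ^ (u : ZMod (p ^ s)).val) (χ : G → ℂ) (ψ : G → ℂ)) := by
          rw [Finset.sum_congr rfl (fun χ _ => Finset.sum_comm)]
          exact Finset.sum_comm
      _ ≤ ∑ _u : (ZMod (p ^ s))ˣ, (p : ℝ) ^ (2 * blockDefect p b) * (blockRank p b : ℝ) :=
          Finset.sum_le_sum fun u _ => hup u
      _ = _ := by simp only [Finset.sum_const, nsmul_eq_mul, Finset.card_univ]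
  have h2 : (F.card : ℝ) ^ 2 ≤ (p : ℝ) ^ (2 * blockDefect p b) * (blockRank p b : ℝ) := by
    rw [mul_comm] at h1
    exact le_of_mul_le_mul_left h1 hφ
  exact_mod_cast h2

end Cfsg.Agent.Lib.Helper23.Contrib
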