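import Cfsg.Agent.Lib.Helper23.Contrib3
import Cfsg.Agent.Lib.Helper23.GalAvg2

/-! Rows of the contribution matrix; the diagonal for `p = 2`. -/

set_option autoImplicit false
open Cfsg Cfsg.Agent.CharLib Cfsg.Agent.BlockLib Cfsg.Agent.Lib.Helper23 Cfsg.Agent.Lib.Helper23.MinMax
  Cfsg.Agent.Lib.Helper23.Trunc Cfsg.Agent.H6.BlockSection Cfsg.Agent.Lib.Helper23.Sect
  Cfsg.Agent.Lib.Helper23.Subsect
open scoped ComplexConjugate

namespace Cfsg.Agent.Lib.Helper23.Contrib

section general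

variable {K : Type*} [Group K] [Fintype K]

theorem isClassFunction_blockPart (b : Set (IrrCharacter K)) (f : K → ℂ) :
    IsClassFunction K (blockPart b f) := by
  classical
  rw [blockPart_eq_sum_smul]
  exact isClassFunction_sum _ _ fun ξ _ => isClassFunction_smul _ (isClassFunction_of_irr ξ.2)

theorem classInner_trunc_blockPart_irr {p : ℕ} {M : Ideal AlgInt} (hM : IsPModular p M)
    {b : Set (IrrCharacter K)} (hb : IsPBlock M b) (f : K → ℂ) {ξ : IrrCharacter K} (hξ : ξ ∉ b) :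
    classInner (trunc p 1 (blockPart b f)) (ξ : K → ℂ) = 0 := by
  classical
  rw [blockPart_eq_sum_smul, trunc_sum, classInner_sum_left]
  apply Finset.sum_eq_zero
  intro ξ' hξ'
  rw [classInner_smul_left, classInner_trunc_eq_zero hM hb 1 (Finset.mem_filter.1 hξ').2 hξ, mul_zero]

theorem classInner_trunc_blockPart_eq {p : ℕ} {M : Ideal AlgInt} (hM : IsPModular p M)
    {b : Set (IrrCharacter K)} (hb : IsPBlock M b) (f : K → ℂ) {ϑ : K → ℂ}
    (hϑ : IsClassFunction K ϑ) :
    classInner (trunc p 1 (blockPart b f)) (blockPart b ϑ) =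
      classInner (trunc p 1 (blockPart b f)) ϑ := by
  classical
  conv_rhs => rw [classFunction_eq_sum hϑ]
  rw [blockPart_eq_sum_smul b ϑ, classInner_sum_right, classInner_sum_right, Finset.sum_filter]
  apply Finset.sum_congr rfl
  intro ξ _
  split_ifs with h
  · rfl
  · rw [classInner_smul_right, classInner_trunc_blockPart_irr hM hb f h, mul_zero]

theorem parseval {t : K → ℂ} (ht : IsClassFunction K t) :
    ∑ ζ : IrrCharacter K, classInner t (ζ : K → ℂ) * conj (classInner t (ζ : K → ℂ)) =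
      classInner t t := by
  conv_rhs => rhs; rw [classFunction_eq_sum ht]
  rw [classInner_sum_right]
  apply Finset.sum_congr rfl
  intro ζ _
  rw [classInner_smul_right, mul_comm]

end general

universe u
variable {G : Type u} [Group G] [Fintype G] {H : Subgroup G} [Fintype H]

/-- the rows of the contribution matrix: `∑_ψ |m_{χψ}|² = m_{χχ}` -/
theorem sum_contrib_row {p : ℕ} [Fact p.Prime] {M : Ideal AlgInt} (hM : IsPModular p M) {x : G}
    {k : ℕ} (hx : orderOf x = p ^ k)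
    (hH : H = Subgroup.centralizer ({x} : Set G)) {b : Set (IrrCharacter H)}
    {B : Set (IrrCharacter G)} [DecidablePred (· ∈ B)] (hind : IsInducedBlock M H b B)
    (χ : IrrCharacter G) :
    ∑ ψ ∈ Finset.univ.filter (· ∈ B),
      contrib p b x (χ : G → ℂ) (ψ : G → ℂ) * conj (contrib p b x (χ : G → ℂ) (ψ : G → ℂ)) =
    contrib p b x (χ : G → ℂ) (χ : G → ℂ) := by
  classical
  subst hH
  have hMp := isPrime_of_isPModular hM
  have htop := ne_top_of_isPModular hM
  have hb := hind.1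
  set t : Subgroup.centralizer ({x} : Set G) → ℂ := trunc p 1
    (blockPart b (fun c : Subgroup.centralizer ({x} : Set G) => (χ : G → ℂ) (x * c))) with ht
  have htc : IsClassFunction _ t := isClassFunction_trunc p 1 (isClassFunction_blockPart b _)
  have h1 : ∀ ψ : IrrCharacter G, contrib p b x (χ : G → ℂ) (ψ : G → ℂ) =
      classInner t (fun c : Subgroup.centralizer ({x} : Set G) => (ψ : G → ℂ) (x * c)) := by
    intro ψ
    rw [contrib, classInner_trunc_blockPart_eq hM hb _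
      (isClassFunction_shift (isClassFunction_of_irr ψ.2) x)]
  have hz : ∀ ψ : IrrCharacter G, ψ ∉ B → contrib p b x (χ : G → ℂ) (ψ : G → ℂ) = 0 := by
    intro ψ hψ
    rw [contrib, classInner]
    apply mul_eq_zero_of_right
    apply Finset.sum_eq_zero
    intro y _
    rw [trunc_apply]
    split_ifs with hy
    · rw [zero_mul]
    · rw [Cfsg.Agent.S0923.result p M hM x ⟨k, hx⟩ (blockOf M (ψ : G → ℂ)) ⟨ψ, rfl⟩ ψ
          (SameBlock.refl' htop _) b hb (fun h => hψ (by
            rw [isInducedBlock_unique hind h]; exact SameBlock.refl' htop _)) y hy, map_zero,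
          mul_zero]
  have h2 : ∑ ψ ∈ Finset.univ.filter (· ∈ B),
      contrib p b x (χ : G → ℂ) (ψ : G → ℂ) * conj (contrib p b x (χ : G → ℂ) (ψ : G → ℂ)) =
      ∑ ψ : IrrCharacter G,
      contrib p b x (χ : G → ℂ) (ψ : G → ℂ) * conj (contrib p b x (χ : G → ℂ) (ψ : G → ℂ)) := by
    rw [Finset.sum_filter]
    apply Finset.sum_congr rfl
    intro ψ _
    split_ifs with h
    · rfl
    · rw [hz ψ h, zero_mul]
  rw [h2]
  simp only [h1]
  have hw : ∀ ϑ : Subgroup.centralizer ({x} : Set G) → ℂ, classInner t ϑ * conj (classInner t ϑ) =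
      (∑ c, ((Nat.card (Subgroup.centralizer ({x} : Set G)) : ℂ)⁻¹ * conj (t c)) * ϑ c) *
      conj (∑ c, ((Nat.card (Subgroup.centralizer ({x} : Set G)) : ℂ)⁻¹ * conj (t c)) * ϑ c) := by
    intro ϑ
    have e : classInner t ϑ =
        conj (∑ c, ((Nat.card (Subgroup.centralizer ({x} : Set G)) : ℂ)⁻¹ * conj (t c)) * ϑ c) := by
      rw [classInner, map_sum, Finset.mul_sum]
      apply Finset.sum_congr rfl
      intro c _
      rw [map_mul, map_mul, Complex.conj_conj, map_inv₀, Complex.conj_natCast]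
      ring
    rw [e, Complex.conj_conj, mul_comm]
  simp only [hw]
  rw [quad_identity (fun c : Subgroup.centralizer ({x} : Set G) => ¬ p ∣ orderOf c)
    (fun c => (Nat.card (Subgroup.centralizer ({x} : Set G)) : ℂ)⁻¹ * conj (t c))
    (fun c hc => by
      simp only [ht, trunc_apply, if_pos (not_not.1 hc), map_zero, mul_zero])
    (fun (ψ : IrrCharacter G) (c : Subgroup.centralizer ({x} : Set G)) => (ψ : G → ℂ) (x * c))
    (fun (ζ : IrrCharacter (Subgroup.centralizer ({x} : Set G))) c => (ζ : _ → ℂ) c)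
    (fun c c' hc hc' => sum_irr_section hM.1 hx c c' hc hc')]
  simp only [← hw]
  rw [parseval htc, ← h1 χ, contrib, classInner, classInner]
  congr 1
  apply Finset.sum_congr rfl
  intro c _
  rw [ht, trunc_mul_conj_trunc]

theorem contrib_self_eq {p : ℕ} [Fact p.Prime] {M : Ideal AlgInt} (hM : IsPModular p M) {x : G}
    {k : ℕ} (hx : orderOf x = p ^ k)
    (hH : H = Subgroup.centralizer ({x} : Set G)) {b : Set (IrrCharacter H)}
    {B : Set (IrrCharacter G)} [DecidablePred (· ∈ B)] (hind : IsInducedBlock M H b B)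
    (χ : IrrCharacter G) :
    contrib p b x (χ : G → ℂ) (χ : G → ℂ) = ((∑ ψ ∈ Finset.univ.filter (· ∈ B),
      Complex.normSq (contrib p b x (χ : G → ℂ) (ψ : G → ℂ)) : ℝ) : ℂ) := by
  rw [← sum_contrib_row hM hx hH hind χ]
  push_cast
  apply Finset.sum_congr rfl
  intro ψ _
  rw [Complex.mul_conj]

/-- the diagonal contribution numbers: symmetric Galois form -/
theorem exists_galois_form_self {p : ℕ} (hp : p.Prime) (b : Set (IrrCharacter H))
    (χ : IrrCharacter G) {y : G} (hyH : y ∈ H) (hy : ∀ h ∈ H, y * h = h * y) :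
    ∃ N : IrrCharacter H × IrrCharacter H → ℤ, (∀ i, N i.swap = N i) ∧ ∀ u : ℕ,
      (p : ℂ) ^ blockDefect p b * contrib p b (y ^ u) (χ : G → ℂ) (χ : G → ℂ) =
        ∑ i : IrrCharacter H × IrrCharacter H, (N i : ℂ) *
          (lam (i.1 : H → ℂ) ⟨y, hyH⟩ * conj (lam (i.2 : H → ℂ) ⟨y, hyH⟩)) ^ u := by
  classical
  have hm : ∀ (ξ : IrrCharacter H), ∃ m : ℕ,
      classInner (fun c : H => (χ : G → ℂ) c) (ξ : H → ℂ) = m := fun ξ =>
    classInner_char_nat (isCharacter_restrict (isCharacter_of_irr χ.2) H) (isCharacter_of_irr ξ.2)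
  choose m hm using hm
  have hz : ∀ ξ ξ' : IrrCharacter H, ξ ∈ b → ∃ z : ℤ,
      classInner (trunc p ((p : ℂ) ^ blockDefect p b) (ξ : H → ℂ)) (ξ' : H → ℂ) = z := by
    intro ξ ξ' hξ
    exact exists_int_classInner_trunc hp ξ ξ' (blockDefect p b) (by
      have := minExp_le (p := p) hξ
      rw [blockDefect_eq]
      omega)
  let zz : IrrCharacter H → IrrCharacter H → ℤ := fun ξ ξ' =>
    if h : ξ ∈ b then (hz ξ ξ' h).choose else 0
  have hzz : ∀ ξ ξ' : IrrCharacter H, ξ ∈ b →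
      classInner (trunc p ((p : ℂ) ^ blockDefect p b) (ξ : H → ℂ)) (ξ' : H → ℂ) = zz ξ ξ' := by
    intro ξ ξ' hξ
    simp only [zz, dif_pos hξ]
    exact (hz ξ ξ' hξ).choose_spec
  refine ⟨fun i => if i.1 ∈ b ∧ i.2 ∈ b then (m i.1 : ℤ) * (m i.2 : ℤ) * zz i.1 i.2 else 0, ?_, ?_⟩
  · rintro ⟨ξ, ξ'⟩
    dsimp only [Prod.swap]
    by_cases h : ξ ∈ b ∧ ξ' ∈ b
    · rw [if_pos h, if_pos h.symm, int_symm ξ' ξ (blockDefect p b) (hzz ξ' ξ h.2) (hzz ξ ξ' h.1)]
      ring
    · rw [if_neg h, if_neg (fun h' => h h'.symm)]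
  intro u
  have hyuH : y ^ u ∈ H := H.pow_mem hyH u
  have hyu : ∀ h ∈ H, y ^ u * h = h * y ^ u := fun h hh =>
    ((show Commute y h from hy h hh).pow_left u).eq
  have hlam : ∀ ξ : IrrCharacter H, lam (ξ : H → ℂ) ⟨y ^ u, hyuH⟩ = lam (ξ : H → ℂ) ⟨y, hyH⟩ ^ u := by
    intro ξ
    rw [← lam_pow ξ (mem_center_mk hyH hy)]
    rfl
  rw [contrib, blockPart_eq_sum_smul b (fun c : H => (χ : G → ℂ) (y ^ u * c)), trunc_sum,
    classInner_sum_left, Finset.mul_sum, Fintype.sum_prod_type, Finset.sum_filter]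
  apply Finset.sum_congr rfl
  intro ξ _
  split_ifs with hξ
  · rw [classInner_smul_left, classInner_sum_right, Finset.mul_sum, Finset.mul_sum,
      Finset.sum_filter]
    apply Finset.sum_congr rfl
    intro ξ' _
    split_ifs with hξ'
    · dsimp only
      rw [if_pos ⟨hξ, hξ'⟩, classInner_smul_right, coef_eq χ hyuH hyu, coef_eq χ hyuH hyu, hlam, hlam,
        hm, hm, map_mul, map_pow, Complex.conj_natCast, mul_pow]
      push_cast
      rw [← hzz ξ ξ' hξ, classInner_trunc p ((p : ℂ) ^ blockDefect p b)]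
      ring
    · dsimp only
      rw [if_neg (fun h => hξ' h.2)]; simp
  · symm
    apply Finset.sum_eq_zero
    intro ξ' _
    dsimp only
    rw [if_neg (fun h => hξ h.1)]; simp

/-- Galois average of `|p^q m_{χψ}|²` for `χ, ψ` of height zero -/
theorem card_units_le_sum_contrib {p : ℕ} {M : Ideal AlgInt} (hM : IsPModular p M)
    {y : G} {s : ℕ} [NeZero (p ^ s)] (hys : y ^ (p ^ s) = 1) (hyH : y ∈ H)
    (hyc : ∀ h ∈ H, y * h = h * y)
    {b : Set (IrrCharacter H)} {B : Set (IrrCharacter G)} (hind : IsInducedBlock M H b B)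
    {χ ψ : IrrCharacter G}
    (hχ : χ ∈ B) (hh : (charDegree (χ : G → ℂ)).factorization p = minExp p B)
    (hψ : ψ ∈ B) (hh' : (charDegree (ψ : G → ℂ)).factorization p = minExp p B) :
    (Fintype.card (ZMod (p ^ s))ˣ : ℝ) ≤
      ∑ u : (ZMod (p ^ s))ˣ, Complex.normSq ((p : ℂ) ^ blockDefect p b *
        contrib p b (y ^ (u : ZMod (p ^ s)).val) (χ : G → ℂ) (ψ : G → ℂ)) := by
  have htop := ne_top_of_isPModular hM
  obtain ⟨N, hN⟩ := exists_galois_form hM.1 b χ ψ hyH hyc
  simp only [hN]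
  apply GalAvg.card_units_le_sum_normSq (p ^ s) N
  · intro i
    rw [mul_pow, ← map_pow, lam_pow_eq_one hyH hyc hys, lam_pow_eq_one hyH hyc hys, map_one,
      one_mul]
  · intro u _
    rw [← hN u]
    apply ne_zero_of_not_memLocalIdeal htop
    exact contrib_unit hM hind hχ hh hψ hh' (Subgroup.pow_mem _ hyH u)
      (fun h hh => ((show Commute y h from hyc h hh).pow_left u).eq) (k := s)
      (by rw [← pow_mul, mul_comm, pow_mul, hys, one_pow])

open Classical in
/-- for `p = 2` the Galois averages `a_χ` of `2^q m_{χχ}` (`χ` of height zero) are odd integers with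
`k₀(B) ≤ 2^q a_χ` and `∑ a_χ ≤ 2^q l(b)` -/
theorem exists_odd_diag {M : Ideal AlgInt} (hM : IsPModular 2 M)
    {y : G} {s : ℕ} (hy : orderOf y = 2 ^ s) [Fintype (Subgroup.centralizer ({y} : Set G))]
    {b : Set (IrrCharacter (Subgroup.centralizer ({y} : Set G)))}
    {B : Set (IrrCharacter G)}
    (hind : IsInducedBlock M (Subgroup.centralizer ({y} : Set G)) b B) :
    ∃ a : IrrCharacter G → ℤ,
      (∀ χ ∈ Finset.univ.filter (fun χ : IrrCharacter G => χ ∈ B ∧
        (charDegree (χ : G → ℂ)).factorization 2 = minExp 2 B), Odd (a χ) ∧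
        ((Finset.univ.filter (fun χ : IrrCharacter G => χ ∈ B ∧
        (charDegree (χ : G → ℂ)).factorization 2 = minExp 2 B)).card : ℤ) ≤
          2 ^ blockDefect 2 b * a χ) ∧
      ∑ χ ∈ Finset.univ.filter (fun χ : IrrCharacter G => χ ∈ B ∧
        (charDegree (χ : G → ℂ)).factorization 2 = minExp 2 B), a χ ≤
        2 ^ blockDefect 2 b * (blockRank 2 b : ℤ) := by
  have hp : Nat.Prime 2 := hM.1
  have : Fact (Nat.Prime 2) := ⟨hp⟩
  have htop := ne_top_of_isPModular hM
  have hMp := isPrime_of_isPModular hM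
  set F := Finset.univ.filter (fun χ : IrrCharacter G => χ ∈ B ∧
      (charDegree (χ : G → ℂ)).factorization 2 = minExp 2 B) with hF
  set q := blockDefect 2 b with hq
  have hn0 : 2 ^ s ≠ 0 := pow_ne_zero _ hp.ne_zero
  have : NeZero (2 ^ s) := ⟨hn0⟩
  have hyH : y ∈ Subgroup.centralizer ({y} : Set G) := Subgroup.mem_centralizer_singleton_iff.2 rfl
  have hyc : ∀ h ∈ Subgroup.centralizer ({y} : Set G), y * h = h * y := fun h hh =>
    (Subgroup.mem_centralizer_singleton_iff.1 hh).symm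
  have hys : y ^ (2 ^ s) = 1 := by rw [← hy, pow_orderOf_eq_one]
  have hsub : F ⊆ Finset.univ.filter (· ∈ B) := by
    intro χ hχ
    exact Finset.mem_filter.2 ⟨Finset.mem_univ _, (Finset.mem_filter.1 hχ).2.1⟩
  have hord : ∀ v : (ZMod (2 ^ s))ˣ, orderOf (y ^ (v : ZMod (2 ^ s)).val) = 2 ^ s := by
    intro v
    have hcop : ((v : ZMod (2 ^ s)).val).Coprime (orderOf y) := by
      rw [hy]; exact ZMod.val_coe_unit_coprime v
    rw [Nat.Coprime.orderOf_pow hcop.symm, hy]
  have hcen : ∀ v : (ZMod (2 ^ s))ˣ, Subgroup.centralizer ({y} : Set G) =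
      Subgroup.centralizer ({y ^ (v : ZMod (2 ^ s)).val} : Set G) := by
    intro v
    have hcop : ((v : ZMod (2 ^ s)).val).Coprime (orderOf y) := by
      rw [hy]; exact ZMod.val_coe_unit_coprime v
    exact (centralizer_pow_of_coprime y hcop).symm
  set φ : ℝ := (Fintype.card (ZMod (2 ^ s))ˣ : ℝ) with hφ
  have hφ0 : 0 < φ := by
    rw [hφ]; exact_mod_cast Fintype.card_pos
  set R : IrrCharacter G → ℝ := fun χ => ∑ v : (ZMod (2 ^ s))ˣ, ∑ ψ ∈ Finset.univ.filter (· ∈ B),
    Complex.normSq (contrib 2 b (y ^ (v : ZMod (2 ^ s)).val) (χ : G → ℂ) (ψ : G → ℂ)) with hR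
  -- the averages are odd integers
  have hodd : ∀ χ : IrrCharacter G, ∃ a : ℤ, χ ∈ F → (Odd a ∧ (2 : ℝ) ^ q * R χ = φ * a) := by
    intro χ
    by_cases hχ : χ ∈ F
    swap
    · exact ⟨0, fun h => absurd h hχ⟩
    obtain ⟨-, hχB, hχ0⟩ := Finset.mem_filter.1 hχ
    obtain ⟨N, hNsym, hN⟩ := exists_galois_form_self hp b χ hyH hyc
    have hρ : ∀ i : IrrCharacter (Subgroup.centralizer ({y} : Set G)) ×
        IrrCharacter (Subgroup.centralizer ({y} : Set G)),
        (lam (i.1 : Subgroup.centralizer ({y} : Set G) → ℂ) ⟨y, hyH⟩ *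
          conj (lam (i.2 : Subgroup.centralizer ({y} : Set G) → ℂ) ⟨y, hyH⟩)) ^ (2 ^ s) = 1 := by
      intro i
      rw [mul_pow, ← map_pow, lam_pow_eq_one hyH hyc hys, lam_pow_eq_one hyH hyc hys, map_one,
        one_mul]
    have hsumodd : Odd (∑ i, N i) := by
      have h1 := contrib_unit hM hind hχB hχ0 hχB hχ0 (Subgroup.pow_mem _ hyH 1)
        (fun h hh => ((show Commute y h from hyc h hh).pow_left 1).eq) (k := s)
        (by rw [pow_one]; exact hys)
      rw [hN 1] at h1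
      have h2 : MemLocalIdeal M (∑ i : IrrCharacter (Subgroup.centralizer ({y} : Set G)) ×
          IrrCharacter (Subgroup.centralizer ({y} : Set G)), (N i : ℂ) *
          (lam (i.1 : Subgroup.centralizer ({y} : Set G) → ℂ) ⟨y, hyH⟩ *
          conj (lam (i.2 : Subgroup.centralizer ({y} : Set G) → ℂ) ⟨y, hyH⟩)) ^ 1 -
          ((∑ i, N i : ℤ) : ℂ)) := by
        push_cast
        rw [← Finset.sum_sub_distrib]
        apply memLocalIdeal_sum
        intro i _
        rw [pow_one, ← mul_sub_one]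
        exact memLocalIdeal_mul_left (memLocalRing_intCast htop _)
          (memLocalIdeal_sub_one_of_pow_eq_one hM (hρ i))
      rw [← Int.not_even_iff_odd, even_iff_two_dvd]
      intro hd
      apply h1
      have h3 : MemLocalIdeal M ((∑ i, N i : ℤ) : ℂ) :=
        (memLocalIdeal_intCast_iff hM _).2 (by exact_mod_cast hd)
      have := memLocalIdeal_add h2 h3
      rwa [sub_add_cancel] at this
    obtain ⟨a, ha, hsum⟩ := GalAvg.avg_odd s N _ hρ Prod.swap (fun i => Prod.swap_swap i) hNsym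
      (by
        rintro ⟨ξ, ξ'⟩
        simp only [Prod.swap, map_mul, Complex.conj_conj]
        ring) hsumodd
    refine ⟨a, fun _ => ⟨ha, ?_⟩⟩
    have hc : (((2 : ℝ) ^ q * R χ : ℝ) : ℂ) = ((φ * a : ℝ) : ℂ) := by
      rw [hR, hφ]
      push_cast
      rw [← hsum, Finset.mul_sum]
      apply Finset.sum_congr rfl
      intro v _
      rw [← hN, contrib_self_eq hM (hord v) (hcen v) hind χ]
      push_cast
      rfl
    exact_mod_cast hc
  choose a ha using hodd
  -- lower bound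
  have hlow : ∀ χ ∈ F, (F.card : ℝ) * φ ≤ (2 : ℝ) ^ (2 * q) * R χ := by
    intro χ hχ
    obtain ⟨-, hχB, hχ0⟩ := Finset.mem_filter.1 hχ
    calc (F.card : ℝ) * φ = ∑ ψ ∈ F, φ := by
          simp only [Finset.sum_const, nsmul_eq_mul]
      _ ≤ ∑ ψ ∈ F, ∑ v : (ZMod (2 ^ s))ˣ, Complex.normSq (((2 : ℕ) : ℂ) ^ blockDefect 2 b *
            contrib 2 b (y ^ (v : ZMod (2 ^ s)).val) (χ : G → ℂ) (ψ : G → ℂ)) := by
          apply Finset.sum_le_sum
          intro ψ hψ
          obtain ⟨-, hψB, hψ0⟩ := Finset.mem_filter.1 hψ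
          exact card_units_le_sum_contrib hM hys hyH hyc hind hχB hχ0 hψB hψ0
      _ = ∑ v : (ZMod (2 ^ s))ˣ, ∑ ψ ∈ F, Complex.normSq (((2 : ℕ) : ℂ) ^ blockDefect 2 b *
            contrib 2 b (y ^ (v : ZMod (2 ^ s)).val) (χ : G → ℂ) (ψ : G → ℂ)) := Finset.sum_comm
      _ ≤ (2 : ℝ) ^ (2 * q) * R χ := by
          rw [hR, Finset.mul_sum]
          apply Finset.sum_le_sum
          intro v _
          rw [Finset.mul_sum]
          refine le_trans (Finset.sum_le_sum_of_subset_of_nonneg hsub (fun ψ _ _ =>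
            Complex.normSq_nonneg _)) ?_
          apply Finset.sum_le_sum
          intro ψ _
          rw [map_mul, map_pow, Complex.normSq_natCast, ← pow_two, ← pow_mul]
          push_cast
          exact le_rfl
  have hup : ∑ χ ∈ F, R χ ≤ φ * (blockRank 2 b : ℝ) := by
    have hnn : ∀ χ : IrrCharacter G, 0 ≤ R χ := fun χ =>
      Finset.sum_nonneg fun v _ => Finset.sum_nonneg fun ψ _ => Complex.normSq_nonneg _
    refine le_trans (Finset.sum_le_sum_of_subset_of_nonneg hsub (fun χ _ _ => hnn χ)) ?_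
    rw [hR, Finset.sum_comm]
    have : ∀ v : (ZMod (2 ^ s))ˣ, ∑ χ ∈ Finset.univ.filter (· ∈ B),
        ∑ ψ ∈ Finset.univ.filter (· ∈ B),
        Complex.normSq (contrib 2 b (y ^ (v : ZMod (2 ^ s)).val) (χ : G → ℂ) (ψ : G → ℂ)) =
        (blockRank 2 b : ℝ) := fun v => sum_normSq_contrib hM (hord v) (hcen v) hind
    simp only [this, Finset.sum_const, Finset.card_univ, nsmul_eq_mul]
    exact le_rfl
  have h2q : (0 : ℝ) < (2 : ℝ) ^ q := by positivity
  refine ⟨a, fun χ hχ => ⟨(ha χ hχ).1, ?_⟩, ?_⟩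
  · have h1 := hlow χ hχ
    have h2 := (ha χ hχ).2
    have h3 : (F.card : ℝ) * φ ≤ ((2 : ℝ) ^ q * a χ) * φ := by
      calc (F.card : ℝ) * φ ≤ (2 : ℝ) ^ (2 * q) * R χ := h1
        _ = (2 : ℝ) ^ q * ((2 : ℝ) ^ q * R χ) := by rw [two_mul, pow_add]; ring
        _ = _ := by rw [h2]; ring
    have h4 := le_of_mul_le_mul_right h3 hφ0
    exact_mod_cast h4
  · have h1 : φ * ((∑ χ ∈ F, a χ : ℤ) : ℝ) ≤ φ * ((2 : ℝ) ^ q * (blockRank 2 b : ℝ)) := by
      push_cast
      rw [Finset.mul_sum]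
      calc ∑ χ ∈ F, φ * (a χ : ℝ) = ∑ χ ∈ F, (2 : ℝ) ^ q * R χ :=
            Finset.sum_congr rfl fun χ hχ => ((ha χ hχ).2).symm
        _ = (2 : ℝ) ^ q * ∑ χ ∈ F, R χ := by rw [Finset.mul_sum]
        _ ≤ (2 : ℝ) ^ q * (φ * (blockRank 2 b : ℝ)) := mul_le_mul_of_nonneg_left hup h2q.le
        _ = _ := by ring
    have h2 := le_of_mul_le_mul_left h1 hφ0
    exact_mod_cast h2

end Cfsg.Agent.Lib.Helper23.Contrib
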