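import Cfsg.Agent.Lib.Helper23.Rank
import Cfsg.Agent.S4494

/-! Blocks of defect `0` and `2`-blocks of defect `1`. -/

set_option autoImplicit false
open Cfsg Cfsg.Agent.CharLib Cfsg.Agent.BlockLib Cfsg.Agent.Lib.Helper23 Cfsg.Agent.Lib.Helper23.MinMax
open Cfsg.Agent.Lib.Helper23.Trunc
open scoped ComplexConjugate

namespace Cfsg.Agent.Lib.Helper23.Defect01

universe u
variable {G : Type u} [Group G]

theorem blockRank_le_card [Finite G] (p : ℕ) (B : Set (IrrCharacter G)) :
    blockRank p B ≤ Nat.card B := by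
  classical
  cases nonempty_fintype G
  rw [blockRank]
  refine (finrank_span_le_card _).trans ?_
  rw [Set.toFinset_card, ← Nat.card_eq_fintype_card]
  exact Nat.card_image_le (Set.toFinite B)

theorem blockRank_pos [Finite G] {p : ℕ} (hp : p.Prime) {B : Set (IrrCharacter G)}
    (hne : B.Nonempty) : 0 < blockRank p B := by
  classical
  cases nonempty_fintype G
  obtain ⟨χ, hχ⟩ := hne
  rw [blockRank, Module.finrank_pos_iff_exists_ne_zero]
  refine ⟨⟨pRegularPart p (χ : G → ℂ), Submodule.subset_span ⟨χ, hχ, rfl⟩⟩, ?_⟩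
  intro h
  have h1 := congrArg (fun v : ↥(Submodule.span ℂ ((fun χ : IrrCharacter G =>
    pRegularPart p (χ : G → ℂ)) '' B)) => (v : G → ℂ) 1) h
  simp only [ZeroMemClass.coe_zero, Pi.zero_apply] at h1
  rw [pRegularPart_eq_trunc, trunc_one hp, one_mul] at h1
  exact irr_apply_one_ne_zero χ h1

/-- a block all of whose members vanish on the `p`-singular elements has defect `0` -/
theorem defect_zero_of_vanish [Finite G] {p : ℕ} (hp : p.Prime) {B : Set (IrrCharacter G)}
    (hne : B.Nonempty)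
    (h : ∀ χ ∈ B, ∀ g : G, p ∣ orderOf g → (χ : G → ℂ) g = 0) : blockDefect p B = 0 := by
  obtain ⟨χ, hχ, hmin⟩ := exists_minExp (p := p) hne
  rw [blockDefect_eq, ← hmin, Nat.sub_eq_zero_iff_le]
  obtain ⟨z, hz⟩ := pow_dvd_of_vanish hp
    ⟨_, 0, isCharacter_of_irr χ.2, isCharacter_zero, (sub_zero _).symm⟩ (h χ hχ)
  rw [← charDegree_cast_irr] at hz
  have hz' : (charDegree (χ : G → ℂ) : ℤ) = (p : ℤ) ^ (Nat.card G).factorization p * z := by
    exact_mod_cast hz
  have hdvd : p ^ (Nat.card G).factorization p ∣ charDegree (χ : G → ℂ) := by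
    have : ((p ^ (Nat.card G).factorization p : ℕ) : ℤ) ∣ (charDegree (χ : G → ℂ) : ℤ) := by
      rw [hz']; push_cast; exact Dvd.intro _ rfl
    exact_mod_cast this
  exact (hp.pow_dvd_iff_le_factorization (charDegree_pos_irr χ).ne').1 hdvd

theorem sum_normSq_irr [Fintype G] (χ : IrrCharacter G) :
    ∑ x : G, (χ : G → ℂ) x * conj ((χ : G → ℂ) x) = (Nat.card G : ℂ) := by
  have h := classInner_irr_self χ.2
  rw [classInner] at h
  have h0 : (Nat.card G : ℂ) ≠ 0 := card_ne_zero_complex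
  field_simp at h
  exact h

/-- `|G| (k(B) - l(B))` is the total square norm of `B` on the singular elements -/
theorem card_mul_card_sub_rank [Fintype G] {p : ℕ} {M : Ideal AlgInt} (hM : IsPModular p M)
    {B : Set (IrrCharacter G)} [DecidablePred (· ∈ B)] (hB : IsPBlock M B) :
    (Nat.card G : ℂ) * (Nat.card B : ℂ) - (Nat.card G : ℂ) * (blockRank p B : ℂ) =
      ((∑ x : G, ∑ χ ∈ Finset.univ.filter (· ∈ B),
        (if p ∣ orderOf x then Complex.normSq ((χ : G → ℂ) x) else 0) : ℝ) : ℂ) := by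
  rw [card_mul_blockRank hM hB]
  have h1 : (Nat.card G : ℂ) * (Nat.card B : ℂ) = ∑ x : G, ∑ χ ∈ Finset.univ.filter (· ∈ B),
      (χ : G → ℂ) x * conj ((χ : G → ℂ) x) := by
    rw [Finset.sum_comm, Finset.sum_congr rfl (fun χ _ => sum_normSq_irr χ), Finset.sum_const,
      nsmul_eq_mul, mul_comm]
    congr 2
    rw [Nat.card_eq_fintype_card, Fintype.card_subtype]
  rw [h1, ← Finset.sum_sub_distrib]
  push_cast
  apply Finset.sum_congr rfl
  intro x _
  rw [← Finset.sum_sub_distrib]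
  apply Finset.sum_congr rfl
  intro χ _
  rw [trunc_apply]
  split_ifs
  · rw [zero_mul, sub_zero, Complex.mul_conj]
  · rw [one_mul, sub_self, Complex.ofReal_zero]

theorem vanish_of_card_eq_rank [Finite G] {p : ℕ} {M : Ideal AlgInt} (hM : IsPModular p M)
    {B : Set (IrrCharacter G)} (hB : IsPBlock M B) (h : Nat.card B = blockRank p B) :
    ∀ χ ∈ B, ∀ g : G, p ∣ orderOf g → (χ : G → ℂ) g = 0 := by
  classical
  cases nonempty_fintype G
  have h1 := card_mul_card_sub_rank hM hB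
  rw [h, sub_self] at h1
  have h2 : (∑ x : G, ∑ χ ∈ Finset.univ.filter (· ∈ B),
        (if p ∣ orderOf x then Complex.normSq ((χ : G → ℂ) x) else 0) : ℝ) = 0 := by
    exact_mod_cast h1.symm
  intro χ hχ g hg
  have hnn : ∀ (x : G) (χ : IrrCharacter G),
      0 ≤ (if p ∣ orderOf x then Complex.normSq ((χ : G → ℂ) x) else 0 : ℝ) := by
    intro x χ
    split_ifs
    · exact Complex.normSq_nonneg _
    · exact le_rfl
  have h3 := (Finset.sum_eq_zero_iff_of_nonneg
    (fun x _ => Finset.sum_nonneg (fun χ _ => hnn x χ))).1 h2 g (Finset.mem_univ _)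
  have h4 := (Finset.sum_eq_zero_iff_of_nonneg (fun χ _ => hnn g χ)).1 h3 χ
    (Finset.mem_filter.2 ⟨Finset.mem_univ _, hχ⟩)
  rw [if_pos hg] at h4
  exact Complex.normSq_eq_zero.1 h4

/-- the structure of a `2`-block of defect one -/
theorem two_block_defect_one [Finite G] {M : Ideal AlgInt} (hM : IsPModular 2 M)
    {B : Set (IrrCharacter G)} (hB : IsPBlock M B) (hd : blockDefect 2 B = 1) :
    ∃ χ₁ χ₂ : IrrCharacter G, χ₁ ≠ χ₂ ∧ B = {χ₁, χ₂} ∧
      (∀ g : G, ¬ 2 ∣ orderOf g → (χ₁ : G → ℂ) g = (χ₂ : G → ℂ) g) ∧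
      (∀ g : G, 2 ∣ orderOf g → (χ₁ : G → ℂ) g = - (χ₂ : G → ℂ) g) := by
  classical
  cases nonempty_fintype G
  have hp : Nat.Prime 2 := hM.1
  have : Fact (Nat.Prime 2) := ⟨hp⟩
  have hne := nonempty_of_isPBlock (ne_top_of_isPModular hM) hB
  have hle := blockRank_le_card 2 B
  have hpos := blockRank_pos hp hne
  have hkl : Nat.card B ≠ blockRank 2 B := by
    intro h
    have := defect_zero_of_vanish hp hne (vanish_of_card_eq_rank hM hB h)
    omega
  have hk : Nat.card B = 2 := by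
    have h1 := Cfsg.Agent.S4494.result 2 M hM B hB
    rw [hd] at h1
    have h2 : 2 ^ (2 * 1) + 4 = 8 := by norm_num
    rw [h2] at h1
    omega
  rw [Nat.card_coe_set_eq, Set.ncard_eq_two] at hk
  obtain ⟨χ₁, χ₂, hne12, hBeq⟩ := hk
  have h1B : χ₁ ∈ B := by rw [hBeq]; simp
  have h2B : χ₂ ∈ B := by rw [hBeq]; simp
  have hj : ∀ χ ∈ B, (Nat.card G).factorization 2 ≤ 1 + (charDegree (χ : G → ℂ)).factorization 2 := by
    intro χ hχ
    have h1 := minExp_le (p := 2) hχ
    rw [blockDefect_eq] at hd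
    omega
  -- the expansion for a member of the block
  have key : ∀ χ ψ : IrrCharacter G, χ ≠ ψ → B = {χ, ψ} → ∃ a w : ℤ,
      classInner (trunc 2 ((2 : ℕ) ^ 1 : ℂ) (χ : G → ℂ)) (ψ : G → ℂ) = w ∧
      a ^ 2 + w ^ 2 = 2 * a ∧
      trunc 2 ((2 : ℕ) ^ 1 : ℂ) (χ : G → ℂ) = (a : ℂ) • (χ : G → ℂ) + (w : ℂ) • (ψ : G → ℂ) := by
    intro χ ψ hne hBe
    have hχ : χ ∈ B := by rw [hBe]; simp
    have hex := fun ν : IrrCharacter G => exists_int_classInner_trunc hp χ ν 1 (hj χ hχ)
    choose z hz using hex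
    have hz0 : ∀ ν : IrrCharacter G, ν ≠ χ → ν ≠ ψ → z ν = 0 := by
      intro ν h1 h2
      have hν : ν ∉ B := by rw [hBe]; simp [h1, h2]
      have := classInner_trunc_eq_zero hM hB ((2 : ℕ) ^ 1 : ℂ) hχ hν
      rw [hz ν] at this
      exact_mod_cast this
    refine ⟨z χ, z ψ, hz ψ, ?_, ?_⟩
    · have h := sum_sq_int_eq χ 1 hz
      rw [← Finset.add_sum_erase _ _ (Finset.mem_univ χ),
        ← Finset.add_sum_erase _ _ (Finset.mem_erase.2 ⟨hne.symm, Finset.mem_univ ψ⟩),
        Finset.sum_eq_zero, add_zero] at h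
      · rw [h]; norm_num
      · intro ν hν
        rw [Finset.mem_erase, Finset.mem_erase] at hν
        rw [hz0 ν hν.2.1 hν.1]; norm_num
    · have h := trunc_eq_sum_int χ _ hz
      rw [← Finset.add_sum_erase _ _ (Finset.mem_univ χ),
        ← Finset.add_sum_erase _ _ (Finset.mem_erase.2 ⟨hne.symm, Finset.mem_univ ψ⟩),
        Finset.sum_eq_zero, add_zero] at h
      · exact h
      · intro ν hν
        rw [Finset.mem_erase, Finset.mem_erase] at hν
        rw [hz0 ν hν.2.1 hν.1]; simp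
  obtain ⟨a, w, hw, haw, hexp⟩ := key χ₁ χ₂ hne12 hBeq
  obtain ⟨a', w', hw', haw', hexp'⟩ := key χ₂ χ₁ hne12.symm (by rw [hBeq, Set.pair_comm])
  have hww : w = w' := int_symm χ₁ χ₂ 1 hw hw'
  subst hww
  have hdeg : ∀ χ : IrrCharacter G, (0 : ℝ) < (charDegree (χ : G → ℂ) : ℝ) := fun χ => by
    exact_mod_cast charDegree_pos_irr χ
  have hat1 := congrFun hexp 1
  have hat1' := congrFun hexp' 1
  rw [trunc_one hp] at hat1 hat1'
  simp only [Pi.add_apply, Pi.smul_apply, smul_eq_mul, ← charDegree_cast_irr] at hat1 hat1'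
  have hr1 : (2 : ℝ) * (charDegree (χ₁ : G → ℂ) : ℝ) =
      (a : ℝ) * (charDegree (χ₁ : G → ℂ) : ℝ) + (w : ℝ) * (charDegree (χ₂ : G → ℂ) : ℝ) := by
    have : ((2 * (charDegree (χ₁ : G → ℂ) : ℝ) : ℝ) : ℂ) =
      (((a : ℝ) * (charDegree (χ₁ : G → ℂ) : ℝ) + (w : ℝ) * (charDegree (χ₂ : G → ℂ) : ℝ) : ℝ) : ℂ) := by
      push_cast
      rw [← hat1]; norm_num
    exact_mod_cast this
  have hr2 : (2 : ℝ) * (charDegree (χ₂ : G → ℂ) : ℝ) =
      (a' : ℝ) * (charDegree (χ₂ : G → ℂ) : ℝ) + (w : ℝ) * (charDegree (χ₁ : G → ℂ) : ℝ) := by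
    have : ((2 * (charDegree (χ₂ : G → ℂ) : ℝ) : ℝ) : ℂ) =
      (((a' : ℝ) * (charDegree (χ₂ : G → ℂ) : ℝ) + (w : ℝ) * (charDegree (χ₁ : G → ℂ) : ℝ) : ℝ) : ℂ) := by
      push_cast
      rw [← hat1']; norm_num
    exact_mod_cast this
  have hw2 : w ^ 2 ≤ 1 := by nlinarith [sq_nonneg (a - 1)]
  have hwl : -1 ≤ w := by nlinarith
  have hwu : w ≤ 1 := by nlinarith
  have hcases : w = -1 ∨ w = 0 ∨ w = 1 := by omega
  rcases hcases with rfl | rfl | rfl
  · -- w = -1
    exfalso
    have ha : a = 1 := by nlinarith [sq_nonneg (a - 1)]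
    subst ha
    have := hdeg χ₁
    have := hdeg χ₂
    push_cast at hr1
    nlinarith
  · -- w = 0
    exfalso
    have ha : (a : ℝ) = 2 := by
      have := hdeg χ₁
      push_cast at hr1
      nlinarith
    have ha' : (a' : ℝ) = 2 := by
      have := hdeg χ₂
      push_cast at hr2
      nlinarith
    have ha2 : a = 2 := by exact_mod_cast ha
    have ha2' : a' = 2 := by exact_mod_cast ha'
    subst ha2 ha2'
    have hv : ∀ χ ∈ B, ∀ g : G, 2 ∣ orderOf g → (χ : G → ℂ) g = 0 := by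
      intro χ hχ g hg
      rw [hBeq] at hχ
      rcases hχ with rfl | hχ
      · have h := congrFun hexp g
        rw [trunc_singular _ _ _ hg] at h
        simp only [Pi.add_apply, Pi.smul_apply, smul_eq_mul] at h
        push_cast at h
        linear_combination (-1 / 2 : ℂ) * h
      · rw [Set.mem_singleton_iff] at hχ
        subst hχ
        have h := congrFun hexp' g
        rw [trunc_singular _ _ _ hg] at h
        simp only [Pi.add_apply, Pi.smul_apply, smul_eq_mul] at h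
        push_cast at h
        linear_combination (-1 / 2 : ℂ) * h
    have := defect_zero_of_vanish hp hne hv
    omega
  · -- w = 1
    have ha : a = 1 := by nlinarith [sq_nonneg (a - 1)]
    subst ha
    refine ⟨χ₁, χ₂, hne12, hBeq, ?_, ?_⟩
    · intro g hg
      have h := congrFun hexp g
      rw [trunc_apply, if_neg hg] at h
      simp only [Pi.add_apply, Pi.smul_apply, smul_eq_mul] at h
      push_cast at h
      linear_combination h
    · intro g hg
      have h := congrFun hexp g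
      rw [trunc_singular _ _ _ hg] at h
      simp only [Pi.add_apply, Pi.smul_apply, smul_eq_mul] at h
      push_cast at h
      linear_combination -h

end Cfsg.Agent.Lib.Helper23.Defect01
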