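import Cfsg.Agent.Lib.Helper23.Rank
import Cfsg.Agent.H6.BlockSection
import Cfsg.Agent.H6.IndDefined
import Cfsg.Agent.H6.PPart

/-! `p`-sections: counting, column orthogonality on a section. -/

set_option autoImplicit false
open Cfsg Cfsg.Agent.CharLib Cfsg.Agent.BlockLib Cfsg.Agent.Lib.Helper23 Cfsg.Agent.Lib.Helper23.MinMax
  Cfsg.Agent.Lib.Helper23.Trunc
open scoped ComplexConjugate

namespace Cfsg.Agent.Lib.Helper23.Sect

universe u
variable {G : Type u} [Group G] [Fintype G]

omit [Fintype G] in
theorem isPPart_mul {p : ℕ} {x y : G} {k : ℕ} (hx : orderOf x = p ^ k) (hc : Commute x y)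
    (hy : ¬ p ∣ orderOf y) : IsPPart p (x * y) x := ⟨y, rfl, hc, ⟨k, hx⟩, hy⟩

/-- column orthogonality on the `p`-section of `x`. -/
theorem sum_irr_section {p : ℕ} (hp : p.Prime) {x : G} {k : ℕ} (hx : orderOf x = p ^ k)
    (y y' : Subgroup.centralizer ({x} : Set G)) (hy : ¬ p ∣ orderOf y) (hy' : ¬ p ∣ orderOf y') :
    ∑ χ : IrrCharacter G, (χ : G → ℂ) (x * y) * conj ((χ : G → ℂ) (x * y')) =
    ∑ ζ : IrrCharacter (Subgroup.centralizer ({x} : Set G)),
      (ζ : Subgroup.centralizer ({x} : Set G) → ℂ) y *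
        conj ((ζ : Subgroup.centralizer ({x} : Set G) → ℂ) y') := by
  classical
  obtain ⟨e, he⟩ := Cfsg.Agent.H6.exists_pPart_exp G hp
  have hcomm : ∀ c : Subgroup.centralizer ({x} : Set G), Commute x (c : G) := fun c =>
    (Subgroup.mem_centralizer_singleton_iff.1 c.2).symm
  have hpow : ∀ c : Subgroup.centralizer ({x} : Set G), ¬ p ∣ orderOf c → (x * (c : G)) ^ e = x := by
    intro c hc
    exact ((he _).2 x (isPPart_mul hx (hcomm c) (by rwa [Subgroup.orderOf_coe]))).symm
  by_cases h : IsConj y y'
  · obtain ⟨c, hc⟩ := isConj_iff.1 h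
    have hG : IsConj (x * (y : G)) (x * (y' : G)) := by
      rw [isConj_iff]
      refine ⟨c, ?_⟩
      have h1 : (c : G) * y * (c : G)⁻¹ = y' := by
        have := congrArg Subtype.val hc
        simpa using this
      rw [← h1]
      have h2 := (hcomm c).eq
      calc (c : G) * (x * y) * (c : G)⁻¹ = ((c : G) * x) * y * (c : G)⁻¹ := by group
        _ = (x * c) * y * (c : G)⁻¹ := by rw [h2]
        _ = x * (c * y * (c : G)⁻¹) := by group
    rw [sum_irr_mul_conj_of_isConj hG, sum_irr_mul_conj_of_isConj h]
    congr 1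
    apply Nat.card_congr
    refine ⟨fun g => ⟨⟨g.1, ?_⟩, ?_⟩, fun g => ⟨g.1.1, ?_⟩, fun g => rfl, fun g => rfl⟩
    · have h1 : Commute (g : G) (x * y) := Subgroup.mem_centralizer_singleton_iff.1 g.2
      have h2 := h1.zpow_right e
      rw [hpow y hy] at h2
      exact Subgroup.mem_centralizer_singleton_iff.2 h2.eq
    · have h1 : Commute (g : G) (x * y) := Subgroup.mem_centralizer_singleton_iff.1 g.2
      have h2 := h1.zpow_right e
      rw [hpow y hy] at h2
      rw [Subgroup.mem_centralizer_singleton_iff]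
      apply Subtype.ext
      show (g : G) * y = y * g
      have h3 : Commute (g : G) (x⁻¹ * (x * y)) := h2.inv_right.mul_right h1
      rw [inv_mul_cancel_left] at h3
      exact h3.eq
    · rw [Subgroup.mem_centralizer_singleton_iff]
      have h1 : (g.1 : G) * x = x * g.1 := Subgroup.mem_centralizer_singleton_iff.1 g.1.2
      have h2 : (g.1 : G) * y = y * g.1 := by
        have := Subgroup.mem_centralizer_singleton_iff.1 g.2
        exact congrArg Subtype.val this
      calc (g.1 : G) * (x * y) = ((g.1 : G) * x) * y := by group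
        _ = x * ((g.1 : G) * y) := by rw [h1]; group
        _ = x * y * g.1 := by rw [h2]; group
  · rw [sum_irr_mul_conj_of_not_isConj h, sum_irr_mul_conj_of_not_isConj]
    intro hG
    apply h
    obtain ⟨g, hg⟩ := isConj_iff.1 hG
    have h1 : g * x * g⁻¹ = x := by
      have := congrArg (fun t => t ^ e) hg
      simp only [conj_zpow] at this
      rwa [hpow y hy, hpow y' hy'] at this
    have hgC : g ∈ Subgroup.centralizer ({x} : Set G) := by
      rw [Subgroup.mem_centralizer_singleton_iff]
      calc g * x = g * x * g⁻¹ * g := by group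
        _ = x * g := by rw [h1]
    rw [isConj_iff]
    refine ⟨⟨g, hgC⟩, ?_⟩
    apply Subtype.ext
    show g * y * g⁻¹ = y'
    have h2 : g * (x * y) * g⁻¹ = (g * x * g⁻¹) * (g * y * g⁻¹) := by group
    rw [h2, h1] at hg
    exact mul_left_cancel hg

/-- summation over the group by `p`-sections -/
theorem sum_eq_sum_sections [∀ x : G, Fintype (Subgroup.centralizer ({x} : Set G))]
    {p : ℕ} (hp : p.Prime) (X : Finset G)
    (hX : ∀ x ∈ X, ∃ k : ℕ, orderOf x = p ^ k)
    (hXrep : ∀ g : G, (∃ k : ℕ, orderOf g = p ^ k) → ∃! x, x ∈ X ∧ IsConj g x)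
    {F : G → ℂ} (hF : IsClassFunction G F) :
    ∑ g : G, F g = ∑ x ∈ X, ((Subgroup.centralizer ({x} : Set G)).index : ℂ) *
      ∑ y : Subgroup.centralizer ({x} : Set G), (if p ∣ orderOf y then 0 else F (x * y)) := by
  classical
  obtain ⟨e, he⟩ := Cfsg.Agent.H6.exists_pPart_exp G hp
  have hpe : ∀ g : G, ∃ k : ℕ, orderOf (g ^ e) = p ^ k := by
    intro g
    obtain ⟨y, -, -, hk, -⟩ := (he g).1
    exact hk
  have step1 : ∑ g : G, F g = ∑ x ∈ X, ∑ g : G, (if IsConj (g ^ e) x then F g else 0) := by
    rw [Finset.sum_comm]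
    apply Finset.sum_congr rfl
    intro g _
    obtain ⟨x0, ⟨hx0, hc0⟩, huniq⟩ := hXrep (g ^ e) (hpe g)
    rw [Finset.sum_eq_single x0]
    · rw [if_pos hc0]
    · intro x hx hne
      rw [if_neg]
      intro hc
      exact hne (huniq x ⟨hx, hc⟩)
    · intro h; exact absurd hx0 h
  rw [step1]
  apply Finset.sum_congr rfl
  intro x hx
  obtain ⟨k, hk⟩ := hX x hx
  let A : G → ℂ := fun u => ∑ g : G, (if g ^ e = u then F g else 0)
  have hA : ∀ c u : G, A (c * u * c⁻¹) = A u := by
    intro c u
    simp only [A]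
    rw [← Equiv.sum_comp (MulAut.conj c).toEquiv]
    apply Finset.sum_congr rfl
    intro g _
    have hcg : (MulAut.conj c).toEquiv g = c * g * c⁻¹ := rfl
    have key : (c * g * c⁻¹) ^ e = c * u * c⁻¹ ↔ g ^ e = u := by
      rw [conj_zpow]
      constructor
      · intro h
        exact mul_left_cancel (mul_right_cancel h)
      · intro h; rw [h]
    rw [hcg]
    by_cases hg : g ^ e = u
    · rw [if_pos hg, if_pos (key.2 hg), hF]
    · rw [if_neg hg, if_neg (fun h => hg (key.1 h))]
  have step2 : ∑ g : G, (if IsConj (g ^ e) x then F g else 0) =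
      ((Subgroup.centralizer ({x} : Set G)).index : ℂ) * A x := by
    have h1 : ∑ g : G, (if IsConj (g ^ e) x then F g else 0) =
        ∑ u : G, (if IsConj x u then A u else 0) := by
      have : ∀ u : G, (if IsConj x u then A u else 0) =
          ∑ g : G, (if g ^ e = u then (if IsConj (g ^ e) x then F g else 0) else 0) := by
        intro u
        simp only [A]
        split_ifs with hu
        · apply Finset.sum_congr rfl
          intro g _
          by_cases hg : g ^ e = u
          · rw [if_pos hg, if_pos hg, if_pos (by rw [hg]; exact hu.symm)]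
          · rw [if_neg hg, if_neg hg]
        · symm
          apply Finset.sum_eq_zero
          intro g _
          by_cases hg : g ^ e = u
          · rw [if_pos hg, if_neg (by rw [hg]; exact fun h => hu h.symm)]
          · rw [if_neg hg]
      simp only [this]
      rw [Finset.sum_comm]
      apply Finset.sum_congr rfl
      intro g _
      rw [Finset.sum_ite_eq]
      simp
    rw [h1]
    have h2 : ∀ u : G, (if IsConj x u then A u else 0) = (if IsConj x u then 1 else 0) * A x := by
      intro u
      split_ifs with hu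
      · obtain ⟨c, hc⟩ := isConj_iff.1 hu
        rw [← hc, hA, one_mul]
      · rw [zero_mul]
    simp only [h2]
    rw [← Finset.sum_mul, Finset.sum_boole, ← card_isConj_eq_index, Nat.card_eq_fintype_card,
      Fintype.card_subtype]
  rw [step2]
  congr 1
  simp only [A]
  have hnot : ∀ y : Subgroup.centralizer ({x} : Set G), (if p ∣ orderOf y then 0 else F (x * y)) =
      (if ¬ p ∣ orderOf y then F (x * y) else 0) := by
    intro y; split_ifs <;> rfl
  simp only [hnot]
  rw [← Finset.sum_filter, ← Finset.sum_filter]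
  symm
  apply Finset.sum_bij (fun (y : Subgroup.centralizer ({x} : Set G)) _ => x * (y : G))
  · intro y hy
    have hy' := (Finset.mem_filter.1 hy).2
    rw [Finset.mem_filter]
    refine ⟨Finset.mem_univ _, ?_⟩
    exact ((he _).2 x (isPPart_mul hk (Subgroup.mem_centralizer_singleton_iff.1 y.2).symm
      (by rwa [Subgroup.orderOf_coe]))).symm
  · intro y _ y' _ h
    exact Subtype.ext (mul_left_cancel h)
  · intro g hg
    have hg' := (Finset.mem_filter.1 hg).2
    obtain ⟨y0, h1, h2, -, h4⟩ := (he g).1
    rw [hg'] at h1 h2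
    refine ⟨⟨y0, Subgroup.mem_centralizer_singleton_iff.2 h2.eq.symm⟩, ?_, h1⟩
    rw [Finset.mem_filter]
    refine ⟨Finset.mem_univ _, ?_⟩
    rwa [Subgroup.orderOf_mk]
  · intro y _
    rfl

end Cfsg.Agent.Lib.Helper23.Sect
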