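import Cfsg.Agent.Lib.Helper23.Sect
import Cfsg.Agent.Lib.Helper23.MinMax2

/-! Block parts on `p`-sections: norms (subsections). -/

set_option autoImplicit false
open Cfsg Cfsg.Agent.CharLib Cfsg.Agent.BlockLib Cfsg.Agent.Lib.Helper23 Cfsg.Agent.Lib.Helper23.MinMax
  Cfsg.Agent.Lib.Helper23.Trunc Cfsg.Agent.H6.BlockSection
open scoped ComplexConjugate

namespace Cfsg.Agent.Lib.Helper23.Sect

section general

variable {K : Type*} [Group K] [Fintype K]

/-- the kernel of the block projection -/
noncomputable def wt (b : Set (IrrCharacter K)) [DecidablePred (· ∈ b)] (y c : K) : ℂ :=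
  (Nat.card K : ℂ)⁻¹ * ∑ ψ ∈ Finset.univ.filter (· ∈ b), (ψ : K → ℂ) y * conj ((ψ : K → ℂ) c)

theorem blockPart_eq_wt (b : Set (IrrCharacter K)) [DecidablePred (· ∈ b)] (θ : K → ℂ) (y : K) :
    blockPart b θ y = ∑ c : K, wt b y c * θ c := by
  rw [blockPart_eq_filter]
  simp only [wt, classInner, Finset.mul_sum, Finset.sum_mul]
  rw [Finset.sum_comm]
  apply Finset.sum_congr rfl
  intro c _
  apply Finset.sum_congr rfl
  intro ψ _
  ring

theorem wt_singular {p : ℕ} {M : Ideal AlgInt} (hM : IsPModular p M) {b : Set (IrrCharacter K)}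
    [DecidablePred (· ∈ b)] (hb : IsPBlock M b) {y c : K} (hy : ¬ p ∣ orderOf y)
    (hc : p ∣ orderOf c) : wt b y c = 0 := by
  rw [wt, weak_orth hM b hb y c hy hc, mul_zero]

theorem blockPart_irr (b : Set (IrrCharacter K)) [DecidablePred (· ∈ b)] (ζ : IrrCharacter K)
    (y : K) : blockPart b (ζ : K → ℂ) y = if ζ ∈ b then (ζ : K → ℂ) y else 0 := by
  classical
  rw [blockPart_eq_filter]
  split_ifs with h
  · rw [Finset.sum_eq_single ζ]
    · rw [classInner_irr_self ζ.2, one_mul]
    · intro ψ _ hne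
      rw [classInner_irr_ne ζ.2 ψ.2 (fun e => hne (Subtype.ext e).symm), zero_mul]
    · intro h'
      exact absurd (Finset.mem_filter.2 ⟨Finset.mem_univ _, h⟩) h'
  · apply Finset.sum_eq_zero
    intro ψ hψ
    have hne : ζ ≠ ψ := fun e => h (e ▸ (Finset.mem_filter.1 hψ).2)
    rw [classInner_irr_ne ζ.2 ψ.2 (fun e => hne (Subtype.ext e)), zero_mul]

theorem quad_expand {γ α : Type*} [Fintype γ] [Fintype α] (w : α → ℂ) (η : γ → α → ℂ) :
    ∑ i, (∑ c, w c * η i c) * conj (∑ c, w c * η i c) =
    ∑ c, ∑ c', w c * conj (w c') * ∑ i, η i c * conj (η i c') := by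
  have h1 : ∀ i, (∑ c, w c * η i c) * conj (∑ c, w c * η i c) =
      ∑ c, ∑ c', w c * conj (w c') * (η i c * conj (η i c')) := by
    intro i
    rw [map_sum, Finset.sum_mul_sum]
    apply Finset.sum_congr rfl
    intro c _
    apply Finset.sum_congr rfl
    intro c' _
    rw [map_mul]; ring
  simp only [h1]
  rw [Finset.sum_comm]
  apply Finset.sum_congr rfl
  intro c _
  rw [Finset.sum_comm]
  apply Finset.sum_congr rfl
  intro c' _
  rw [Finset.mul_sum]

theorem quad_identity {ι κ α : Type*} [Fintype ι] [Fintype κ] [Fintype α] (S : α → Prop)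
    (w : α → ℂ) (hw : ∀ c, ¬ S c → w c = 0) (θ : ι → α → ℂ) (ζ : κ → α → ℂ)
    (h : ∀ c c', S c → S c' → ∑ i, θ i c * conj (θ i c') = ∑ j, ζ j c * conj (ζ j c')) :
    ∑ i, (∑ c, w c * θ i c) * conj (∑ c, w c * θ i c) =
    ∑ j, (∑ c, w c * ζ j c) * conj (∑ c, w c * ζ j c) := by
  rw [quad_expand w θ, quad_expand w ζ]
  apply Finset.sum_congr rfl
  intro c _
  apply Finset.sum_congr rfl
  intro c' _
  by_cases hc : S c
  · by_cases hc' : S c'
    · rw [h c c' hc hc']
    · rw [hw c' hc']; simp
  · rw [hw c hc]; simp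

/-- block parts for different blocks are orthogonal on `p`-regular elements -/
theorem sum_reg_blockPart_mul {p : ℕ} {M : Ideal AlgInt} (hM : IsPModular p M)
    {b b' : Set (IrrCharacter K)} (hb : IsPBlock M b) (hb' : IsPBlock M b') (hne : b ≠ b')
    (θ θ' : K → ℂ) :
    ∑ y : K, (if p ∣ orderOf y then 0 else blockPart b θ y * conj (blockPart b' θ' y)) = 0 := by
  classical
  have hMp := isPrime_of_isPModular hM
  have h1 : ∀ y : K, (if p ∣ orderOf y then 0 else blockPart b θ y * conj (blockPart b' θ' y)) =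
      ∑ ψ ∈ Finset.univ.filter (· ∈ b), ∑ ψ' ∈ Finset.univ.filter (· ∈ b'),
        classInner θ (ψ : K → ℂ) * conj (classInner θ' (ψ' : K → ℂ)) *
          (trunc p 1 (ψ : K → ℂ) y * conj ((ψ' : K → ℂ) y)) := by
    intro y
    split_ifs with hy
    · symm
      apply Finset.sum_eq_zero
      intro ψ _
      apply Finset.sum_eq_zero
      intro ψ' _
      rw [trunc_apply, if_pos hy]; ring
    · rw [blockPart_eq_filter, blockPart_eq_filter, map_sum, Finset.sum_mul_sum]
      apply Finset.sum_congr rfl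
      intro ψ _
      apply Finset.sum_congr rfl
      intro ψ' _
      rw [trunc_apply, if_neg hy, map_mul]; ring
  simp only [h1]
  rw [Finset.sum_comm]
  apply Finset.sum_eq_zero
  intro ψ hψ
  rw [Finset.sum_comm]
  apply Finset.sum_eq_zero
  intro ψ' hψ'
  rw [← Finset.mul_sum]
  have hψb := (Finset.mem_filter.1 hψ).2
  have hψ'b := (Finset.mem_filter.1 hψ').2
  have hnot : ψ' ∉ b := fun h => hne (block_eq_of_mem hb hb' h hψ'b)
  have h2 := classInner_trunc_eq_zero hM hb 1 hψb hnot
  rw [classInner] at h2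
  have h0 : (Nat.card K : ℂ)⁻¹ ≠ 0 := inv_ne_zero card_ne_zero_complex
  rw [(mul_eq_zero.1 h2).resolve_left h0, mul_zero]

end general

universe u
variable {G : Type u} [Group G] [Fintype G]

/-- pointwise norm identity for the `b`-parts on a section. -/
theorem sum_blockPart_sq {p : ℕ} {M : Ideal AlgInt} (hM : IsPModular p M) {x : G} {k : ℕ}
    (hx : orderOf x = p ^ k) [Fintype (Subgroup.centralizer ({x} : Set G))]
    (b : Set (IrrCharacter (Subgroup.centralizer ({x} : Set G)))) [DecidablePred (· ∈ b)]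
    (hb : IsPBlock M b) (y : Subgroup.centralizer ({x} : Set G)) (hy : ¬ p ∣ orderOf y) :
    ∑ χ : IrrCharacter G,
      blockPart b (fun c : Subgroup.centralizer ({x} : Set G) => (χ : G → ℂ) (x * c)) y *
      conj (blockPart b (fun c : Subgroup.centralizer ({x} : Set G) => (χ : G → ℂ) (x * c)) y) =
    ∑ ζ ∈ Finset.univ.filter (· ∈ b), (ζ : Subgroup.centralizer ({x} : Set G) → ℂ) y *
      conj ((ζ : Subgroup.centralizer ({x} : Set G) → ℂ) y) := by
  classical
  simp only [blockPart_eq_wt]
  rw [quad_identity (fun c : Subgroup.centralizer ({x} : Set G) => ¬ p ∣ orderOf c) (wt b y)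
    (fun c hc => wt_singular hM hb hy (not_not.1 hc))
    (fun (χ : IrrCharacter G) (c : Subgroup.centralizer ({x} : Set G)) => (χ : G → ℂ) (x * c))
    (fun (ζ : IrrCharacter (Subgroup.centralizer ({x} : Set G))) c => (ζ : _ → ℂ) c)
    (fun c c' hc hc' => sum_irr_section hM.1 hx c c' hc hc')]
  simp only [← blockPart_eq_wt, blockPart_irr]
  rw [Finset.sum_filter]
  apply Finset.sum_congr rfl
  intro ζ _
  split_ifs <;> simp

/-- the norm of the `b`-parts of the members of `B = b^G` on the section of `x` is `|C| l(b)`. -/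
theorem sum_block_sum_reg {p : ℕ} [Fact p.Prime] {M : Ideal AlgInt} (hM : IsPModular p M) {x : G}
    {k : ℕ} (hx : orderOf x = p ^ k) {H : Subgroup G} [Fintype H]
    (hH : H = Subgroup.centralizer ({x} : Set G)) {b : Set (IrrCharacter H)}
    {B : Set (IrrCharacter G)} [DecidablePred (· ∈ B)] (hind : IsInducedBlock M H b B) :
    ∑ χ ∈ Finset.univ.filter (· ∈ B), ∑ y : H, (if p ∣ orderOf y then 0 else
      blockPart b (fun c : H => (χ : G → ℂ) (x * c)) y *
      conj (blockPart b (fun c : H => (χ : G → ℂ) (x * c)) y)) =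
    (Nat.card H : ℂ) * (blockRank p b : ℂ) := by
  classical
  subst hH
  have hMp := isPrime_of_isPModular hM
  have htop := ne_top_of_isPModular hM
  have hb := hind.1
  rw [card_mul_blockRank hM hb, Finset.sum_filter]
  have h1 : ∀ χ : IrrCharacter G, (if χ ∈ B then ∑ y : Subgroup.centralizer ({x} : Set G),
      (if p ∣ orderOf y then 0 else
      blockPart b (fun c : Subgroup.centralizer ({x} : Set G) => (χ : G → ℂ) (x * c)) y *
      conj (blockPart b (fun c : Subgroup.centralizer ({x} : Set G) => (χ : G → ℂ) (x * c)) y))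
      else 0) = ∑ y : Subgroup.centralizer ({x} : Set G), (if p ∣ orderOf y then 0 else
      blockPart b (fun c : Subgroup.centralizer ({x} : Set G) => (χ : G → ℂ) (x * c)) y *
      conj (blockPart b (fun c : Subgroup.centralizer ({x} : Set G) => (χ : G → ℂ) (x * c)) y)) := by
    intro χ
    split_ifs with hχ
    · rfl
    · symm
      apply Finset.sum_eq_zero
      intro y _
      split_ifs with hy
      · rfl
      · rw [Cfsg.Agent.S0923.result p M hM x ⟨k, hx⟩ (blockOf M (χ : G → ℂ)) ⟨χ, rfl⟩ χ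
          (SameBlock.refl' htop _) b hb (fun h => hχ (by
            rw [isInducedBlock_unique hind h]; exact SameBlock.refl' htop _)) y hy, zero_mul]
  simp only [h1]
  rw [Finset.sum_comm]
  apply Finset.sum_congr rfl
  intro y _
  by_cases hy : p ∣ orderOf y
  · simp only [if_pos hy, Finset.sum_const_zero]
    symm
    apply Finset.sum_eq_zero
    intro ζ _
    rw [trunc_apply, if_pos hy, zero_mul]
  · simp only [if_neg hy]
    rw [sum_blockPart_sq hM hx b hb y hy]
    apply Finset.sum_congr rfl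
    intro ζ _
    rw [trunc_apply, if_neg hy, one_mul]

open Classical in
/-- decomposition of the norm of `χ` on the section of `x` by subsections. -/
theorem sum_reg_sq_eq {p : ℕ} [Fact p.Prime] {M : Ideal AlgInt} (hM : IsPModular p M) {x : G}
    {k : ℕ} (hx : orderOf x = p ^ k) [Fintype (Subgroup.centralizer ({x} : Set G))]
    {B : Set (IrrCharacter G)} (hB : IsPBlock M B) {χ : IrrCharacter G} (hχ : χ ∈ B) :
    ∑ y : Subgroup.centralizer ({x} : Set G), (if p ∣ orderOf y then 0 else
      (χ : G → ℂ) (x * y) * conj ((χ : G → ℂ) (x * y))) =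
    ∑ b ∈ (pblocks M (Subgroup.centralizer ({x} : Set G))).filter
        (fun b => IsInducedBlock M (Subgroup.centralizer ({x} : Set G)) b B),
      ∑ y : Subgroup.centralizer ({x} : Set G), (if p ∣ orderOf y then 0 else
        blockPart b (fun c : Subgroup.centralizer ({x} : Set G) => (χ : G → ℂ) (x * c)) y *
        conj (blockPart b (fun c : Subgroup.centralizer ({x} : Set G) => (χ : G → ℂ) (x * c)) y)) := by
  have hMp := isPrime_of_isPModular hM
  set θ : Subgroup.centralizer ({x} : Set G) → ℂ := fun c => (χ : G → ℂ) (x * c) with hθ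
  set 𝔅 := (pblocks M (Subgroup.centralizer ({x} : Set G))).filter
    (fun b => IsInducedBlock M (Subgroup.centralizer ({x} : Set G)) b B) with h𝔅
  have hval : ∀ y : Subgroup.centralizer ({x} : Set G), ¬ p ∣ orderOf y →
      (χ : G → ℂ) (x * y) = ∑ b ∈ 𝔅, blockPart b θ y := by
    intro y hy
    have h1 := Cfsg.Agent.S0924.sum_blockPart (M := M)
      (isClassFunction_shift (isClassFunction_of_irr χ.2) x) y
    rw [← Finset.sum_filter_add_sum_filter_not (pblocks M (Subgroup.centralizer ({x} : Set G)))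
      (fun b => IsInducedBlock M (Subgroup.centralizer ({x} : Set G)) b B)] at h1
    rw [← h1]
    apply add_eq_left.2
    apply Finset.sum_eq_zero
    intro b hb
    obtain ⟨hb1, hb2⟩ := Finset.mem_filter.1 hb
    exact Cfsg.Agent.S0923.result p M hM x ⟨k, hx⟩ B hB χ hχ b (mem_pblocks.1 hb1) hb2 y hy
  have h2 : ∀ y : Subgroup.centralizer ({x} : Set G), (if p ∣ orderOf y then 0 else
      (χ : G → ℂ) (x * y) * conj ((χ : G → ℂ) (x * y))) =
      ∑ b ∈ 𝔅, ∑ b' ∈ 𝔅, (if p ∣ orderOf y then 0 else
        blockPart b θ y * conj (blockPart b' θ y)) := by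
    intro y
    split_ifs with hy
    · simp
    · rw [hval y hy, map_sum, Finset.sum_mul_sum]
  simp only [h2]
  rw [Finset.sum_comm]
  apply Finset.sum_congr rfl
  intro b hb
  rw [Finset.sum_comm]
  rw [Finset.sum_eq_single b]
  · intro b' hb' hne
    exact sum_reg_blockPart_mul hM (mem_pblocks.1 (Finset.mem_filter.1 hb).1)
      (mem_pblocks.1 (Finset.mem_filter.1 hb').1) hne.symm θ θ
  · intro h; exact absurd hb h

end Cfsg.Agent.Lib.Helper23.Sect
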