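import Cfsg.Agent.Lib.Helper23.Defect01
import Cfsg.Agent.S4511

/-! Consequences of Brauer's count `k(B) = ∑ l(b)` over subsections. -/

set_option autoImplicit false
open Cfsg Cfsg.Agent.CharLib Cfsg.Agent.BlockLib Cfsg.Agent.Lib.Helper23 Cfsg.Agent.Lib.Helper23.MinMax
  Cfsg.Agent.Lib.Helper23.Trunc Cfsg.Agent.H6.BlockSection Cfsg.Agent.Lib.Helper23.Sect
  Cfsg.Agent.Lib.Helper23.Defect01
open scoped ComplexConjugate

namespace Cfsg.Agent.Lib.Helper23.Subsect

universe u
variable {G : Type u} [Group G]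

/-- a set of representatives of the classes of `p`-elements containing a given `p`-element -/
theorem exists_rep_set [Finite G] (p : ℕ) (x : G) (hx : ∃ k : ℕ, orderOf x = p ^ k) :
    ∃ X : Finset G, x ∈ X ∧ (∀ u ∈ X, ∃ k : ℕ, orderOf u = p ^ k) ∧
      (∀ g : G, (∃ k : ℕ, orderOf g = p ^ k) → ∃! u, u ∈ X ∧ IsConj g u) := by
  classical
  cases nonempty_fintype G
  let rep : ConjClasses G → G := fun c => if c = ConjClasses.mk x then x else Quotient.out c
  have hrep : ∀ c, ConjClasses.mk (rep c) = c := by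
    intro c
    simp only [rep]
    split_ifs with h
    · exact h.symm
    · exact Quotient.out_eq c
  have hord : ∀ g : G, orderOf (rep (ConjClasses.mk g)) = orderOf g := by
    intro g
    have h := hrep (ConjClasses.mk g)
    rw [ConjClasses.mk_eq_mk_iff_isConj, isConj_iff] at h
    obtain ⟨c, hc⟩ := h
    conv_rhs => rw [← hc, orderOf_conj']
  refine ⟨(Finset.univ.filter (fun c : ConjClasses G => ∃ k : ℕ, orderOf (rep c) = p ^ k)).image rep,
    ?_, ?_, ?_⟩
  · rw [Finset.mem_image]
    refine ⟨ConjClasses.mk x, ?_, by simp [rep]⟩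
    rw [Finset.mem_filter]
    refine ⟨Finset.mem_univ _, ?_⟩
    rw [hord]; exact hx
  · intro u hu
    rw [Finset.mem_image] at hu
    obtain ⟨c, hc, rfl⟩ := hu
    exact (Finset.mem_filter.1 hc).2
  · intro g hg
    refine ⟨rep (ConjClasses.mk g), ⟨?_, ?_⟩, ?_⟩
    · rw [Finset.mem_image]
      refine ⟨ConjClasses.mk g, ?_, rfl⟩
      rw [Finset.mem_filter]
      refine ⟨Finset.mem_univ _, ?_⟩
      rw [hord]; exact hg
    · rw [← ConjClasses.mk_eq_mk_iff_isConj, hrep]
    · rintro u ⟨hu, hgu⟩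
      rw [Finset.mem_image] at hu
      obtain ⟨c, -, rfl⟩ := hu
      rw [← ConjClasses.mk_eq_mk_iff_isConj, hrep] at hgu
      rw [hgu]

open Classical in
/-- the second main theorem as an expansion of `χ(x y)` -/
theorem apply_mul_eq_sum_blockPart [Finite G] {p : ℕ} [Fact p.Prime] {M : Ideal AlgInt}
    (hM : IsPModular p M) {x : G}
    {k : ℕ} (hx : orderOf x = p ^ k) [Fintype (Subgroup.centralizer ({x} : Set G))]
    {B : Set (IrrCharacter G)} (hB : IsPBlock M B) {χ : IrrCharacter G} (hχ : χ ∈ B)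
    (y : Subgroup.centralizer ({x} : Set G)) (hy : ¬ p ∣ orderOf y) :
    (χ : G → ℂ) (x * y) = ∑ b ∈ (pblocks M (Subgroup.centralizer ({x} : Set G))).filter
        (fun b => IsInducedBlock M (Subgroup.centralizer ({x} : Set G)) b B),
      blockPart b (fun c : Subgroup.centralizer ({x} : Set G) => (χ : G → ℂ) (x * c)) y := by
  have hMp := isPrime_of_isPModular hM
  have h1 := Cfsg.Agent.S0924.sum_blockPart (M := M)
    (isClassFunction_shift (isClassFunction_of_irr χ.2) x) y
  rw [← Finset.sum_filter_add_sum_filter_not (pblocks M (Subgroup.centralizer ({x} : Set G)))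
    (fun b => IsInducedBlock M (Subgroup.centralizer ({x} : Set G)) b B)] at h1
  rw [← h1]
  apply add_eq_left.2
  apply Finset.sum_eq_zero
  intro b hb
  obtain ⟨hb1, hb2⟩ := Finset.mem_filter.1 hb
  exact Cfsg.Agent.S0923.result p M hM x ⟨k, hx⟩ B hB χ hχ b (mem_pblocks.1 hb1) hb2 y hy

theorem exists_induced_of_ne_zero [Finite G] {p : ℕ} [Fact p.Prime] {M : Ideal AlgInt}
    (hM : IsPModular p M) {x : G}
    {k : ℕ} (hx : orderOf x = p ^ k)
    {B : Set (IrrCharacter G)} (hB : IsPBlock M B) {χ : IrrCharacter G} (hχ : χ ∈ B)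
    (y : Subgroup.centralizer ({x} : Set G)) (hy : ¬ p ∣ orderOf y)
    (hne : (χ : G → ℂ) (x * y) ≠ 0) :
    ∃ b, IsInducedBlock M (Subgroup.centralizer ({x} : Set G)) b B := by
  classical
  cases nonempty_fintype G
  by_contra hcon
  push Not at hcon
  apply hne
  rw [apply_mul_eq_sum_blockPart hM hx hB hχ y hy]
  apply Finset.sum_eq_zero
  intro b hb
  exact absurd (Finset.mem_filter.1 hb).2 (hcon b)

/-- if `k(B) ≤ 2` then at most one block of the centralizer of a nontrivial `p`-element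
induces `B` -/
theorem induced_unique_of_card_le_two [Finite G] {p : ℕ} [Fact p.Prime] {M : Ideal AlgInt}
    (hM : IsPModular p M) {B : Set (IrrCharacter G)} (hB : IsPBlock M B) (hk : Nat.card B ≤ 2)
    {x : G} {k : ℕ} (hx : orderOf x = p ^ k) (hx1 : x ≠ 1)
    {b b' : Set (IrrCharacter (Subgroup.centralizer ({x} : Set G)))}
    (hb : IsInducedBlock M (Subgroup.centralizer ({x} : Set G)) b B)
    (hb' : IsInducedBlock M (Subgroup.centralizer ({x} : Set G)) b' B) : b = b' := by
  classical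
  cases nonempty_fintype G
  have hp : p.Prime := hM.1
  have htop := ne_top_of_isPModular hM
  obtain ⟨X, hxX, hX, hXrep⟩ := exists_rep_set p x ⟨k, hx⟩
  have h1X : (1 : G) ∈ X := by
    obtain ⟨u, ⟨hu, hc⟩, -⟩ := hXrep 1 ⟨0, by simp⟩
    rw [isConj_one_right] at hc
    rwa [hc] at hu
  have hcount := Cfsg.Agent.S4511.result p M hM B hB X hX hXrep
  have hsub : ({1, x} : Finset G) ⊆ X := by
    intro u hu
    rw [Finset.mem_insert, Finset.mem_singleton] at hu
    rcases hu with rfl | rfl
    · exact h1X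
    · exact hxX
  have hle := Finset.sum_le_sum_of_subset (f := fun x => ∑ᶠ b ∈ {b : Set (Cfsg.IrrCharacter
    ↥(Subgroup.centralizer ({x} : Set G))) | Cfsg.IsInducedBlock M
      (Subgroup.centralizer ({x} : Set G)) b B}, Cfsg.blockRank p b) hsub
  rw [← hcount, Finset.sum_pair hx1.symm] at hle
  obtain ⟨χ, hχ⟩ := nonempty_of_isPBlock htop hB
  obtain ⟨b₁, hb₁⟩ := exists_induced_of_ne_zero hM (x := 1) (k := 0) (by simp) hB hχ 1
    (by rw [orderOf_one]; exact hp.one_lt.ne' ∘ Nat.dvd_one.1)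
    (by simpa using irr_apply_one_ne_zero χ)
  have hT1 : 1 ≤ ∑ᶠ b ∈ {b : Set (Cfsg.IrrCharacter
    ↥(Subgroup.centralizer ({(1 : G)} : Set G))) | Cfsg.IsInducedBlock M
      (Subgroup.centralizer ({(1 : G)} : Set G)) b B}, Cfsg.blockRank p b := by
    rw [finsum_mem_eq_finite_toFinset_sum _ (Set.toFinite _)]
    refine le_trans ?_ (Finset.single_le_sum (f := fun b => Cfsg.blockRank p b)
      (fun _ _ => Nat.zero_le _) (a := b₁) ?_)
    · exact blockRank_pos hp (nonempty_of_isPBlock htop hb₁.1)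
    · simpa using hb₁
  by_contra hne
  have hTx : 2 ≤ ∑ᶠ b ∈ {b : Set (Cfsg.IrrCharacter
    ↥(Subgroup.centralizer ({x} : Set G))) | Cfsg.IsInducedBlock M
      (Subgroup.centralizer ({x} : Set G)) b B}, Cfsg.blockRank p b := by
    rw [finsum_mem_eq_finite_toFinset_sum _ (Set.toFinite _)]
    have hsub2 : ({b, b'} : Finset (Set (Cfsg.IrrCharacter
        ↥(Subgroup.centralizer ({x} : Set G))))) ⊆ (Set.toFinite {b : Set (Cfsg.IrrCharacter
        ↥(Subgroup.centralizer ({x} : Set G))) | Cfsg.IsInducedBlock M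
        (Subgroup.centralizer ({x} : Set G)) b B}).toFinset := by
      intro c hc
      rw [Finset.mem_insert, Finset.mem_singleton] at hc
      rcases hc with rfl | rfl
      · simpa using hb
      · simpa using hb'
    refine le_trans ?_ (Finset.sum_le_sum_of_subset (f := fun b => Cfsg.blockRank p b) hsub2)
    rw [Finset.sum_pair hne]
    have h1 := blockRank_pos hp (nonempty_of_isPBlock htop hb.1)
    have h2 := blockRank_pos hp (nonempty_of_isPBlock htop hb'.1)
    omega
  omega

end Cfsg.Agent.Lib.Helper23.Subsect
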