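import Cfsg.Agent.Lib.Helper23.Subsect
import Cfsg.Agent.Lib.Helper23.OmegaP
import Cfsg.Agent.CharLib.PSection

/-! Subsections and characters of height zero (Brauer, Broué). -/

set_option autoImplicit false
open Cfsg Cfsg.Agent.CharLib Cfsg.Agent.BlockLib Cfsg.Agent.Lib.Helper23 Cfsg.Agent.Lib.Helper23.MinMax
  Cfsg.Agent.Lib.Helper23.Trunc Cfsg.Agent.H6.BlockSection Cfsg.Agent.Lib.Helper23.Sect
  Cfsg.Agent.Lib.Helper23.Defect01 Cfsg.Agent.Lib.Helper23.OmegaP
open scoped ComplexConjugate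

namespace Cfsg.Agent.Lib.Helper23.Subsect

universe u
variable {G : Type u} [Group G]

theorem isClassFunction_shift' {f : G → ℂ} (hf : IsClassFunction G f) {H : Subgroup G} {z : G}
    (hz : ∀ h ∈ H, z * h = h * z) : IsClassFunction H (fun c : H => f (z * (c : G))) := by
  intro c d
  show f (z * ((d : G) * (c : G) * (d : G)⁻¹)) = f (z * (c : G))
  rw [← hf (z * (c : G)) (d : G)]
  congr 1
  rw [← mul_assoc, ← mul_assoc, ← mul_assoc, hz d d.2]

theorem memLocalIdeal_omega_of_ideal [Fintype G] {M : Ideal AlgInt} [M.IsPrime] {χ f : G → ℂ}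
    (hχ : IsIrrCharacter G χ) (hf : IsClassFunction G f) (hfR : ∀ g, MemLocalIdeal M (f g)) :
    MemLocalIdeal M (omega χ f) := by
  classical
  rw [omega_eq_sum_classes (isClassFunction_of_irr hχ) hf]
  refine memLocalIdeal_sum _ _ fun C _ => memLocalIdeal_mul_right (hfR _) ?_
  exact memLocalRing_of_isIntegral (Ideal.IsPrime.ne_top ‹_›) (isIntegral_centralChar_irr hχ _)

theorem omega_sub' [Fintype G] (χ f g : G → ℂ) :
    omega χ f - omega χ g = omega χ (fun x => f x - g x) := by
  rw [omega, omega, omega, ← sub_div, ← Finset.sum_sub_distrib]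
  congr 1
  apply Finset.sum_congr rfl
  intro x _
  ring

/-- the number `∑_{h regular} ξ(h) conj χ(z h) / ξ(1)` -/
noncomputable def Tnum (p : ℕ) (H : Subgroup G) [Fintype H] (z : G) (χ : G → ℂ) (ξ : H → ℂ) : ℂ :=
  omega ξ (fun h : H => if p ∣ orderOf h then 0 else conj (χ (z * h)))

theorem Tnum_congr [Fintype G] {p : ℕ} {M : Ideal AlgInt} (hM : IsPModular p M) {H : Subgroup G}
    [Fintype H] {b : Set (IrrCharacter H)} {B : Set (IrrCharacter G)}
    (hind : IsInducedBlock M H b B) {ξ : IrrCharacter H} (hξ : ξ ∈ b) {χ : IrrCharacter G}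
    (hχ : χ ∈ B) {z : G} (hz : ∀ h ∈ H, z * h = h * z) {k : ℕ} (hzk : z ^ (p ^ k) = 1) :
    MemLocalIdeal M (Tnum p H z (χ : G → ℂ) (ξ : H → ℂ) - omega (χ : G → ℂ) (cf p (χ : G → ℂ))) := by
  have hMp := isPrime_of_isPModular hM
  have htop := ne_top_of_isPModular hM
  have h2 := memLocalIdeal_omega_sub_of_induced hind hξ hχ
    (isClassFunction_cf p (isClassFunction_of_irr χ.2)) (memLocalRing_cf htop p χ)
  have h1 : MemLocalIdeal M (Tnum p H z (χ : G → ℂ) (ξ : H → ℂ) -
      omega (ξ : H → ℂ) (fun h : H => cf p (χ : G → ℂ) h)) := by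
    rw [Tnum, omega_sub']
    apply memLocalIdeal_omega_of_ideal ξ.2
    · intro c d
      have e1 : orderOf (d * c * d⁻¹) = orderOf c := orderOf_conj' c d
      have e2 := isClassFunction_shift' (isClassFunction_of_irr χ.2) hz c d
      have e3 := isClassFunction_cf p (isClassFunction_of_irr χ.2) (c : G) (d : G)
      simp only at e2
      simp only [e1, e2]
      have e4 : ((d * c * d⁻¹ : H) : G) = (d : G) * c * (d : G)⁻¹ := by simp
      rw [e4, e3]
    · intro h
      simp only [cf, trunc_apply, Subgroup.orderOf_coe]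
      split_ifs with hh
      · rw [map_zero, sub_zero]; exact memLocalIdeal_zero htop
      · rw [one_mul, ← isCharacter_inv (isCharacter_of_irr χ.2),
          ← isCharacter_inv (isCharacter_of_irr χ.2)]
        have e : (z * (h : G))⁻¹ = z⁻¹ * (h : G)⁻¹ := by
          rw [hz h h.2, mul_inv_rev]
        rw [e]
        apply Cfsg.Agent.CharLib.H2.memLocalIdeal_char_mul_sub hM (isCharacter_of_irr χ.2) (k := k)
        · exact ((show Commute z (h : G) from hz h h.2).inv_inv)
        · rw [inv_pow, hzk, inv_one]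
  have := memLocalIdeal_add h1 h2
  rwa [sub_add_sub_cancel] at this

/-- for `χ` of height zero the number `Tnum` is a unit -/
theorem Tnum_unit [Fintype G] {p : ℕ} {M : Ideal AlgInt} (hM : IsPModular p M) {H : Subgroup G}
    [Fintype H] {b : Set (IrrCharacter H)} {B : Set (IrrCharacter G)}
    (hind : IsInducedBlock M H b B) {ξ : IrrCharacter H} (hξ : ξ ∈ b) {χ : IrrCharacter G}
    (hχ : χ ∈ B) (hh : (charDegree (χ : G → ℂ)).factorization p = minExp p B)
    {z : G} (hz : ∀ h ∈ H, z * h = h * z) {k : ℕ} (hzk : z ^ (p ^ k) = 1) :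
    ¬ MemLocalIdeal M (Tnum p H z (χ : G → ℂ) (ξ : H → ℂ)) := by
  have hMp := isPrime_of_isPModular hM
  intro hcon
  apply not_memLocalIdeal_omega_cf hM hind.2.1 hχ hh hχ
  have := memLocalIdeal_sub hcon (Tnum_congr hM hind hξ hχ hz hzk)
  rwa [sub_sub_cancel] at this

/-- `Tnum` only sees the `b`-part on regular elements -/
theorem Tnum_mul [Fintype G] {p : ℕ} {M : Ideal AlgInt} (hM : IsPModular p M) {H : Subgroup G}
    [Fintype H] {b : Set (IrrCharacter H)} (hb : IsPBlock M b) {ξ : IrrCharacter H} (hξ : ξ ∈ b)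
    (χ : IrrCharacter G) {z : G} (hz : ∀ h ∈ H, z * h = h * z) :
    Tnum p H z (χ : G → ℂ) (ξ : H → ℂ) * (ξ : H → ℂ) 1 = (Nat.card H : ℂ) *
      classInner (trunc p 1 (ξ : H → ℂ)) (blockPart b (fun c : H => (χ : G → ℂ) (z * c))) := by
  classical
  have hcf := isClassFunction_shift' (isClassFunction_of_irr χ.2) hz
  have h0 : (Nat.card H : ℂ) ≠ 0 := card_ne_zero_complex
  have h1 : Tnum p H z (χ : G → ℂ) (ξ : H → ℂ) * (ξ : H → ℂ) 1 = (Nat.card H : ℂ) *
      classInner (trunc p 1 (ξ : H → ℂ)) (fun c : H => (χ : G → ℂ) (z * c)) := by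
    rw [Tnum, omega, div_mul_cancel₀ _ (irr_apply_one_ne_zero ξ), classInner,
      mul_inv_cancel_left₀ h0]
    apply Finset.sum_congr rfl
    intro h _
    rw [trunc_apply]
    split_ifs <;> ring
  rw [h1]
  congr 1
  have h2 : blockPart b (fun c : H => (χ : G → ℂ) (z * c)) = ∑ ξ' ∈ Finset.univ.filter (· ∈ b),
      classInner (fun c : H => (χ : G → ℂ) (z * c)) (ξ' : H → ℂ) • (ξ' : H → ℂ) := by
    funext y
    rw [blockPart_eq_filter, Finset.sum_apply]
    rfl
  rw [h2]
  conv_lhs => rw [classFunction_eq_sum hcf]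
  rw [classInner_sum_right, classInner_sum_right, Finset.sum_filter]
  apply Finset.sum_congr rfl
  intro ξ' _
  split_ifs with h
  · rfl
  · rw [classInner_smul_right, classInner_trunc_eq_zero hM hb 1 hξ h, mul_zero]

end Cfsg.Agent.Lib.Helper23.Subsect
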