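import Mathlib
set_option autoImplicit false

namespace Cfsg.Agent.Lib.Helper23

/-- A Sylow `p`-subgroup lies in every normal subgroup of index prime to `p`. -/
theorem sylow_le_of_normal_of_not_dvd_index {G : Type*} [Group G] [Finite G] (p : ℕ) [Fact p.Prime]
    (H : Subgroup G) [H.Normal] (hp : ¬ p ∣ H.index) (P : Sylow p G) : (P : Subgroup G) ≤ H := by
  intro x hx
  obtain ⟨k, hk⟩ := P.2 ⟨x, hx⟩
  have hk' : x ^ (p ^ k) = 1 := congrArg Subtype.val hk
  have h1 : orderOf (QuotientGroup.mk x : G ⧸ H) ∣ p ^ k := by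
    apply orderOf_dvd_of_pow_eq_one
    rw [← QuotientGroup.mk_pow, hk']
    rfl
  have h2 : orderOf (QuotientGroup.mk x : G ⧸ H) ∣ H.index := by
    rw [Subgroup.index_eq_card]
    exact orderOf_dvd_natCard _
  have hcop : Nat.Coprime (p ^ k) H.index :=
    Nat.Coprime.pow_left k ((Nat.Prime.coprime_iff_not_dvd Fact.out).2 hp)
  have h3 : orderOf (QuotientGroup.mk x : G ⧸ H) = 1 := Nat.eq_one_of_dvd_coprimes hcop h1 h2
  rw [orderOf_eq_one_iff] at h3
  exact (QuotientGroup.eq_one_iff x).1 h3

/-- A normal subgroup of index prime to `p` has the same number of Sylow `p`-subgroups. -/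
theorem card_sylow_of_normal_of_not_dvd_index {G : Type*} [Group G] [Finite G] (p : ℕ) [Fact p.Prime]
    (H : Subgroup G) [H.Normal] (hp : ¬ p ∣ H.index) :
    Nat.card (Sylow p H) = Nat.card (Sylow p G) := by
  symm
  apply Nat.card_eq_of_bijective
    (fun P : Sylow p G => P.subtype (sylow_le_of_normal_of_not_dvd_index p H hp P))
  constructor
  · intro P Q h
    exact Sylow.subtype_injective h
  · intro Q
    obtain ⟨P, hP⟩ := Q.exists_comap_subtype_eq
    refine ⟨P, ?_⟩
    apply Sylow.ext
    rw [← hP]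
    rfl

/-- Two Sylow `p`-subgroups with the same image modulo a central subgroup are equal. -/
theorem sylow_eq_of_map_mk_eq {K : Type*} [Group K] (p : ℕ)
    (Z : Subgroup K) [Z.Normal] (hZ : Z ≤ Subgroup.center K) (P Q : Sylow p K)
    (h : (P : Subgroup K).map (QuotientGroup.mk' Z) = (Q : Subgroup K).map (QuotientGroup.mk' Z)) :
    P = Q := by
  have h1 : (P : Subgroup K) ⊔ Z = (Q : Subgroup K) ⊔ Z := by
    have := congrArg (Subgroup.comap (QuotientGroup.mk' Z)) h
    rwa [Subgroup.comap_map_eq, Subgroup.comap_map_eq, QuotientGroup.ker_mk'] at this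
  have hZN : Z ≤ Subgroup.normalizer ((P : Subgroup K) : Set K) := by
    rw [Subgroup.le_normalizer_iff]
    intro z hz k hk
    have := (Subgroup.mem_center_iff.1 (hZ hz)) k
    rw [← this, mul_inv_cancel_right]
    exact hk
  have hQN : (Q : Subgroup K) ≤ Subgroup.normalizer ((P : Subgroup K) : Set K) :=
    (le_sup_left.trans h1.symm.le).trans (sup_le Subgroup.le_normalizer hZN)
  have hsup : IsPGroup p ((Q : Subgroup K) ⊔ (P : Subgroup K) : Subgroup K) :=
    Q.2.to_sup_of_normal_right' P.2 hQN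
  have heq := P.3 hsup le_sup_right
  have hQP : (Q : Subgroup K) ≤ P := by
    rw [← heq]; exact le_sup_left
  exact Sylow.ext (Q.3 P.2 hQP)

/-- Factoring out a central subgroup does not change the number of Sylow `p`-subgroups. -/
theorem card_sylow_quotient_central {K : Type*} [Group K] [Finite K] (p : ℕ) [Fact p.Prime]
    (Z : Subgroup K) [Z.Normal] (hZ : Z ≤ Subgroup.center K) :
    Nat.card (Sylow p (K ⧸ Z)) = Nat.card (Sylow p K) := by
  symm
  apply Nat.card_eq_of_bijective
    (Sylow.mapSurjective (QuotientGroup.mk'_surjective Z) : Sylow p K → Sylow p (K ⧸ Z))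
  refine ⟨?_, Sylow.mapSurjective_surjective _ p⟩
  intro P Q h
  apply sylow_eq_of_map_mk_eq p Z hZ
  have := congrArg (fun R : Sylow p (K ⧸ Z) => (R : Subgroup (K ⧸ Z))) h
  simpa using this

end Cfsg.Agent.Lib.Helper23
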