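import Mathlib
import Cfsg.Agent.H4.Subnormal3

set_option autoImplicit false

namespace Cfsg.Agent.Lib.Helper23

open Subgroup
open scoped Pointwise

variable {G : Type*} [Group G]

/-- subnormality of `A` in `K` computed inside an intermediate subgroup `H`. -/
theorem isSubnormal_subgroupOf_subgroupOf {A K H : Subgroup G} (hKH : K ≤ H)
    (h : (A.subgroupOf K).IsSubnormal) :
    ((A.subgroupOf H).subgroupOf (K.subgroupOf H)).IsSubnormal := by
  have := h.comap (subgroupOfEquivOfLe hKH).toMonoidHom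
  convert this using 1
  ext x
  rfl

theorem isSubnormal_of_subgroupOf_le {A K L : Subgroup G} (hKL : K ≤ L)
    (h : (A.subgroupOf L).IsSubnormal) : (A.subgroupOf K).IsSubnormal := by
  have := h.comap (inclusion hKL)
  convert this using 1
  ext x
  rfl

theorem isSubnormal_of_subgroupOf_top {A : Subgroup G} (h : (A.subgroupOf ⊤).IsSubnormal) :
    A.IsSubnormal := by
  have := h.comap (topEquiv (G := G)).symm.toMonoidHom
  convert this using 1
  ext x
  rfl

theorem mem_conj_smul_iff' {A : Subgroup G} {g x : G} :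
    x ∈ MulAut.conj g • A ↔ g⁻¹ * x * g ∈ A := by
  rw [mem_pointwise_smul_iff_inv_smul_mem]
  simp [MulAut.smul_def]

theorem isSubnormal_conj_subgroupOf {A V : Subgroup G} (g : G)
    (h : (A.subgroupOf V).IsSubnormal) :
    ((MulAut.conj g • A).subgroupOf (MulAut.conj g • V)).IsSubnormal := by
  let f : (MulAut.conj g • V : Subgroup G) →* V :=
    MonoidHom.codRestrict ((MulAut.conj g⁻¹).toMonoidHom.comp (MulAut.conj g • V).subtype) V
      (fun x => by
        have := mem_conj_smul_iff'.1 x.2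
        simpa using this)
  have := h.comap f
  convert this using 1
  ext x
  simp only [mem_subgroupOf, mem_comap, mem_conj_smul_iff']
  simp [f]

/-- Wielandt's zipper lemma in the usual form. -/
theorem zipper [Finite G] (A : Subgroup G)
    (h : ∀ V : Subgroup G, A ≤ V → V ≠ ⊤ → (A.subgroupOf V).IsSubnormal)
    (hA : ¬ A.IsSubnormal) :
    ∃ M : Subgroup G, A ≤ M ∧ M ≠ ⊤ ∧ ∀ V : Subgroup G, A ≤ V → V ≠ ⊤ → V ≤ M := by
  have hAtop : A ≠ ⊤ := by
    rintro rfl
    exact hA IsSubnormal.top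
  have hsm : ∀ (g : G) (V : Subgroup G), V ≠ ⊤ → MulAut.conj g • V ≠ ⊤ := by
    intro g V hV h1
    apply hV
    rw [eq_top_iff] at h1 ⊢
    intro x _
    have h2 : g * x * g⁻¹ ∈ MulAut.conj g • V := h1 (mem_top _)
    rw [mem_conj_smul_iff'] at h2
    simpa [mul_assoc] using h2
  obtain ⟨M, hM, hM2⟩ := Cfsg.Agent.H4.wielandt_zipper A {V | A ≤ V ∧ V ≠ ⊤} ⟨A, le_rfl, hAtop⟩
    (fun V => {B | (∃ g : G, B = MulAut.conj g • A) ∧ B ≤ V ∧ (B.subgroupOf V).IsSubnormal})
    (fun V B => Iff.rfl)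
    (by
      rintro V ⟨hV1, hV2⟩ W - B ⟨⟨g, rfl⟩, -, -⟩ hBV
      refine ⟨⟨g, rfl⟩, hBV, ?_⟩
      have h1 : A ≤ MulAut.conj g⁻¹ • V := by
        intro x hx
        rw [mem_conj_smul_iff']
        apply hBV
        rw [mem_conj_smul_iff']
        simpa [mul_assoc] using hx
      have h2 := isSubnormal_conj_subgroupOf g (h _ h1 (hsm _ _ hV2))
      rwa [map_inv, smul_inv_smul] at h2)
    (by
      rintro V ⟨hV1, hV2⟩ W ⟨hW1, hW2⟩
      set T := sSup ({B | (∃ g : G, B = MulAut.conj g • A) ∧ B ≤ V ∧ (B.subgroupOf V).IsSubnormal} ∩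
        {B | (∃ g : G, B = MulAut.conj g • A) ∧ B ≤ W ∧ (B.subgroupOf W).IsSubnormal}) with hT
      have hAT : A ≤ T := by
        apply le_sSup
        exact ⟨⟨⟨1, by simp⟩, hV1, h V hV1 hV2⟩, ⟨⟨1, by simp⟩, hW1, h W hW1 hW2⟩⟩
      have hTV : T ≤ V := sSup_le (fun B hB => hB.1.2.1)
      refine ⟨normalizer (T : Set G), ⟨hAT.trans le_normalizer, ?_⟩, le_rfl⟩
      intro hN
      apply hA
      have hTn : T.Normal := normalizer_eq_top_iff.1 hN
      exact IsSubnormal.trans hAT (isSubnormal_of_subgroupOf_le hTV (h V hV1 hV2)) hTn.isSubnormal)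
  exact ⟨M, hM.1, hM.2, fun V h1 h2 => hM2 V ⟨h1, h2⟩⟩

end Cfsg.Agent.Lib.Helper23
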